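import Cfsg.Agent.Char.Product
import Cfsg.Agent.Char.Kernel
import Cfsg.Agent.BlkChar.RegCriterion
import Cfsg.Agent.Brauer.RegElement
import Cfsg.Agent.Lib.Element

/-!
# The principal block of a central product with intersection a `p`-group
-/

set_option autoImplicit false
set_option linter.style.haveILetI false
set_option linter.unusedSectionVars false
set_option linter.unusedVariables false

noncomputable section

open scoped ComplexConjugate BigOperators Classical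

namespace Cfsg.Agent.CentralProd

open Cfsg Cfsg.Agent.Block

universe u

variable {G : Type u} [Group G] [Fintype G] {p : ℕ} (U₁ U₂ : Subgroup G) [Fintype U₁] [Fintype U₂]
  (hcomm : ∀ u ∈ U₁, ∀ v ∈ U₂, u * v = v * u)

/-- Multiplication on the product. -/
def mulHom : U₁ × U₂ →* G where
  toFun x := (x.1 : G) * (x.2 : G)
  map_one' := by simp
  map_mul' a b := by
    show (a.1 : G) * b.1 * ((a.2 : G) * b.2) = (a.1 : G) * a.2 * ((b.1 : G) * b.2)
    rw [mul_assoc, ← mul_assoc (b.1 : G), hcomm _ b.1.2 _ a.2.2, mul_assoc (a.2 : G), ← mul_assoc]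

theorem mulHom_surjective (hgen : U₁ ⊔ U₂ = ⊤) : Function.Surjective (mulHom U₁ U₂ hcomm) := by
  rw [← MonoidHom.range_eq_top, eq_top_iff, ← hgen, sup_le_iff]
  exact ⟨fun u hu => ⟨(⟨u, hu⟩, 1), by simp [mulHom]⟩, fun v hv => ⟨(1, ⟨v, hv⟩), by simp [mulHom]⟩⟩

include hcomm in
/-- The regular elements are the products of regular elements, uniquely. -/
theorem regTotal_eq_mul [Fact p.Prime] (hgen : U₁ ⊔ U₂ = ⊤) (hZ : IsPGroup p ↥(U₁ ⊓ U₂))
    (χ : G → ℂ) (α : U₁ → ℂ) (β : U₂ → ℂ) (h : ∀ a b, χ (mulHom U₁ U₂ hcomm (a, b)) = α a * β b) :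
    BlkChar.regTotal p χ = BlkChar.regTotal p α * BlkChar.regTotal p β := by
  have hp : p.Prime := Fact.out
  rw [BlkChar.regTotal_eq, BlkChar.regTotal_eq, BlkChar.regTotal_eq, Finset.sum_mul_sum,
    ← Finset.sum_product']
  symm
  refine Finset.sum_bij (fun x _ => mulHom U₁ U₂ hcomm x) ?_ ?_ ?_ ?_
  · intro x hx
    simp only [Finset.mem_product, Finset.mem_filter, Finset.mem_univ, true_and] at hx ⊢
    intro hd
    rcases (hp.dvd_mul).mp (hd.trans ((orderOf_map_dvd (mulHom U₁ U₂ hcomm) x).trans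
      (by rw [Prod.orderOf]; exact Nat.lcm_dvd_mul _ _))) with h' | h'
    · exact hx.1 h'
    · exact hx.2 h'
  · rintro ⟨a, b⟩ hx ⟨a', b'⟩ hx' e
    simp only [Finset.mem_product, Finset.mem_filter, Finset.mem_univ, true_and] at hx hx'
    have e' : (a : G) * b = a' * b' := e
    have hz : (a' : G)⁻¹ * a = (b' : G) * (b : G)⁻¹ := by
      rw [eq_mul_inv_iff_mul_eq, mul_assoc, e', inv_mul_cancel_left]
    have hm1 : (a' : G)⁻¹ * a ∈ U₁ := U₁.mul_mem (U₁.inv_mem a'.2) a.2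
    have hm2 : (a' : G)⁻¹ * a ∈ U₂ := hz ▸ U₂.mul_mem b'.2 (U₂.inv_mem b.2)
    obtain ⟨k, hk⟩ := IsPGroup.iff_orderOf.mp hZ ⟨_, ⟨hm1, hm2⟩⟩
    rw [← Subgroup.orderOf_coe] at hk
    have hc : Commute (a' : G) ((a' : G)⁻¹ * a) := hcomm _ a'.2 _ hm2
    have hd : orderOf ((a' : G)⁻¹ * a) ∣ Nat.lcm (orderOf (a' : G)) (orderOf (a : G)) := by
      have hca : Commute (a : G) ((a' : G)⁻¹ * a) := hcomm _ a.2 _ hm2
      have h1 : Commute (a' : G)⁻¹ (a : G) := by
        have := hc.inv_left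
        have h2 : (a' : G)⁻¹ * ((a' : G)⁻¹ * a) = (a' : G)⁻¹ * a * (a' : G)⁻¹ := this
        rw [mul_assoc (a' : G)⁻¹ (a : G)] at h2
        exact mul_left_cancel h2
      simpa [orderOf_inv] using h1.orderOf_mul_dvd_lcm
    rw [hk] at hd
    have hk0 : k = 0 := by
      by_contra h0
      rcases (hp.dvd_mul).mp ((dvd_pow_self p h0).trans (hd.trans (Nat.lcm_dvd_mul _ _))) with h' | h'
      · exact hx'.1 (by rwa [Subgroup.orderOf_coe] at h')
      · exact hx.1 (by rwa [Subgroup.orderOf_coe] at h')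
    rw [hk0, pow_zero, orderOf_eq_one_iff, inv_mul_eq_one] at hk
    have ha : a = a' := Subtype.ext hk.symm
    subst ha
    exact Prod.ext rfl (Subtype.ext (mul_left_cancel e'))
  · intro g hg
    simp only [Finset.mem_filter, Finset.mem_univ, true_and] at hg
    obtain ⟨⟨a, b⟩, hab⟩ := mulHom_surjective U₁ U₂ hcomm hgen g
    set x : U₁ × U₂ := (a, b)
    refine ⟨Element.pComplPart p x, ?_, ?_⟩
    · simp only [Finset.mem_product, Finset.mem_filter, Finset.mem_univ, true_and]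
      have hc := Element.coprime_orderOf_pComplPart hp x
      constructor
      · intro hd
        have h1 : orderOf (Element.pComplPart p x).1 ∣ orderOf (Element.pComplPart p x) :=
          orderOf_map_dvd (MonoidHom.fst U₁ U₂) _
        exact (Nat.Prime.coprime_iff_not_dvd hp).mp hc.symm (hd.trans h1)
      · intro hd
        have h1 : orderOf (Element.pComplPart p x).2 ∣ orderOf (Element.pComplPart p x) :=
          orderOf_map_dvd (MonoidHom.snd U₁ U₂) _
        exact (Nat.Prime.coprime_iff_not_dvd hp).mp hc.symm (hd.trans h1)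
    · have h1 := (Element.map_pPart hp (mulHom U₁ U₂ hcomm) x).1
      have h2 : Element.pPart p g = 1 :=
        (Element.pPart_eq_one hp ((Nat.Prime.coprime_iff_not_dvd hp).mpr hg).symm).1
      have h3 := congrArg (mulHom U₁ U₂ hcomm) (Element.pPart_mul_pComplPart p x)
      rw [map_mul, h1, show mulHom U₁ U₂ hcomm x = g from hab, h2, one_mul] at h3
      exact h3
  · intro x _
    exact (h x.1 x.2).symm

include hcomm in
theorem principal_iff [Fact p.Prime] {M : Ideal AlgInt} (hM : IsPModular p M) (hgen : U₁ ⊔ U₂ = ⊤)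
    (hZ : IsPGroup p ↥(U₁ ⊓ U₂)) (χ : IrrCharacter G) (ψ₁ : IrrCharacter U₁) (ψ₂ : IrrCharacter U₂)
    (h₁ : classInner (fun u : U₁ => (χ : G → ℂ) u) (ψ₁ : U₁ → ℂ) ≠ 0)
    (h₂ : classInner (fun u : U₂ => (χ : G → ℂ) u) (ψ₂ : U₂ → ℂ) ≠ 0) :
    χ ∈ principalBlock M G ↔ ψ₁ ∈ principalBlock M U₁ ∧ ψ₂ ∈ principalBlock M U₂ := by
  haveI : M.IsPrime := hM.2.1.isPrime
  obtain ⟨α, β, hαβ⟩ := Char.exists_irr_prodMul
    (Char.isIrrCharacter_comp χ.2 (mulHom U₁ U₂ hcomm) (mulHom_surjective U₁ U₂ hcomm hgen))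
  have h : ∀ a b, (χ : G → ℂ) (mulHom U₁ U₂ hcomm (a, b)) = (α : U₁ → ℂ) a * (β : U₂ → ℂ) b :=
    fun a b => congrFun hαβ (a, b)
  have e1 : (fun u : U₁ => (χ : G → ℂ) u) = (β : U₂ → ℂ) 1 • (α : U₁ → ℂ) := by
    funext u
    rw [show (u : G) = mulHom U₁ U₂ hcomm (u, 1) by simp [mulHom], h, Pi.smul_apply, smul_eq_mul,
      mul_comm]
  have e2 : (fun u : U₂ => (χ : G → ℂ) u) = (α : U₁ → ℂ) 1 • (β : U₂ → ℂ) := by
    funext u
    rw [show (u : G) = mulHom U₁ U₂ hcomm (1, u) by simp [mulHom], h, Pi.smul_apply, smul_eq_mul]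
  have hα : ψ₁ = α := by
    by_contra hne
    apply h₁
    rw [e1, Char.classInner_smul_left,
      Char.classInner_irr_ne α.2 ψ₁.2 fun e => hne (Subtype.ext e).symm, mul_zero]
  have hβ : ψ₂ = β := by
    by_contra hne
    apply h₂
    rw [e2, Char.classInner_smul_left,
      Char.classInner_irr_ne β.2 ψ₂.2 fun e => hne (Subtype.ext e).symm, mul_zero]
  subst hα hβ
  have hR := regTotal_eq_mul U₁ U₂ hcomm hgen hZ (χ : G → ℂ) _ _ h
  have hχ1 : (χ : G → ℂ) 1 = (ψ₁ : U₁ → ℂ) 1 * (ψ₂ : U₂ → ℂ) 1 := by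
    rw [← h 1 1]; simp [mulHom]
  rw [BlkChar.mem_principalBlock_iff_regTotal hM, BlkChar.mem_principalBlock_iff_regTotal hM,
    BlkChar.mem_principalBlock_iff_regTotal hM, hR, hχ1, mul_div_mul_comm]
  have l1 : MemLocalRing M (BlkChar.regTotal p (ψ₁ : U₁ → ℂ) / (ψ₁ : U₁ → ℂ) 1) := by
    have h5 := Brauer.regSum_div_memLocalRing hM (Char.isCharacter_const_one (G := U₁)) ψ₁
    rw [BlkChar.regTotal_eq]
    simpa [Brauer.regSum] using h5
  have l2 : MemLocalRing M (BlkChar.regTotal p (ψ₂ : U₂ → ℂ) / (ψ₂ : U₂ → ℂ) 1) := by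
    have h5 := Brauer.regSum_div_memLocalRing hM (Char.isCharacter_const_one (G := U₂)) ψ₂
    rw [BlkChar.regTotal_eq]
    simpa [Brauer.regSum] using h5
  constructor
  · exact fun hn => ⟨fun hh => hn (memLocalIdeal_mul_right hh l2),
      fun hh => hn (memLocalIdeal_mul_left l1 hh)⟩
  · rintro ⟨n1, n2⟩ hh
    apply n2
    have := memLocalIdeal_mul_left (memLocalRing_inv l1 n1) hh
    rwa [inv_mul_cancel_left₀ (fun h0 => n1 (by rw [h0]; exact memLocalIdeal_zero))] at this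

end Cfsg.Agent.CentralProd
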