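import Cfsg.Agent.BlockVal.FixedOver

/-!
# Existence and uniqueness of the fixed character over a fixed character
-/

set_option autoImplicit false
set_option linter.style.haveILetI false
set_option linter.unusedSectionVars false
set_option linter.unusedVariables false

noncomputable section

open scoped ComplexConjugate BigOperators Classical Pointwise

namespace Cfsg.Agent.FixedOver

open Cfsg

universe u

theorem hk₂_sub {G : Type u} [Group G] {k : ℕ} (hk₂ : ∀ g : G, Odd (orderOf g) → g ^ k = g⁻¹)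
    (H : Subgroup G) : ∀ h : H, Odd (orderOf h) → h ^ k = h⁻¹ := fun h hh =>
  Subtype.ext (by
    rw [SubmonoidClass.coe_pow, Subgroup.coe_inv]
    exact hk₂ _ (by rwa [Subgroup.orderOf_coe]))

theorem over_of_res {G : Type u} [Group G] [Fintype G] (N : Subgroup G) [Fintype N] {θ : N → ℂ}
    (hθ : IsIrrCharacter N θ) {χ : G → ℂ} (h : ∀ n : N, χ n = θ n) : Over N χ θ := by
  rw [Over, show (fun n : N => χ n) = θ from funext h, Char.classInner_irr_self hθ]
  exact one_ne_zero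

/-- A fixed invariant character extends when the quotient is a `p`-group of odd order. -/
theorem exists_fixed_ext_pGroup {p : ℕ} [Fact p.Prime] : ∀ (m : ℕ) (G : Type u) [Group G]
    [Fintype G] (N : Subgroup G) [hN : N.Normal] [Fintype N] (θ : N → ℂ), IsIrrCharacter N θ →
    (∀ (g : G) (n : N), θ ⟨g * n * g⁻¹, hN.conj_mem n n.2 g⟩ = θ n) →
    N.index = p ^ m → Odd N.index → ∀ k : ℕ, Nat.Coprime k (Nat.card G) →
    (∀ g : G, Odd (orderOf g) → g ^ k = g⁻¹) → (∀ n : N, θ (n ^ k) = θ n) →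
    ∃ χ : G → ℂ, IsIrrCharacter G χ ∧ (∀ n : N, χ n = θ n) ∧ ∀ g, χ (g ^ k) = χ g := by
  intro m
  induction m with
  | zero =>
    intro G _ _ N hN _ θ hθ hinv hidx hodd k hk hk₂ hfix
    rw [pow_zero, Subgroup.index_eq_one] at hidx
    subst hidx
    exact ⟨fun g => θ ⟨g, Subgroup.mem_top g⟩,
      Char.isIrrCharacter_comp_mulEquiv hθ Subgroup.topEquiv.symm, fun n => rfl,
      fun g => hfix ⟨g, Subgroup.mem_top g⟩⟩
  | succ m ih =>
    intro G _ _ N hN _ θ hθ hinv hidx hodd k hk hk₂ hfix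
    have hp : p.Prime := Fact.out
    have hQ : Nat.card (G ⧸ N) = p ^ (m + 1) := hidx
    obtain ⟨H, hHc⟩ := Sylow.exists_subgroup_card_pow_prime (G := G ⧸ N) p
      (n := m) (hQ ▸ pow_dvd_pow p (Nat.le_succ m))
    have hHi : H.index = p := by
      have := H.card_mul_index
      rw [hHc, hQ, pow_succ] at this
      exact Nat.eq_of_mul_eq_mul_left (pow_pos hp.pos m) this
    haveI hHn : H.Normal := by
      refine Subgroup.normal_of_index_eq_minFac_card ?_
      rw [hHi, hQ, Nat.pow_minFac (Nat.succ_ne_zero m), hp.minFac_eq]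
    set M := H.comap (QuotientGroup.mk' N) with hM
    haveI hMn : M.Normal := hHn.comap _
    have hMi : M.index = p := by
      rw [hM, Subgroup.index_comap_of_surjective _ (QuotientGroup.mk'_surjective N), hHi]
    have hNM : N ≤ M := fun x hx => by
      rw [hM, Subgroup.mem_comap, QuotientGroup.mk'_apply, (QuotientGroup.eq_one_iff x).mpr hx]
      exact one_mem H
    have hrel : (N.subgroupOf M).index = p ^ m := by
      have := Subgroup.relIndex_mul_index hNM
      rw [hMi, hidx, pow_succ] at this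
      exact Nat.eq_of_mul_eq_mul_right hp.pos this
    have hodd' : Odd (N.subgroupOf M).index := by
      rw [hrel]
      rw [hidx, pow_succ] at hodd
      exact (Nat.odd_mul.mp hodd).1
    set em := Subgroup.subgroupOfEquivOfLe hNM with hem
    set θ' : N.subgroupOf M → ℂ := fun x => θ (em x) with hθ'
    have hθ'irr : IsIrrCharacter (N.subgroupOf M) θ' := Char.isIrrCharacter_comp_mulEquiv hθ em
    have hinv' : ∀ (g : M) (n : N.subgroupOf M),
        θ' ⟨g * n * g⁻¹, (Subgroup.Normal.subgroupOf hN M).conj_mem n n.2 g⟩ = θ' n :=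
      fun g n => hinv (g : G) (em n)
    have hfix' : ∀ n : N.subgroupOf M, θ' (n ^ k) = θ' n := fun n => by
      simp only [hθ', map_pow]
      exact hfix _
    haveI : (N.subgroupOf M).Normal := Subgroup.Normal.subgroupOf hN M
    obtain ⟨ψ, hψ, hψres, hψfix⟩ := ih M (N.subgroupOf M) θ' hθ'irr hinv' hrel hodd' k
      (coprime_sub hk M) (hk₂_sub hk₂ M) hfix'
    have hψinv : ∀ (g : G) (x : M), ψ ⟨g * x * g⁻¹, hMn.conj_mem x x.2 g⟩ = ψ x := by
      intro g x
      have h := unique_fixed (N.subgroupOf M) hθ'irr hinv' hodd' (coprime_sub hk M) (hk₂_sub hk₂ M)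
        hfix' (χ := CharInd.conjChar M g ψ) (χ' := ψ) (CharInd.conjChar_irr M g hψ) hψ
        (over_of_res _ hθ'irr fun n => by
          simp only [CharInd.conjChar_apply]
          have h1 := hψres ⟨⟨g * ((n : M) : G) * g⁻¹, hMn.conj_mem _ (n : M).2 g⟩,
            hN.conj_mem _ n.2 g⟩
          exact h1.trans (hinv g (em n)))
        (over_of_res _ hθ'irr hψres) (fun y => by
          simp only [CharInd.conjChar_apply, SubmonoidClass.coe_pow, ← conj_pow]
          exact hψfix ⟨g * y * g⁻¹, hMn.conj_mem y y.2 g⟩) hψfix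
      exact congrFun h x
    have hcyc : IsCyclic (G ⧸ M) := by
      refine isCyclic_of_prime_card (p := p) ?_
      exact hMi
    obtain ⟨η, hη, hηres⟩ := Cfsg.Agent.S0886.result M hcyc ψ hψ hψinv
    refine fixed_ext_of_ext N hθ hinv hodd hk hk₂ hfix hη fun n => ?_
    exact (hηres ⟨n, hNM n.2⟩).trans (hψres ⟨⟨n, hNM n.2⟩, n.2⟩)

/-- A fixed invariant character has a fixed extension. -/
theorem exists_fixed_ext {G : Type u} [Group G] [Fintype G] (N : Subgroup G) [hN : N.Normal]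
    [Fintype N] {θ : N → ℂ} (hθ : IsIrrCharacter N θ)
    (hinv : ∀ (g : G) (n : N), θ ⟨g * n * g⁻¹, hN.conj_mem n n.2 g⟩ = θ n)
    (hidx : Odd N.index) {k : ℕ} (hk : Nat.Coprime k (Nat.card G))
    (hk₂ : ∀ g : G, Odd (orderOf g) → g ^ k = g⁻¹) (hfix : ∀ n : N, θ (n ^ k) = θ n) :
    ∃ χ : G → ℂ, IsIrrCharacter G χ ∧ (∀ n : N, χ n = θ n) ∧ ∀ g, χ (g ^ k) = χ g := by
  obtain ⟨η, hη, hres⟩ := Cfsg.Agent.S0888.result N θ hθ hinv fun p hp => by
    haveI := Fact.mk hp
    obtain ⟨R⟩ := (inferInstance : Nonempty (Sylow p (G ⧸ N)))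
    set P := (R : Subgroup (G ⧸ N)).comap (QuotientGroup.mk' N) with hP
    have hNP : N ≤ P := fun x hx => by
      rw [hP, Subgroup.mem_comap, QuotientGroup.mk'_apply, (QuotientGroup.eq_one_iff x).mpr hx]
      exact one_mem _
    have hPi : P.index = (R : Subgroup (G ⧸ N)).index :=
      Subgroup.index_comap_of_surjective _ (QuotientGroup.mk'_surjective N)
    obtain ⟨r, hr⟩ := IsPGroup.iff_card.mp R.2
    have hrel : N.relIndex P = p ^ r := by
      have h1 := Subgroup.relIndex_mul_index hNP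
      have h2 := (R : Subgroup (G ⧸ N)).card_mul_index
      rw [hr, ← Subgroup.index_eq_card, ← h1, hPi] at h2
      exact (Nat.eq_of_mul_eq_mul_right (Nat.pos_of_ne_zero Subgroup.index_ne_zero_of_finite) h2).symm
    have hodd' : Odd (N.subgroupOf P).index :=
      hidx.of_dvd_nat (Dvd.intro _ (Subgroup.relIndex_mul_index hNP))
    set em := Subgroup.subgroupOfEquivOfLe hNP
    haveI : (N.subgroupOf P).Normal := Subgroup.Normal.subgroupOf hN P
    obtain ⟨χ, hχ, hχres, -⟩ := exists_fixed_ext_pGroup (p := p) r P (N.subgroupOf P)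
      (fun x => θ (em x)) (Char.isIrrCharacter_comp_mulEquiv hθ em)
      (fun g n => hinv (g : G) (em n)) hrel hodd' k (coprime_sub hk P) (hk₂_sub hk₂ P)
      (fun n => by
        simp only [map_pow]
        exact hfix _)
    refine ⟨P, hNP, χ, ?_, ⟨r, hrel⟩, hχ, fun n => hχres ⟨⟨n, hNP n.2⟩, n.2⟩⟩
    rw [hPi, Nat.coprime_comm, hp.coprime_iff_not_dvd]
    exact R.not_dvd_index
  exact fixed_ext_of_ext N hθ hinv hidx hk hk₂ hfix hη hres

theorem indFun_pow {G : Type u} [Group G] [Fintype G] {k : ℕ} (hk : Nat.Coprime k (Nat.card G))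
    (H : Subgroup G) (f : H → ℂ) (g : G) :
    indFun H f (g ^ k) = indFun H (fun h => f (h ^ k)) g := by
  rw [CharInd.indFun_apply, CharInd.indFun_apply]
  congr 1
  refine Finset.sum_congr rfl fun x _ => ?_
  rw [show x⁻¹ * g ^ k * x = (x⁻¹ * g * x) ^ k by
    have h := conj_pow (a := x⁻¹) (b := g) (i := k)
    rw [inv_inv] at h
    exact h.symm]
  set y := x⁻¹ * g * x
  by_cases hy : y ∈ H
  · rw [CharInd.extendByZero_mem H _ (H.pow_mem hy k), CharInd.extendByZero_mem H _ hy]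
    rfl
  · rw [CharInd.extendByZero_notMem H _ hy, CharInd.extendByZero_notMem H _]
    intro h
    apply hy
    have h1 : (powCoprime hk.symm).symm (y ^ k) = y := by
      rw [← powCoprime_apply hk.symm, Equiv.symm_apply_apply]
    rw [← h1, powCoprime_symm_apply]
    exact H.zpow_mem h _

/-- Two characters of the stabiliser over `θ` below the same character, one of them carrying the
whole multiplicity, coincide. -/
theorem eq_of_below {G : Type u} [Group G] [Fintype G] (N T : Subgroup G) [Fintype N] [Fintype T]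
    (hNT : N ≤ T) {θ : N → ℂ} (hθ : IsIrrCharacter N θ) {χ : G → ℂ} (hχ : IsIrrCharacter G χ)
    {ψ ψ' : T → ℂ} (hψ : IsIrrCharacter T ψ) (hψ' : IsIrrCharacter T ψ')
    (hb : classInner (fun t : T => χ t) ψ ≠ 0) (hb' : classInner (fun t : T => χ t) ψ' ≠ 0)
    (hfull : classInner (fun n : N => ψ' ⟨n, hNT n.2⟩) θ = classInner (fun n : N => χ n) θ)
    (hov : classInner (fun n : N => ψ ⟨n, hNT n.2⟩) θ ≠ 0) : ψ = ψ' := by
  by_contra hne
  obtain ⟨c, hc, hcv⟩ := Char.isCharacter_exists_coeff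
    (Char.isCharacter_restrict (Char.isCharacter_of_irr hχ) T)
  have hR : ∀ ξ : IrrCharacter T, ∃ j : ℕ,
      classInner (fun n : N => (ξ : T → ℂ) ⟨n, hNT n.2⟩) θ = j := fun ξ =>
    Char.isCharacter_classInner_nat
      (CharInd.isCharacter_comp (Subgroup.inclusion hNT) (Char.isCharacter_of_irr ξ.2)) ⟨θ, hθ⟩
  choose j hj using hR
  have hsum : classInner (fun n : N => χ n) θ = ((∑ ξ, c ξ * j ξ : ℕ) : ℂ) := by
    have e : (fun n : N => χ n) = ∑ ξ : IrrCharacter T,
        (c ξ : ℂ) • (fun n : N => (ξ : T → ℂ) ⟨n, hNT n.2⟩) := by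
      funext n
      have := congrFun hc ⟨n, hNT n.2⟩
      simp only [Finset.sum_apply, nsmul_eq_mul] at this
      simp only [Finset.sum_apply, Pi.smul_apply, smul_eq_mul]
      exact this
    rw [e, Char.classInner_sum_left]
    simp [Char.classInner_smul_left, hj]
  have h1 : c ⟨ψ', hψ'⟩ ≠ 0 := fun h => hb' (by rw [hcv ⟨ψ', hψ'⟩, h, Nat.cast_zero])
  have h2 : c ⟨ψ, hψ⟩ ≠ 0 := fun h => hb (by rw [hcv ⟨ψ, hψ⟩, h, Nat.cast_zero])
  have h3 : j ⟨ψ, hψ⟩ ≠ 0 := fun h => hov (by rw [hj ⟨ψ, hψ⟩, h, Nat.cast_zero])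
  have h4 : j ⟨ψ', hψ'⟩ = ∑ ξ, c ξ * j ξ := by
    have := (hj ⟨ψ', hψ'⟩).symm.trans (hfull.trans hsum)
    exact_mod_cast this
  have h5 : c ⟨ψ, hψ⟩ * j ⟨ψ, hψ⟩ + c ⟨ψ', hψ'⟩ * j ⟨ψ', hψ'⟩ ≤ ∑ ξ, c ξ * j ξ := by
    rw [← Finset.sum_pair (f := fun ξ => c ξ * j ξ) (a := (⟨ψ, hψ⟩ : IrrCharacter T))
      (b := ⟨ψ', hψ'⟩) fun h => hne (congrArg Subtype.val h)]
    exact Finset.sum_le_sum_of_subset_of_nonneg (Finset.subset_univ _) fun _ _ _ => Nat.zero_le _
  have := Nat.le_mul_of_pos_left (j ⟨ψ', hψ'⟩) (Nat.pos_of_ne_zero h1)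
  have := mul_pos (Nat.pos_of_ne_zero h2) (Nat.pos_of_ne_zero h3)
  omega

/-- Over a fixed character there is exactly one fixed character. -/
theorem exists_unique_fixed {G : Type u} [Group G] [Fintype G] (N : Subgroup G) [hN : N.Normal]
    [Fintype N] {θ : N → ℂ} (hθ : IsIrrCharacter N θ) (hidx : Odd N.index) {k : ℕ}
    (hk : Nat.Coprime k (Nat.card G)) (hk₂ : ∀ g : G, Odd (orderOf g) → g ^ k = g⁻¹)
    (hfix : ∀ n : N, θ (n ^ k) = θ n) :
    ∃ χ : G → ℂ, (IsIrrCharacter G χ ∧ Over N χ θ ∧ ∀ g, χ (g ^ k) = χ g) ∧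
      ∀ χ' : G → ℂ, IsIrrCharacter G χ' → Over N χ' θ → (∀ g, χ' (g ^ k) = χ' g) → χ' = χ := by
  set T := CharInd.conjStab N θ with hT
  have hTspec : ∀ g : G, g ∈ T ↔ ∀ n : N, θ ⟨g * n * g⁻¹, hN.conj_mem (n : G) n.2 g⟩ = θ n :=
    fun g => ⟨fun h n => congrFun h n, fun h => funext h⟩
  have hNT : N ≤ T := CharInd.le_conjStab N (Char.irr_isClassFunction hθ)
  haveI : (N.subgroupOf T).Normal := Subgroup.Normal.subgroupOf hN T
  set em := Subgroup.subgroupOfEquivOfLe hNT
  set θ' : N.subgroupOf T → ℂ := fun x => θ (em x) with hθ'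
  have hθ'irr : IsIrrCharacter (N.subgroupOf T) θ' := Char.isIrrCharacter_comp_mulEquiv hθ em
  have hinv' : ∀ (g : T) (n : N.subgroupOf T),
      θ' ⟨g * n * g⁻¹, (Subgroup.Normal.subgroupOf hN T).conj_mem n n.2 g⟩ = θ' n :=
    fun g n => (hTspec g).mp g.2 (em n)
  have hidx' : Odd (N.subgroupOf T).index :=
    hidx.of_dvd_nat (Dvd.intro _ (Subgroup.relIndex_mul_index hNT))
  have hfix' : ∀ n : N.subgroupOf T, θ' (n ^ k) = θ' n := fun n => by
    simp only [hθ', map_pow]
    exact hfix _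
  have hkT := coprime_sub hk T
  have hk₂T := hk₂_sub hk₂ T
  have hinner : ∀ f : T → ℂ, classInner (fun x : N.subgroupOf T => f x) θ' =
      classInner (fun n : N => f ⟨n, hNT n.2⟩) θ := by
    intro f
    unfold Cfsg.classInner
    rw [Nat.card_congr em.toEquiv]
    congr 1
    exact Fintype.sum_equiv em.toEquiv _ _ (fun x => rfl)
  obtain ⟨ψ₀, hψ₀, hψ₀res, hψ₀fix⟩ := exists_fixed_ext (N.subgroupOf T) hθ'irr hinv' hidx' hkT
    hk₂T hfix'
  have hov₀ : classInner (fun n : N => ψ₀ ⟨n, hNT n.2⟩) θ ≠ 0 := by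
    rw [← hinner]
    exact over_of_res _ hθ'irr hψ₀res
  have hbelow : ∀ {χ : G → ℂ}, IsIrrCharacter G χ → ∀ {ψ : T → ℂ}, IsIrrCharacter T ψ →
      indFun T ψ = χ → classInner (fun t : T => χ t) ψ ≠ 0 := by
    intro χ hχ ψ hψ hind
    rw [← CharInd.classInner_indFun_right T ψ (Char.irr_isClassFunction hχ), hind,
      Char.classInner_irr_self hχ]
    exact one_ne_zero
  -- a fixed character over `θ` is induced from `ψ₀`
  have huniq : ∀ χ : G → ℂ, IsIrrCharacter G χ → Over N χ θ → (∀ g, χ (g ^ k) = χ g) →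
      χ = indFun T ψ₀ := by
    intro χ hχ hov hf
    obtain ⟨ψ, hψ, hind, hfull⟩ := Cfsg.Agent.S0854.result N θ hθ T hTspec hNT χ hχ hov
    set ψk : T → ℂ := fun t => ψ (t ^ k) with hψk
    have hψk' : IsIrrCharacter T ψk := OddChar.irr_twist hψ hkT
    have hindk : indFun T ψk = χ := funext fun g => by rw [← indFun_pow hk, hind, hf]
    have hfullk : classInner (fun n : N => ψk ⟨n, hNT n.2⟩) θ =
        classInner (fun n : N => ψ ⟨n, hNT n.2⟩) θ := by
      rw [← classInner_pow (G := N) (coprime_sub hk N) (fun n : N => ψ ⟨n, hNT n.2⟩) θ]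
      congr 1
      funext n
      exact (hfix n).symm
    have heq : ψk = ψ := eq_of_below N T hNT hθ hχ hψk' hψ (hbelow hχ hψk' hindk)
      (hbelow hχ hψ hind) hfull (by rw [hfullk, hfull]; exact hov)
    have := unique_fixed (N.subgroupOf T) hθ'irr hinv' hidx' hkT hk₂T hfix' hψ hψ₀
      (by rw [Over, hinner, hfull]; exact hov) (by rw [Over, hinner]; exact hov₀)
      (fun t => congrFun heq t) hψ₀fix
    rw [← hind, this]
  -- `indFun T ψ₀` is irreducible
  obtain ⟨χ, r, hr, hχv⟩ := Char.exists_irr_constituent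
    (CharInd.isCharacter_indFun T (Char.isCharacter_of_irr hψ₀)) (by
      intro h
      have h1 := congrFun h 1
      rw [CharInd.indFun_one_apply, Pi.zero_apply, mul_eq_zero, Nat.cast_eq_zero] at h1
      exact h1.elim Subgroup.index_ne_zero_of_finite (Char.irr_one_ne_zero hψ₀))
  rw [CharInd.classInner_indFun_left T _ (Char.irr_isClassFunction χ.2)] at hχv
  have hb₀ : classInner (fun t : T => (χ : G → ℂ) t) ψ₀ ≠ 0 := by
    rw [← CharInd.classInner_swap, hχv, map_natCast, Nat.cast_ne_zero]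
    exact hr.ne'
  have hov : Over N (χ : G → ℂ) θ := by
    obtain ⟨c, hc, hcv⟩ := Char.isCharacter_exists_coeff
      (Char.isCharacter_restrict (Char.isCharacter_of_irr χ.2) T)
    have hR : ∀ ξ : IrrCharacter T, ∃ j : ℕ,
        classInner (fun n : N => (ξ : T → ℂ) ⟨n, hNT n.2⟩) θ = j := fun ξ =>
      Char.isCharacter_classInner_nat
        (CharInd.isCharacter_comp (Subgroup.inclusion hNT) (Char.isCharacter_of_irr ξ.2)) ⟨θ, hθ⟩
    choose j hj using hR
    have e : (fun n : N => (χ : G → ℂ) n) = ∑ ξ : IrrCharacter T,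
        (c ξ : ℂ) • (fun n : N => (ξ : T → ℂ) ⟨n, hNT n.2⟩) := by
      funext n
      have := congrFun hc ⟨n, hNT n.2⟩
      simp only [Finset.sum_apply, nsmul_eq_mul] at this
      simp only [Finset.sum_apply, Pi.smul_apply, smul_eq_mul]
      exact this
    rw [Over, e, Char.classInner_sum_left]
    simp only [Char.classInner_smul_left, hj]
    norm_cast
    intro h0
    have h1 := (Finset.sum_eq_zero_iff.mp h0) ⟨ψ₀, hψ₀⟩ (Finset.mem_univ _)
    rcases Nat.mul_eq_zero.mp h1 with h2 | h2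
    · exact hb₀ (by rw [hcv ⟨ψ₀, hψ₀⟩, h2, Nat.cast_zero])
    · exact hov₀ (by rw [hj ⟨ψ₀, hψ₀⟩, h2, Nat.cast_zero])
  obtain ⟨ψ, hψ, hind, hfull⟩ := Cfsg.Agent.S0854.result N θ hθ T hTspec hNT χ χ.2 hov
  have heq : ψ₀ = ψ := eq_of_below N T hNT hθ χ.2 hψ₀ hψ hb₀ (hbelow χ.2 hψ hind) hfull hov₀
  refine ⟨indFun T ψ₀, ⟨heq ▸ hind.symm ▸ χ.2, heq ▸ hind.symm ▸ hov, fun g => ?_⟩, huniq⟩
  rw [indFun_pow hk]
  exact congrFun (congrArg (indFun T) (funext fun t => hψ₀fix t)) g

end Cfsg.Agent.FixedOver
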