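import Cfsg.Agent.OddChar.Twist
import Cfsg.Agent.BlkChar.Twist
import Cfsg.Agent.Brauer.WeakOrth
import Cfsg.Agent.CharInd.Correspondence
import Cfsg.Agent.Char.Kernel
import Cfsg.Agent.Char.Linear
import Cfsg.Agent.S0854
import Cfsg.Agent.S0886
import Cfsg.Agent.S0888
import Mathlib.GroupTheory.Perm.Cycle.Type
import Mathlib.GroupTheory.IndexNormal

/-!
# Characters fixed by a power map, over a normal subgroup

The power map `g ↦ g ^ k` inverts the elements of odd order; over an invariant fixed character of a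
normal subgroup of odd index there is exactly one fixed irreducible character.
-/

set_option autoImplicit false
set_option linter.style.haveILetI false
set_option linter.unusedSectionVars false
set_option linter.unusedVariables false

noncomputable section

open scoped ComplexConjugate BigOperators Classical Pointwise

namespace Cfsg.Agent.FixedOver

open Cfsg

universe u

variable {G : Type u} [Group G]

/-- The power map inverts every image of odd order. -/
theorem map_pow_eq_inv [Finite G] {k : ℕ} (hk₂ : ∀ g : G, Odd (orderOf g) → g ^ k = g⁻¹)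
    {A : Type*} [Group A] (f : G →* A) {n : ℕ} (hn : Odd n) {g : G} (hg : f g ^ n = 1) :
    f (g ^ k) = (f g)⁻¹ := by
  obtain ⟨a, o, ho, ha⟩ := Nat.exists_eq_two_pow_mul_odd (orderOf_pos g).ne'
  have hh : Odd (orderOf (g ^ 2 ^ a)) := by
    rw [orderOf_pow_of_dvd (pow_ne_zero _ two_ne_zero) ⟨o, ha⟩, ha,
      Nat.mul_div_cancel_left _ (pow_pos two_pos a)]
    exact ho
  have h1 : f g ^ (2 ^ a * (k + 1)) = 1 := by
    rw [← map_pow, pow_mul, pow_succ, hk₂ _ hh, inv_mul_cancel, map_one]
  have h2 : f g ^ (n * (k + 1)) = 1 := by rw [pow_mul, hg, one_pow]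
  have h3 := pow_gcd_eq_one.mpr ⟨h1, h2⟩
  rw [Nat.gcd_mul_right, (Nat.Coprime.pow_left a (Nat.coprime_two_left.mpr hn)).gcd_eq_one,
    one_mul, pow_succ] at h3
  rw [map_pow]
  exact eq_inv_of_mul_eq_one_left h3

/-- In a group of odd order only the identity is conjugate to its inverse. -/
theorem eq_one_of_conj_eq_inv {A : Type*} [Group A] [Finite A] (hodd : Odd (Nat.card A)) {a c : A}
    (h : c * a * c⁻¹ = a⁻¹) : a = 1 := by
  have h2 : c ^ 2 * a * (c ^ 2)⁻¹ = a := by
    calc c ^ 2 * a * (c ^ 2)⁻¹ = c * (c * a * c⁻¹) * c⁻¹ := by rw [pow_two]; group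
      _ = c * a⁻¹ * c⁻¹ := by rw [h]
      _ = (c * a * c⁻¹)⁻¹ := by group
      _ = a := by rw [h, inv_inv]
  have hc : Commute c a := by
    obtain ⟨m, hm⟩ := hodd
    have hcc : Commute (c ^ 2) a := mul_inv_eq_iff_eq_mul.mp h2
    have : (c ^ 2) ^ (m + 1) = c := by
      rw [← pow_mul, show 2 * (m + 1) = 2 * m + 1 + 1 by ring, pow_succ, ← hm, pow_card_eq_one',
        one_mul]
    rw [← this]
    exact hcc.pow_left _
  rw [hc.eq, mul_inv_cancel_right] at h
  have h1 : a ^ 2 = 1 := by rw [pow_two]; exact mul_eq_one_iff_eq_inv.mpr h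
  obtain ⟨m, hm⟩ := hodd
  have := pow_card_eq_one' (G := A) (x := a)
  rw [hm, pow_succ, pow_mul, h1, one_pow, one_mul] at this
  exact this

variable [Fintype G] (N : Subgroup G) [hN : N.Normal] [Fintype N]

/-- `χ` lies over `θ`. -/
def Over (χ : G → ℂ) (θ : N → ℂ) : Prop := classInner (fun n : N => χ n) θ ≠ 0

theorem pow_val (n : N) (k : ℕ) : ((n ^ k : N) : G) = (n : G) ^ k := rfl

theorem coprime_sub {k : ℕ} (hk : Nat.Coprime k (Nat.card G)) (H : Subgroup G) :
    Nat.Coprime k (Nat.card H) :=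
  hk.coprime_dvd_right H.card_subgroup_dvd_card

theorem classInner_pow {k : ℕ} (hk : Nat.Coprime k (Nat.card G)) (f f' : G → ℂ) :
    classInner (fun g => f (g ^ k)) (fun g => f' (g ^ k)) = classInner f f' := by
  simp only [classInner]
  congr 1
  exact Fintype.sum_equiv (powCoprime hk.symm) _ _ fun g => by simp [powCoprime_apply]

/-- Galois conjugation respects lying over. -/
theorem over_pow {k : ℕ} (hk : Nat.Coprime k (Nat.card G)) {χ : G → ℂ} {θ : N → ℂ}
    (hθ : ∀ n : N, θ (n ^ k) = θ n) :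
    classInner (fun n : N => χ ((n : G) ^ k)) θ = classInner (fun n : N => χ n) θ := by
  rw [← classInner_pow (G := N) (coprime_sub hk N) (fun n : N => χ n) θ]
  congr 1
  funext n
  exact (hθ n).symm

/-- A power map of `p`-power order fixing `χ` fixes the constituents below when the index is prime
to `p`. -/
theorem constituent_fixed {p : ℕ} [Fact p.Prime] (hidx : ¬ p ∣ N.index) {k e : ℕ}
    (hk : Nat.Coprime k (Nat.card G)) (hke : k ^ (p ^ e) ≡ 1 [MOD Nat.card G])
    {χ : G → ℂ} (hχ : IsIrrCharacter G χ) (hfix : ∀ g, χ (g ^ k) = χ g)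
    {θ : N → ℂ} (hθ : IsIrrCharacter N θ) (hover : Over N χ θ) :
    ∀ n : N, θ (n ^ k) = θ n := by
  set C := CharInd.conjClass N θ with hC
  have hcl := CharInd.clifford N hχ hθ hover
  have hmem : ∀ {η : N → ℂ}, IsIrrCharacter N η → (η ∈ C ↔ Over N χ η) := by
    intro η hη
    constructor
    · intro h
      obtain ⟨x, rfl⟩ := (CharInd.mem_conjClass N).mp h
      rw [Over, CharInd.classInner_res_conjChar N (Char.irr_isClassFunction hχ)]
      exact hover
    · intro h
      by_contra hn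
      apply h
      rw [hcl, Char.classInner_smul_left, Char.classInner_sum_left]
      refine mul_eq_zero_of_right _ (Finset.sum_eq_zero fun ψ hψ => ?_)
      obtain ⟨x, hx⟩ := (CharInd.mem_conjClass N).mp hψ
      exact Char.classInner_irr_ne (hx ▸ CharInd.conjChar_irr N x hθ) hη fun e => hn (e ▸ hψ)
  have hirr : ∀ η ∈ C, IsIrrCharacter N η := by
    intro η hη
    obtain ⟨x, rfl⟩ := (CharInd.mem_conjClass N).mp hη
    exact CharInd.conjChar_irr N x hθ
  have hkN := coprime_sub hk N
  have hmap : ∀ η ∈ C, (fun n : N => η (n ^ k)) ∈ C := by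
    intro η hη
    refine (hmem (OddChar.irr_twist (hirr η hη) hkN)).mpr ?_
    rw [Over, show (fun n : N => χ n) = fun n : N => χ ((n : G) ^ k) from
      funext fun n => (hfix n).symm]
    show classInner (fun n : N => (fun m : N => χ m) (n ^ k)) (fun n : N => η (n ^ k)) ≠ 0
    rw [classInner_pow (G := N) hkN (fun n : N => χ n) η]
    exact (hmem (hirr η hη)).mp hη
  let f : {η // η ∈ C} → {η // η ∈ C} := fun η => ⟨_, hmap η.1 η.2⟩
  have hinj : Function.Injective f := by
    intro a b hab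
    refine Subtype.ext (funext fun n => ?_)
    have := congrFun (congrArg Subtype.val hab) ((powCoprime hkN.symm).symm n)
    simp only [f] at this
    rwa [← powCoprime_apply hkN.symm, Equiv.apply_symm_apply] at this
  let σ : Equiv.Perm {η // η ∈ C} := Equiv.ofBijective f (Finite.injective_iff_bijective.mp hinj)
  have hpow : ∀ (j : ℕ) (η : {η // η ∈ C}) (n : N), ((σ ^ j) η).1 n = η.1 (n ^ (k ^ j)) := by
    intro j
    induction j with
    | zero => intro η n; simp
    | succ j ih =>
      intro η n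
      rw [pow_succ, Equiv.Perm.mul_apply, ih (σ η) n]
      show η.1 ((n ^ k ^ j) ^ k) = _
      rw [← pow_mul, ← pow_succ]
  have hσ : σ ^ p ^ e = 1 := by
    refine Equiv.ext fun η => Subtype.ext (funext fun n => ?_)
    rw [hpow]
    show η.1 (n ^ k ^ p ^ e) = η.1 n
    have : n ^ k ^ p ^ e = n ^ 1 := by
      rw [pow_eq_pow_iff_modEq]
      exact hke.of_dvd (by rw [← Subgroup.orderOf_coe]; exact orderOf_dvd_natCard _)
    rw [this, pow_one]
  have hcard : ¬ p ∣ Fintype.card {η // η ∈ C} := by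
    rw [Fintype.card_coe, hC, CharInd.card_conjClass]
    intro h
    exact hidx (h.trans (Subgroup.index_dvd_of_le (CharInd.le_conjStab N
      (Char.irr_isClassFunction hθ))))
  obtain ⟨η, hη⟩ := Equiv.Perm.exists_fixed_point_of_prime hcard hσ
  have hη' : ∀ n : N, η.1 (n ^ k) = η.1 n := fun n => congrFun (congrArg Subtype.val hη) n
  obtain ⟨x, hx⟩ := (CharInd.mem_conjClass N).mp η.2
  intro n
  rw [hx] at hη'
  have := hη' ⟨x⁻¹ * n * x, by simpa using hN.conj_mem n n.2 x⁻¹⟩
  simp only [CharInd.conjChar_apply, SubmonoidClass.coe_pow] at this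
  have e1 : (⟨x * (x⁻¹ * (n : G) * x) ^ k * x⁻¹, hN.conj_mem _ (N.pow_mem
      (by simpa using hN.conj_mem n n.2 x⁻¹) k) x⟩ : N) = n ^ k := Subtype.ext (by
    show x * (x⁻¹ * (n : G) * x) ^ k * x⁻¹ = (n : G) ^ k
    rw [← conj_pow]
    congr 1
    group)
  have e2 : (⟨x * (x⁻¹ * (n : G) * x) * x⁻¹, hN.conj_mem _
      (by simpa using hN.conj_mem n n.2 x⁻¹) x⟩ : N) = n := Subtype.ext (by
    show x * (x⁻¹ * (n : G) * x) * x⁻¹ = n
    group)
  exact (congrArg θ e1).symm.trans (this.trans (congrArg θ e2))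

variable {θ : N → ℂ} (hθ : IsIrrCharacter N θ)
  (hinv : ∀ (g : G) (n : N), θ ⟨g * n * g⁻¹, hN.conj_mem n n.2 g⟩ = θ n)

/-- The extension of a function on `N` by zero. -/
def ext0 (f : N → ℂ) : G → ℂ := fun g => if h : g ∈ N then f ⟨g, h⟩ else 0

theorem sum_ext0_mul (f : N → ℂ) (F : G → ℂ) :
    ∑ g : G, ext0 N f g * F g = ∑ n : N, f n * F n := by
  rw [← Finset.sum_filter_add_sum_filter_not Finset.univ (fun g : G => g ∈ N),
    Finset.sum_eq_zero (s := Finset.univ.filter fun g : G => ¬ g ∈ N) (fun g hg => by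
      rw [ext0, dif_neg (Finset.mem_filter.mp hg).2, zero_mul]), add_zero,
    Finset.sum_subtype (Finset.univ.filter fun g : G => g ∈ N) (p := fun g => g ∈ N)
      (fun g => by simp) (fun g : G => ext0 N f g * F g)]
  exact Finset.sum_congr rfl fun n _ => by rw [ext0, dif_pos n.2]

include hθ hinv in
theorem res_eq_smul {χ : G → ℂ} (hχ : IsIrrCharacter G χ) (h : Over N χ θ) :
    (fun n : N => χ n) = classInner (fun n : N => χ n) θ • θ := by
  conv_lhs => rw [CharInd.clifford N hχ hθ h]
  congr 1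
  have : CharInd.conjClass N θ = {θ} := by
    ext ψ
    rw [CharInd.mem_conjClass, Finset.mem_singleton]
    exact ⟨fun ⟨x, hx⟩ => hx.trans (funext fun n => hinv x n),
      fun h => ⟨1, h.trans (CharInd.conjChar_one N θ).symm⟩⟩
  rw [this, Finset.sum_singleton]

include hθ hinv in
/-- The projection on the characters over an invariant character. -/
theorem proj_over (χ : IrrCharacter G) (x : G) :
    θ 1 / (Nat.card N : ℂ) * ∑ n : N, conj (θ n) * (χ : G → ℂ) (x * n) =
      if Over N (χ : G → ℂ) θ then (χ : G → ℂ) x else 0 := by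
  have hf : IsClassFunction G (ext0 N fun n => conj (θ n)) := by
    intro g h
    simp only [ext0]
    by_cases hg : g ∈ N
    · rw [dif_pos hg, dif_pos (hN.conj_mem g hg h)]
      exact congrArg conj (hinv h ⟨g, hg⟩)
    · rw [dif_neg hg, dif_neg]
      intro hh
      exact hg (by simpa [mul_assoc] using hN.conj_mem _ hh h⁻¹)
  obtain ⟨m, ρ, hρ, he⟩ := χ.2
  haveI := Char.nontrivial_of_isIrreducible ρ
  have key := Char.sum_smul_eq_smul_id ρ hf
  have h2 := congrArg (fun T => LinearMap.trace ℂ _ (ρ x ∘ₗ T)) key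
  simp only [LinearMap.comp_smul, LinearMap.comp_id, map_smul, smul_eq_mul] at h2
  have h3 : ρ x ∘ₗ (∑ g : G, ext0 N (fun n => conj (θ n)) g • ρ g) =
      ∑ g : G, ext0 N (fun n => conj (θ n)) g • ρ (x * g) := by
    change ρ x * (∑ g : G, _ • ρ g) = _
    simp only [Finset.mul_sum, mul_smul_comm, ← map_mul]
  rw [h3, map_sum] at h2
  simp only [map_smul, smul_eq_mul] at h2
  change ∑ g : G, ext0 N (fun n => conj (θ n)) g * ρ.character (x * g) =
    (∑ g : G, ext0 N (fun n => conj (θ n)) g * ρ.character g) /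
      (Module.finrank ℂ (Fin m → ℂ) : ℂ) * ρ.character x at h2
  have h1 : (χ : G → ℂ) 1 = (Module.finrank ℂ (Fin m → ℂ) : ℂ) := by rw [← he]; exact ρ.char_one
  rw [← h1, he, sum_ext0_mul N _ (fun g => (χ : G → ℂ) (x * g)), sum_ext0_mul] at h2
  have h4 : ∑ n : N, conj (θ n) * (χ : G → ℂ) n =
      (Nat.card N : ℂ) * classInner (fun n : N => (χ : G → ℂ) n) θ := by
    rw [classInner, mul_inv_cancel_left₀ Char.card_ne_zero_complex]
    exact Finset.sum_congr rfl fun n _ => mul_comm _ _
  rw [h2, h4]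
  have hN0 : (Nat.card N : ℂ) ≠ 0 := Char.card_ne_zero_complex
  by_cases hov : Over N (χ : G → ℂ) θ
  · rw [if_pos hov]
    have hd := congrFun (res_eq_smul N hθ hinv χ.2 hov) 1
    simp only [OneMemClass.coe_one, Pi.smul_apply, smul_eq_mul] at hd
    rw [hd]
    have hne : θ 1 ≠ 0 := Char.irr_one_ne_zero hθ
    have hov' : classInner (fun n : N => (χ : G → ℂ) n) θ ≠ 0 := hov
    field_simp
  · rw [if_neg hov]
    have : classInner (fun n : N => (χ : G → ℂ) n) θ = 0 := not_not.mp hov
    rw [this]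
    simp

include hθ hinv in
theorem card_fixed_over (hidx : Odd N.index) {k : ℕ} (hk : Nat.Coprime k (Nat.card G))
    (hk₂ : ∀ g : G, Odd (orderOf g) → g ^ k = g⁻¹) (hfix : ∀ n : N, θ (n ^ k) = θ n) :
    (Finset.univ.filter fun χ : IrrCharacter G =>
      Over N (χ : G → ℂ) θ ∧ ∀ g, (χ : G → ℂ) (g ^ k) = (χ : G → ℂ) g).card = 1 := by
  have hG : (Nat.card G : ℂ) ≠ 0 := Char.card_ne_zero_complex
  have hN0 : (Nat.card N : ℂ) ≠ 0 := Char.card_ne_zero_complex
  have hθ1 : θ 1 ≠ 0 := Char.irr_one_ne_zero hθ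
  have hav : ∀ (a : N) (g : N),
      ∑ c : G, θ (a * ⟨c * g * c⁻¹, hN.conj_mem g g.2 c⟩) =
        (Nat.card G : ℂ) * θ a * θ g / θ 1 := by
    intro a g
    have hinvar : ∀ h : N, ∑ c : G, θ (a * ⟨c * g * c⁻¹, hN.conj_mem g g.2 c⟩) =
        ∑ c : G, θ (⟨c⁻¹ * a * c, by simpa using hN.conj_mem a a.2 c⁻¹⟩ * (h * g * h⁻¹)) := by
      intro h
      refine (Fintype.sum_equiv (Equiv.mulRight (h : G)) _ _ fun c => ?_).symm
      simp only [Equiv.coe_mulRight]
      rw [← hinv c (⟨c⁻¹ * a * c, by simpa using hN.conj_mem a a.2 c⁻¹⟩ * (h * g * h⁻¹))]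
      congr 1
      apply Subtype.ext
      simp only [Subgroup.coe_mul, Subgroup.coe_inv]
      group
    apply mul_left_cancel₀ hN0
    calc (Nat.card N : ℂ) * ∑ c : G, θ (a * ⟨c * g * c⁻¹, hN.conj_mem g g.2 c⟩)
        = ∑ h : N, ∑ c : G, θ (a * ⟨c * g * c⁻¹, hN.conj_mem g g.2 c⟩) := by
          rw [Finset.sum_const, Finset.card_univ, nsmul_eq_mul, Nat.card_eq_fintype_card]
      _ = ∑ c : G, ∑ h : N,
            θ (⟨c⁻¹ * a * c, by simpa using hN.conj_mem a a.2 c⁻¹⟩ * (h * g * h⁻¹)) := by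
          rw [Finset.sum_congr rfl fun h _ => hinvar h, Finset.sum_comm]
      _ = ∑ c : G, (Nat.card N : ℂ) * (θ a * θ g) / θ 1 := by
          refine Finset.sum_congr rfl fun c _ => ?_
          rw [eq_div_iff hθ1, mul_comm, OddChar.sum_irr_conj_product hθ]
          congr 2
          have := hinv c ⟨c⁻¹ * a * c, by simpa using hN.conj_mem a a.2 c⁻¹⟩
          rw [← this]
          congr 1
          apply Subtype.ext
          show c * (c⁻¹ * (a : G) * c) * c⁻¹ = a
          group
      _ = _ := by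
          rw [Finset.sum_const, Finset.card_univ, nsmul_eq_mul, ← Nat.card_eq_fintype_card]
          ring
  -- only elements of `N` contribute
  have hzero : ∀ g : G, g ∉ N → ∀ c : G, ∀ n : N, c * g * c⁻¹ ≠ g ^ k * n := by
    intro g hg c n h
    apply hg
    rw [← QuotientGroup.eq_one_iff]
    have hodd : Odd (Nat.card (G ⧸ N)) := hidx
    refine eq_one_of_conj_eq_inv hodd (c := (QuotientGroup.mk' N c)) ?_
    have h' := congrArg (QuotientGroup.mk' N) h
    rw [map_mul, map_mul, map_inv, map_mul,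
      map_pow_eq_inv hk₂ (QuotientGroup.mk' N) hodd pow_card_eq_one'] at h'
    rw [(QuotientGroup.eq_one_iff (n : G)).mpr n.2 |> (fun e => (show QuotientGroup.mk' N (n : G) = 1 from e)),
      mul_one] at h'
    exact h'
  set σ : IrrCharacter G → IrrCharacter G := fun χ =>
    ⟨fun g => (χ : G → ℂ) (g ^ k), OddChar.irr_twist χ.2 hk⟩ with hσdef
  have hcnt : ((Finset.univ.filter fun χ : IrrCharacter G =>
      Over N (χ : G → ℂ) θ ∧ ∀ g, (χ : G → ℂ) (g ^ k) = (χ : G → ℂ) g).card : ℂ) =
      ∑ χ : IrrCharacter G, if Over N (χ : G → ℂ) θ then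
        classInner (σ χ : G → ℂ) (χ : G → ℂ) else 0 := by
    rw [← Finset.sum_boole]
    refine Finset.sum_congr rfl fun χ _ => ?_
    by_cases hov : Over N (χ : G → ℂ) θ
    · rw [if_pos hov, Char.classInner_irrCharacter]
      refine if_congr ?_ rfl rfl
      rw [Subtype.ext_iff, funext_iff]
      simp [hσdef, hov]
    · rw [if_neg hov, if_neg fun h => hov h.1]
  have hexp : ∑ χ : IrrCharacter G, (if Over N (χ : G → ℂ) θ then
      classInner (σ χ : G → ℂ) (χ : G → ℂ) else 0) = 1 := by
    have step1 : ∀ χ : IrrCharacter G, (if Over N (χ : G → ℂ) θ then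
        classInner (σ χ : G → ℂ) (χ : G → ℂ) else 0) = (Nat.card G : ℂ)⁻¹ *
          (θ 1 / (Nat.card N : ℂ)) * ∑ g : G, ∑ n : N, conj (θ n) *
            ((χ : G → ℂ) (g ^ k * n) * conj ((χ : G → ℂ) g)) := by
      intro χ
      rw [mul_assoc, Finset.mul_sum (a := θ 1 / (Nat.card N : ℂ))]
      by_cases hov : Over N (χ : G → ℂ) θ
      · rw [if_pos hov, classInner]
        congr 1
        refine Finset.sum_congr rfl fun g _ => ?_
        have := proj_over N hθ hinv χ (g ^ k)
        rw [if_pos hov] at this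
        show (χ : G → ℂ) (g ^ k) * _ = _
        rw [← this, mul_assoc, Finset.sum_mul]
        congr 1
        exact Finset.sum_congr rfl fun n _ => by ring
      · rw [if_neg hov, Finset.sum_eq_zero fun g _ => ?_, mul_zero]
        have := proj_over N hθ hinv χ (g ^ k)
        rw [if_neg hov] at this
        rw [← mul_zero (conj ((χ : G → ℂ) g)), ← this, Finset.mul_sum, Finset.mul_sum,
          Finset.mul_sum]
        exact Finset.sum_congr rfl fun n _ => by ring
    simp only [step1, ← Finset.mul_sum]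
    rw [Finset.sum_comm]
    have step2 : ∀ g : G, ∑ χ : IrrCharacter G, ∑ n : N, conj (θ n) *
          ((χ : G → ℂ) (g ^ k * n) * conj ((χ : G → ℂ) g)) =
        ∑ c : G, ∑ n : N, if c * g * c⁻¹ = g ^ k * n then conj (θ n) else 0 := by
      intro g
      rw [Finset.sum_comm, Finset.sum_comm (s := (Finset.univ : Finset G))]
      refine Finset.sum_congr rfl fun n _ => ?_
      rw [← Finset.mul_sum, Char.sum_irr_mul_conj, ← Finset.sum_filter, Finset.sum_const,
        nsmul_eq_mul, mul_comm]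
      congr 1
      split_ifs with hc
      · obtain ⟨c₀, hc₀⟩ := isConj_iff.mp hc.symm
        rw [← Nat.card_eq_finsetCard]
        norm_cast
        refine Nat.card_congr
          { toFun := fun z => ⟨(z : G) * c₀, ?_⟩
            invFun := fun z => ⟨z.1 * c₀⁻¹, ?_⟩
            left_inv := fun z => Subtype.ext (by simp)
            right_inv := fun z => Subtype.ext (by simp) }
        · simp only [Finset.mem_filter, Finset.mem_univ, true_and]
          have h := Subgroup.mem_centralizer_singleton_iff.mp z.2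
          calc (z : G) * c₀ * g * ((z : G) * c₀)⁻¹ = (z : G) * (c₀ * g * c₀⁻¹) * (z : G)⁻¹ := by group
            _ = _ := by rw [hc₀, h, mul_inv_cancel_right]
        · rw [Subgroup.mem_centralizer_singleton_iff]
          have hz := (Finset.mem_filter.mp z.2).2
          calc z.1 * c₀⁻¹ * (g ^ k * (n : G)) = z.1 * c₀⁻¹ * (c₀ * g * c₀⁻¹) := by rw [hc₀]
            _ = z.1 * g * z.1⁻¹ * (z.1 * c₀⁻¹) := by group
            _ = _ := by rw [hz]
      · rw [Finset.filter_false_of_mem, Finset.card_empty, Nat.cast_zero]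
        intro c _ h
        exact hc (isConj_iff.mpr ⟨c, h⟩).symm
    rw [Finset.sum_congr rfl fun g _ => step2 g,
      ← Finset.sum_filter_add_sum_filter_not Finset.univ (fun g : G => g ∈ N),
      Finset.sum_eq_zero (s := Finset.univ.filter fun g : G => ¬ g ∈ N) (fun g hg =>
        Finset.sum_eq_zero fun c _ => Finset.sum_eq_zero fun n _ =>
          if_neg (hzero g (Finset.mem_filter.mp hg).2 c n)), add_zero,
      Finset.sum_subtype (Finset.univ.filter fun g : G => g ∈ N) (p := fun g => g ∈ N)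
        (fun g => by simp) (fun g : G => ∑ c : G, ∑ n : N,
          if c * g * c⁻¹ = g ^ k * n then conj (θ n) else 0)]
    have step3 : ∀ g : N, ∑ c : G, ∑ n : N,
        (if c * g * c⁻¹ = (g : G) ^ k * n then conj (θ n) else 0) =
          (Nat.card G : ℂ) * (θ g * conj (θ g)) / θ 1 := by
      intro g
      rw [Finset.sum_congr rfl (g := fun c => conj (θ ((g ^ k)⁻¹ *
        ⟨c * g * c⁻¹, hN.conj_mem g g.2 c⟩))) fun c _ => by
          rw [Finset.sum_eq_single ((g ^ k)⁻¹ * ⟨c * g * c⁻¹, hN.conj_mem g g.2 c⟩)]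
          · rw [if_pos]; simp
          · intro n _ hn
            rw [if_neg]
            intro h
            apply hn
            apply Subtype.ext
            simp [h]
          · intro h; exact absurd (Finset.mem_univ _) h]
      rw [← map_sum, hav, map_div₀, map_mul, map_mul, map_natCast, ← Char.irr_inv hθ,
        inv_inv, hfix, mul_assoc]
      obtain ⟨d, -, hd⟩ := Char.irr_one_pos hθ
      rw [hd, map_natCast]
    rw [Finset.sum_congr rfl fun g _ => step3 g, ← Finset.sum_div, ← Finset.mul_sum]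
    have h5 := Char.sum_mul_conj_eq_card_mul_classInner θ θ
    rw [Char.classInner_irr_self hθ, mul_one] at h5
    rw [h5]
    field_simp
  rw [hexp] at hcnt
  exact_mod_cast hcnt

include hθ hinv in
theorem unique_fixed (hidx : Odd N.index) {k : ℕ} (hk : Nat.Coprime k (Nat.card G))
    (hk₂ : ∀ g : G, Odd (orderOf g) → g ^ k = g⁻¹) (hfix : ∀ n : N, θ (n ^ k) = θ n)
    {χ χ' : G → ℂ} (hχ : IsIrrCharacter G χ) (hχ' : IsIrrCharacter G χ')
    (ho : Over N χ θ) (ho' : Over N χ' θ) (hf : ∀ g, χ (g ^ k) = χ g)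
    (hf' : ∀ g, χ' (g ^ k) = χ' g) : χ = χ' := by
  have h := Finset.card_le_one.mp (le_of_eq (card_fixed_over N hθ hinv hidx hk hk₂ hfix))
    ⟨χ, hχ⟩ (Finset.mem_filter.mpr ⟨Finset.mem_univ _, ho, hf⟩)
    ⟨χ', hχ'⟩ (Finset.mem_filter.mpr ⟨Finset.mem_univ _, ho', hf'⟩)
  exact congrArg Subtype.val h

include hθ hinv in
theorem fixed_ext_of_ext (hidx : Odd N.index) {k : ℕ} (hk : Nat.Coprime k (Nat.card G))
    (hk₂ : ∀ g : G, Odd (orderOf g) → g ^ k = g⁻¹) (hfix : ∀ n : N, θ (n ^ k) = θ n)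
    {η : G → ℂ} (hη : IsIrrCharacter G η) (hres : ∀ n : N, η n = θ n) :
    ∃ χ : G → ℂ, IsIrrCharacter G χ ∧ (∀ n : N, χ n = θ n) ∧ ∀ g, χ (g ^ k) = χ g := by
  obtain ⟨l, hl, hle⟩ := BlkChar.exists_linear_twist N hθ
    (Char.isCharacter_of_irr (OddChar.irr_twist hη hk)) (Char.isCharacter_of_irr hη)
    (fun n => by rw [← hfix n, ← hres, SubmonoidClass.coe_pow]) hres
  have hli : ∀ g, l g ^ N.index = 1 := fun g => by
    rw [← map_pow]; exact hl ⟨_, N.pow_index_mem g⟩
  obtain ⟨j, hj⟩ := hidx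
  let m : G →* ℂˣ :=
    { toFun := fun g => l g ^ (j + 1)
      map_one' := by simp
      map_mul' := fun a b => by simp [mul_pow] }
  have hm2 : ∀ g, m g * m g = l g := fun g => by
    show l g ^ (j + 1) * l g ^ (j + 1) = l g
    rw [← pow_add, show j + 1 + (j + 1) = N.index + 1 by omega, pow_succ, hli, one_mul]
  refine ⟨fun g => (m g : ℂ) * η g, Char.isIrrCharacter_mul_monoidHom hη m, fun n => ?_, fun g => ?_⟩
  · show ((l (n : G) ^ (j + 1) : ℂˣ) : ℂ) * η n = _
    rw [hl n, one_pow, Units.val_one, one_mul, hres]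
  · have hmk : m (g ^ k) = (m g)⁻¹ := by
      refine map_pow_eq_inv hk₂ m (n := N.index) ⟨j, hj⟩ ?_
      show (l g ^ (j + 1)) ^ N.index = 1
      rw [← pow_mul, mul_comm, pow_mul, hli, one_pow]
    show (m (g ^ k) : ℂ) * η (g ^ k) = (m g : ℂ) * η g
    rw [hmk, hle g, ← hm2 g, Units.val_mul, ← mul_assoc, ← mul_assoc, ← Units.val_mul,
      inv_mul_cancel, Units.val_one, one_mul]

end Cfsg.Agent.FixedOver
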