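import Cfsg.Agent.BlockVal.FixedExtend
import Cfsg.Agent.BlkChar.RegCriterion
import Cfsg.Agent.Brauer.RegElement

/-!
# The principal block and fixed characters over a normal subgroup of odd index
-/

set_option autoImplicit false
set_option linter.style.haveILetI false
set_option linter.unusedSectionVars false
set_option linter.unusedVariables false

noncomputable section

open scoped ComplexConjugate BigOperators Classical

namespace Cfsg.Agent.FixedOver

open Cfsg Cfsg.Agent.Block

universe u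

/-- An invariant sum over a set without fixed points of a permutation of `2`-power order. -/
theorem sum_mem_of_no_fixed {M : Ideal AlgInt} (hM : IsPModular 2 M) {α : Type*}
    (σ : Equiv.Perm α) {e : ℕ} (hσ : σ ^ 2 ^ e = 1) (s : Finset α) (hs : ∀ x, σ x ∈ s ↔ x ∈ s)
    (hnf : ∀ x ∈ s, σ x ≠ x) (F : α → ℂ) (hF : ∀ x, F (σ x) = F x)
    (hloc : ∀ x ∈ s, MemLocalRing M (F x)) : MemLocalIdeal M (∑ x ∈ s, F x) := by
  haveI : M.IsPrime := hM.2.1.isPrime
  rw [← Finset.sum_fiberwise_of_maps_to (g := F) (t := s.image F)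
    fun x hx => Finset.mem_image_of_mem F hx]
  refine memLocalIdeal_sum _ _ fun v hv => ?_
  rw [Finset.sum_congr rfl (g := fun _ => v) fun x hx => (Finset.mem_filter.mp hx).2,
    Finset.sum_const, nsmul_eq_mul]
  obtain ⟨x₀, hx₀, rfl⟩ := Finset.mem_image.mp hv
  refine memLocalIdeal_mul_right ((memLocalIdeal_natCast_iff hM _).mpr ?_) (hloc x₀ hx₀)
  by_contra hodd
  set L := s.filter fun x => F x = F x₀
  have hL : ∀ x, σ x ∈ L ↔ x ∈ L := fun x => by simp [L, hs, hF]
  have hp : (σ.subtypePerm (p := fun x => x ∈ L) hL) ^ 2 ^ e = 1 := by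
    refine Equiv.ext fun x => Subtype.ext ?_
    rw [Equiv.Perm.subtypePerm_pow]
    simp [hσ]
  obtain ⟨a, ha⟩ := Equiv.Perm.exists_fixed_point_of_prime (p := 2) (by
    rwa [Fintype.card_coe]) hp
  exact hnf a (Finset.mem_filter.mp a.2).1 (congrArg Subtype.val ha)

theorem regTotal_div_memLocalRing {G : Type u} [Group G] [Finite G] {p : ℕ} {M : Ideal AlgInt}
    (hM : IsPModular p M) (χ : IrrCharacter G) :
    MemLocalRing M (BlkChar.regTotal p (χ : G → ℂ) / (χ : G → ℂ) 1) := by
  letI := Fintype.ofFinite G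
  have h5 := Brauer.regSum_div_memLocalRing hM (Char.isCharacter_const_one (G := G)) χ
  rw [BlkChar.regTotal_eq]
  simpa [Brauer.regSum] using h5

/-- The principal block for the fixed character over a fixed character. -/
theorem principal_iff {G : Type u} [Group G] [Fintype G] {M : Ideal AlgInt}
    (hM : IsPModular 2 M) (N : Subgroup G) [hN : N.Normal] [Fintype N] (hidx : Odd N.index)
    {k e : ℕ} (hk : Nat.Coprime k (Nat.card G)) (hke : k ^ (2 ^ e) ≡ 1 [MOD Nat.card G])
    (hk₂ : ∀ g : G, Odd (orderOf g) → g ^ k = g⁻¹) (θ : IrrCharacter N)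
    (hθ : ∀ n : N, (θ : N → ℂ) (n ^ k) = (θ : N → ℂ) n) (χ : IrrCharacter G)
    (hχ : ∀ g : G, (χ : G → ℂ) (g ^ k) = (χ : G → ℂ) g)
    (hover : Over N (χ : G → ℂ) (θ : N → ℂ)) :
    χ ∈ principalBlock M G ↔ θ ∈ principalBlock M N := by
  haveI : M.IsPrime := hM.2.1.isPrime
  set S : Finset (IrrCharacter G) := Finset.univ.filter fun η : IrrCharacter G =>
    Over N (η : G → ℂ) (θ : N → ℂ) with hS
  let m : IrrCharacter G → ℂ := fun η => classInner (fun n : N => (η : G → ℂ) n) (θ : N → ℂ)
  let ρ : IrrCharacter G → ℂ := fun η => BlkChar.regTotal 2 (η : G → ℂ) / (η : G → ℂ) 1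
  let τ : IrrCharacter G → IrrCharacter G := fun η =>
    ⟨fun g => (η : G → ℂ) (g ^ k), OddChar.irr_twist η.2 hk⟩
  have hinj : Function.Injective τ := by
    intro a b hab
    refine Subtype.ext (funext fun g => ?_)
    have := congrFun (congrArg Subtype.val hab) ((powCoprime hk.symm).symm g)
    simp only [τ] at this
    rwa [← powCoprime_apply hk.symm, Equiv.apply_symm_apply] at this
  let σ : Equiv.Perm (IrrCharacter G) := Equiv.ofBijective τ (Finite.injective_iff_bijective.mp hinj)
  have hpow : ∀ (j : ℕ) (η : IrrCharacter G) (g : G),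
      ((σ ^ j) η : G → ℂ) g = (η : G → ℂ) (g ^ (k ^ j)) := by
    intro j
    induction j with
    | zero => intro η g; simp
    | succ j ih =>
      intro η g
      rw [pow_succ, Equiv.Perm.mul_apply, ih (σ η) g]
      show (η : G → ℂ) ((g ^ k ^ j) ^ k) = _
      rw [← pow_mul, ← pow_succ]
  have hσ : σ ^ 2 ^ e = 1 := by
    refine Equiv.ext fun η => Subtype.ext (funext fun g => ?_)
    rw [hpow]
    show (η : G → ℂ) (g ^ k ^ 2 ^ e) = (η : G → ℂ) g
    have : g ^ k ^ 2 ^ e = g ^ 1 := by
      rw [pow_eq_pow_iff_modEq]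
      exact hke.of_dvd (orderOf_dvd_natCard g)
    rw [this, pow_one]
  have hmσ : ∀ η, m (σ η) = m η := fun η => over_pow N hk hθ
  have hρσ : ∀ η, ρ (σ η) = ρ η := by
    intro η
    show BlkChar.regTotal 2 (fun g => (η : G → ℂ) (g ^ k)) / (η : G → ℂ) (1 ^ k) = _
    rw [one_pow, BlkChar.regTotal_eq]
    congr 1
    rw [BlkChar.regTotal_eq]
    refine Finset.sum_equiv (powCoprime hk.symm) (fun x => ?_) fun x _ => ?_
    · simp only [Finset.mem_filter, Finset.mem_univ, true_and, powCoprime_apply]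
      rw [Nat.Coprime.orderOf_pow (hk.symm.coprime_dvd_left (orderOf_dvd_natCard x))]
    · rw [powCoprime_apply]
  have hSσ : ∀ η, σ η ∈ S ↔ η ∈ S := fun η => by
    simp only [hS, Finset.mem_filter, Finset.mem_univ, true_and]
    show m (σ η) ≠ 0 ↔ m η ≠ 0
    rw [hmσ]
  have hχS : χ ∈ S := Finset.mem_filter.mpr ⟨Finset.mem_univ _, hover⟩
  have hσχ : σ χ = χ := Subtype.ext (funext fun g => hχ g)
  obtain ⟨χ₀, -, huniq⟩ := exists_unique_fixed N θ.2 hidx hk hk₂ hθ
  have hnf : ∀ η ∈ S.erase χ, σ η ≠ η := by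
    intro η hη h
    apply Finset.ne_of_mem_erase hη
    have h1 := huniq η η.2 (Finset.mem_filter.mp (Finset.mem_of_mem_erase hη)).2
      fun g => congrFun (congrArg Subtype.val h) g
    have h2 := huniq χ χ.2 hover hχ
    exact Subtype.ext (h1.trans h2.symm)
  have hsσ : ∀ η, σ η ∈ S.erase χ ↔ η ∈ S.erase χ := fun η => by
    simp only [Finset.mem_erase, hSσ]
    refine and_congr_left fun _ => not_congr ⟨fun h => σ.injective (h.trans hσχ.symm), fun h => h ▸ hσχ⟩
  set c : ℕ := (CharInd.conjClass N (θ : N → ℂ)).card with hc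
  have hdeg : ∀ η ∈ S, (η : G → ℂ) 1 = m η * ((c : ℂ) * (θ : N → ℂ) 1) := by
    intro η hη
    have h := congrFun (CharInd.clifford N η.2 θ.2 (Finset.mem_filter.mp hη).2) 1
    simp only [Pi.smul_apply, smul_eq_mul, Finset.sum_apply, OneMemClass.coe_one] at h
    rw [h, Finset.sum_congr rfl (g := fun _ => (θ : N → ℂ) 1) fun φ hφ => by
      obtain ⟨x, rfl⟩ := (CharInd.mem_conjClass N).mp hφ
      rw [CharInd.conjChar_apply]
      exact congrArg (θ : N → ℂ) (Subtype.ext (by simp)), Finset.sum_const, nsmul_eq_mul]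
  obtain ⟨t, htodd, hct⟩ : ∃ t : ℕ, Odd t ∧ c * t = N.index := by
    refine ⟨N.relIndex (CharInd.conjStab N (θ : N → ℂ)), ?_, ?_⟩
    · exact hidx.of_dvd_nat (Dvd.intro _ (Subgroup.relIndex_mul_index
        (CharInd.le_conjStab N (Char.irr_isClassFunction θ.2))))
    · rw [hc, CharInd.card_conjClass, mul_comm,
        Subgroup.relIndex_mul_index (CharInd.le_conjStab N (Char.irr_isClassFunction θ.2))]
  have hind : indFun N (θ : N → ℂ) = ∑ η ∈ S, m η • (η : G → ℂ) := by
    conv_lhs => rw [Char.eq_sum_classInner_smul (CharInd.indFun_isClassFunction N (θ : N → ℂ))]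
    rw [hS, Finset.sum_filter]
    refine Finset.sum_congr rfl fun η _ => ?_
    have hm : classInner (indFun N (θ : N → ℂ)) (η : G → ℂ) = m η := by
      rw [CharInd.classInner_indFun_left N _ (Char.irr_isClassFunction η.2)]
      obtain ⟨j, hj⟩ := Char.isCharacter_classInner_nat
        (Char.isCharacter_restrict (Char.isCharacter_of_irr η.2) N) θ
      rw [← CharInd.classInner_swap]
      show conj (m η) = m η
      rw [show m η = (j : ℂ) from hj, map_natCast]
    rw [hm]
    by_cases h : Over N (η : G → ℂ) (θ : N → ℂ)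
    · rw [if_pos h]
    · rw [if_neg h, show m η = 0 from not_not.mp h, zero_smul]
  have hc0 : (c : ℂ) * (θ : N → ℂ) 1 ≠ 0 := by
    refine mul_ne_zero (Nat.cast_ne_zero.mpr fun h => ?_) (Char.irr_one_ne_zero θ.2)
    rw [h, zero_mul] at hct
    exact Subgroup.index_ne_zero_of_finite hct.symm
  have hone : (∑ η ∈ S, m η * m η) = (t : ℂ) := by
    have h := congrFun hind 1
    rw [CharInd.indFun_one_apply, Finset.sum_apply, ← hct, Nat.cast_mul,
      Finset.sum_congr rfl (g := fun η => (m η * m η) * ((c : ℂ) * (θ : N → ℂ) 1)) fun η hη => by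
        rw [Pi.smul_apply, smul_eq_mul, hdeg η hη, mul_assoc], ← Finset.sum_mul] at h
    apply mul_right_cancel₀ hc0
    rw [← h]
    ring
  have htot : (∑ η ∈ S, m η * m η * ρ η) =
      (t : ℂ) * (BlkChar.regTotal 2 (θ : N → ℂ) / (θ : N → ℂ) 1) := by
    let φ : G → ℂ := fun x => if ¬ 2 ∣ orderOf x then 1 else 0
    have hφ : IsClassFunction G φ := fun g h => by
      simp only [φ]
      rw [show orderOf (h * g * h⁻¹) = orderOf g from by
        rw [← MulAut.conj_apply, MulEquiv.orderOf_eq]]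
    have h1 := CharInd.classInner_indFun_left N (θ : N → ℂ) hφ
    have e1 : ∀ f : G → ℂ, BlkChar.regTotal 2 f = (Nat.card G : ℂ) * classInner f φ := by
      intro f
      rw [BlkChar.regTotal_eq, classInner, mul_inv_cancel_left₀ Char.card_ne_zero_complex,
        Finset.sum_filter]
      refine Finset.sum_congr rfl fun x _ => ?_
      simp only [φ]
      split_ifs <;> simp
    have e2 : BlkChar.regTotal 2 (θ : N → ℂ) =
        (Nat.card N : ℂ) * classInner (θ : N → ℂ) (fun n : N => φ n) := by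
      rw [BlkChar.regTotal_eq, classInner, mul_inv_cancel_left₀ Char.card_ne_zero_complex,
        Finset.sum_filter]
      refine Finset.sum_congr rfl fun x _ => ?_
      simp only [φ, Subgroup.orderOf_coe]
      split_ifs <;> simp
    have h2 : BlkChar.regTotal 2 (indFun N (θ : N → ℂ)) =
        (N.index : ℂ) * BlkChar.regTotal 2 (θ : N → ℂ) := by
      rw [e1, e2, h1, ← N.card_mul_index]
      push_cast
      ring
    have h3 : BlkChar.regTotal 2 (indFun N (θ : N → ℂ)) =
        ∑ η ∈ S, m η * BlkChar.regTotal 2 (η : G → ℂ) := by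
      rw [hind, e1, Char.classInner_sum_left, Finset.mul_sum]
      refine Finset.sum_congr rfl fun η _ => ?_
      rw [Char.classInner_smul_left, e1]
      ring
    apply mul_right_cancel₀ hc0
    rw [Finset.sum_mul]
    have hθ1 : (θ : N → ℂ) 1 ≠ 0 := Char.irr_one_ne_zero θ.2
    calc ∑ η ∈ S, m η * m η * ρ η * ((c : ℂ) * (θ : N → ℂ) 1)
        = ∑ η ∈ S, m η * BlkChar.regTotal 2 (η : G → ℂ) := by
          refine Finset.sum_congr rfl fun η hη => ?_
          have hne : (η : G → ℂ) 1 ≠ 0 := Char.irr_one_ne_zero η.2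
          rw [show ρ η = BlkChar.regTotal 2 (η : G → ℂ) / (η : G → ℂ) 1 from rfl]
          rw [show m η * m η * (BlkChar.regTotal 2 (η : G → ℂ) / (η : G → ℂ) 1) *
            ((c : ℂ) * (θ : N → ℂ) 1) = m η * (BlkChar.regTotal 2 (η : G → ℂ) / (η : G → ℂ) 1) *
            (m η * ((c : ℂ) * (θ : N → ℂ) 1)) by ring, ← hdeg η hη, mul_assoc, div_mul_cancel₀ _ hne]
      _ = (N.index : ℂ) * BlkChar.regTotal 2 (θ : N → ℂ) := h3.symm.trans h2
      _ = _ := by
          rw [← hct, Nat.cast_mul]
          field_simp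
  have hloc : ∀ η, MemLocalRing M (m η * m η) := fun η => by
    obtain ⟨j, hj⟩ := Char.isCharacter_classInner_nat
      (Char.isCharacter_restrict (Char.isCharacter_of_irr η.2) N) θ
    rw [show m η = (j : ℂ) from hj, ← Nat.cast_mul]
    exact memLocalRing_natCast _
  have hρloc : ∀ η, MemLocalRing M (ρ η) := fun η => regTotal_div_memLocalRing hM η
  have hE1 := sum_mem_of_no_fixed hM σ hσ (S.erase χ) hsσ hnf (fun η => m η * m η)
    (fun η => by simp only [hmσ]) (fun η _ => hloc η)
  have hE := sum_mem_of_no_fixed hM σ hσ (S.erase χ) hsσ hnf (fun η => m η * m η * ρ η)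
    (fun η => by simp only [hmσ, hρσ]) (fun η _ => (localRing M).mul_mem (hloc η) (hρloc η))
  rw [← Finset.add_sum_erase S _ hχS] at hone htot
  set E1 := ∑ η ∈ S.erase χ, m η * m η
  set E := ∑ η ∈ S.erase χ, m η * m η * ρ η
  set rθ := BlkChar.regTotal 2 (θ : N → ℂ) / (θ : N → ℂ) 1 with hrθ
  have hrθloc : MemLocalRing M rθ := regTotal_div_memLocalRing hM θ
  have hunit : ¬ MemLocalIdeal M (m χ * m χ) := by
    intro h
    have := memLocalIdeal_add h hE1
    rw [hone, memLocalIdeal_natCast_iff hM] at this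
    exact Nat.two_dvd_ne_zero.mpr (Nat.odd_iff.mp htodd) this
  have hne : m χ * m χ ≠ 0 := fun h => hunit (h ▸ memLocalIdeal_zero)
  have hdiff : MemLocalIdeal M (ρ χ - rθ) := by
    have h : ρ χ - rθ = (m χ * m χ)⁻¹ * (E1 * rθ - E) := by
      rw [eq_comm, inv_mul_eq_iff_eq_mul₀ hne]
      linear_combination (-1 : ℂ) * htot + rθ * hone
    rw [h]
    exact memLocalIdeal_mul_left (memLocalRing_inv (hloc χ) hunit)
      (memLocalIdeal_sub (memLocalIdeal_mul_right hE1 hrθloc) hE)
  rw [BlkChar.mem_principalBlock_iff_regTotal hM, BlkChar.mem_principalBlock_iff_regTotal hM, ← hrθ]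
  refine not_congr ⟨fun h => ?_, fun h => ?_⟩
  · have := memLocalIdeal_sub h hdiff
    rwa [sub_sub_cancel] at this
  · have := memLocalIdeal_add hdiff h
    rwa [sub_add_cancel] at this

end Cfsg.Agent.FixedOver
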