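import Cfsg.Agent.BlockVal.TILocal
import Cfsg.Agent.CharInd.TI

/-!
# Multiplicities and exceptional differences for a uniform centraliser
-/

set_option autoImplicit false
set_option linter.style.haveILetI false
set_option linter.unusedSectionVars false
set_option linter.unusedVariables false

noncomputable section

open scoped ComplexConjugate BigOperators Classical

namespace Cfsg.Agent.TICent

universe u

theorem two_mul_variance {ι : Type*} [Fintype ι] (f : ι → ℤ) :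
    ∑ i, ∑ j, (f i - f j) ^ 2
      = 2 * ((Fintype.card ι : ℤ) * ∑ i, f i ^ 2 - (∑ i, f i) ^ 2) := by
  simp only [sub_sq, Finset.sum_add_distrib, Finset.sum_sub_distrib, Finset.sum_const,
    Finset.card_univ, nsmul_eq_mul, ← Finset.mul_sum, ← Finset.sum_mul, mul_assoc]
  ring

theorem variance_ge {ι : Type*} [Fintype ι] (f : ι → ℤ) (a : ι) :
    ((Finset.univ.filter fun i => f i = f a).card : ℤ) *
        ((Fintype.card ι : ℤ) - (Finset.univ.filter fun i => f i = f a).card)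
      ≤ (Fintype.card ι : ℤ) * ∑ i, f i ^ 2 - (∑ i, f i) ^ 2 := by
  set L := Finset.univ.filter fun i => f i = f a with hL
  have h1 : ∀ i ∈ L, ∀ j ∈ Lᶜ, (1 : ℤ) ≤ (f i - f j) ^ 2 := by
    intro i hi j hj
    simp only [hL, Finset.mem_filter, Finset.mem_univ, true_and, Finset.mem_compl] at hi hj
    have : f i - f j ≠ 0 := fun h => hj (by omega)
    have := sq_pos_of_ne_zero this
    omega
  have h2 : (L.card : ℤ) * Lᶜ.card ≤ ∑ i ∈ L, ∑ j ∈ Lᶜ, (f i - f j) ^ 2 := by
    calc (L.card : ℤ) * Lᶜ.card = ∑ i ∈ L, ∑ j ∈ Lᶜ, (1 : ℤ) := by simp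
      _ ≤ _ := Finset.sum_le_sum fun i hi => Finset.sum_le_sum fun j hj => h1 i hi j hj
  have h3 : ∑ i ∈ Lᶜ, ∑ j ∈ L, (f i - f j) ^ 2 = ∑ i ∈ L, ∑ j ∈ Lᶜ, (f i - f j) ^ 2 := by
    rw [Finset.sum_comm]
    exact Finset.sum_congr rfl fun i _ => Finset.sum_congr rfl fun j _ => by ring
  have h4 : ∀ (i : ι) (s : Finset ι), 0 ≤ ∑ j ∈ s, (f i - f j) ^ 2 :=
    fun i s => Finset.sum_nonneg fun j _ => sq_nonneg _
  have h5 : 2 * ((L.card : ℤ) * Lᶜ.card) ≤ ∑ i, ∑ j, (f i - f j) ^ 2 := by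
    rw [← Finset.sum_add_sum_compl L]
    have a1 : ∑ i ∈ L, ∑ j ∈ Lᶜ, (f i - f j) ^ 2 ≤ ∑ i ∈ L, ∑ j, (f i - f j) ^ 2 :=
      Finset.sum_le_sum fun i _ => Finset.sum_le_sum_of_subset_of_nonneg (Finset.subset_univ _)
        fun j _ _ => sq_nonneg _
    have a2 : ∑ i ∈ Lᶜ, ∑ j ∈ L, (f i - f j) ^ 2 ≤ ∑ i ∈ Lᶜ, ∑ j, (f i - f j) ^ 2 :=
      Finset.sum_le_sum fun i _ => Finset.sum_le_sum_of_subset_of_nonneg (Finset.subset_univ _)
        fun j _ _ => sq_nonneg _
    linarith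
  have h6 : (Lᶜ.card : ℤ) = (Fintype.card ι : ℤ) - L.card := by
    rw [Finset.card_compl, Nat.cast_sub (Finset.card_le_univ L)]
  rw [two_mul_variance, h6] at h5
  linarith

variable {G : Type u} [Group G] [Fintype G] (S : Setup G)

namespace Setup

/-- The order of `Q`. -/
def q : ℕ := Nat.card S.Q

theorem one_lt_q : 1 < S.q := by
  obtain ⟨x, hx, hx1⟩ := S.nontriv
  exact Finite.one_lt_card_iff_nontrivial.mpr ⟨⟨x, hx⟩, 1, fun h => hx1 (congrArg Subtype.val h)⟩

theorem card_dual : Fintype.card (S.Q →* ℂˣ) = S.q := by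
  rw [← Nat.card_eq_fintype_card, Char.card_monoidHom_complex, q]
  have : commutator S.Q = ⊥ := by
    rw [commutator_def, Subgroup.commutator_eq_bot_iff_le_centralizer]
    intro x _
    rw [Subgroup.mem_centralizer_iff]
    intro y _
    exact S.Q_comm y x
  rw [this, Subgroup.index_bot]

/-- Restriction to `C`. -/
def res (ψ : G → ℂ) : S.C → ℂ := fun c => ψ (c : G)

theorem res_isClassFunction {ψ : G → ℂ} (hψ : Cfsg.IsClassFunction G ψ) :
    Cfsg.IsClassFunction S.C (S.res ψ) := fun g h => hψ g h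

/-- The multiplicity of an index in the restriction to `C`. -/
def m (ψ : G → ℂ) (x : S.X) : ℤ := ⌊(Cfsg.classInner (S.res ψ) (S.ch x)).re⌋

theorem m_spec {ψ : G → ℂ} (hψ : Cfsg.IsCharacter G ψ) (x : S.X) :
    0 ≤ S.m ψ x ∧ Cfsg.classInner (S.res ψ) (S.ch x) = (S.m ψ x : ℂ) := by
  obtain ⟨n, hn⟩ := CharInd.isCharacter_coef (Char.isCharacter_restrict hψ S.C)
  have h : Cfsg.classInner (S.res ψ) (S.ch x) = (n (S.chEquiv x) : ℂ) := by
    show Cfsg.classInner (fun c : S.C => ψ c) _ = _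
    rw [hn, ← S.chEquiv_val, CharInd.classInner_irrSum (fun ξ => (n ξ : ℂ))]
  rw [m, h]
  simp

theorem m_nonneg {ψ : G → ℂ} (hψ : Cfsg.IsCharacter G ψ) (x : S.X) : 0 ≤ S.m ψ x :=
  (S.m_spec hψ x).1

theorem inner_ch {ψ : G → ℂ} (hψ : Cfsg.IsCharacter G ψ) (x : S.X) :
    Cfsg.classInner (S.res ψ) (S.ch x) = (S.m ψ x : ℂ) := (S.m_spec hψ x).2

theorem res_eq_sum {ψ : G → ℂ} (hψ : Cfsg.IsCharacter G ψ) :
    S.res ψ = ∑ x, (S.m ψ x : ℂ) • S.ch x := by
  conv_lhs => rw [S.eq_sum_ch (S.res_isClassFunction (Char.isCharacter_isClassFunction hψ))]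
  simp only [S.inner_ch hψ]

theorem m_act {ψ : G → ℂ} (hψ : Cfsg.IsCharacter G ψ) (n : S.N) (x : S.X) :
    S.m ψ (S.act n x) = S.m ψ x := by
  rw [m, m]
  congr 2
  simp only [ch_act, Cfsg.classInner]
  congr 1
  refine Fintype.sum_equiv (S.cj n).toEquiv _ _ fun c => ?_
  show ψ c * _ = ψ (S.cj n c) * _
  rw [cj_val, Char.isCharacter_isClassFunction hψ]
  rfl

theorem m_of_mem_orb {ψ : G → ℂ} (hψ : Cfsg.IsCharacter G ψ) {x y : S.X} (h : y ∈ S.orb x) :
    S.m ψ y = S.m ψ x := by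
  obtain ⟨n, rfl⟩ := S.mem_orb.mp h
  exact S.m_act hψ n x

/-- The degree of an irreducible character of the kernel. -/
def dK (γ : Cfsg.IrrCharacter S.K) : ℕ := (Char.irr_one_pos γ.2).choose

theorem dK_pos (γ : Cfsg.IrrCharacter S.K) : 0 < S.dK γ := (Char.irr_one_pos γ.2).choose_spec.1

theorem dK_eq (γ : Cfsg.IrrCharacter S.K) : (γ : S.K → ℂ) 1 = (S.dK γ : ℂ) :=
  (Char.irr_one_pos γ.2).choose_spec.2

theorem degree_eq {ψ : G → ℂ} (hψ : Cfsg.IsCharacter G ψ) :
    ψ 1 = ((∑ x, S.m ψ x * (S.dK x.2 : ℤ) : ℤ) : ℂ) := by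
  have h := congrFun (S.res_eq_sum hψ) 1
  simp only [res, Finset.sum_apply, Pi.smul_apply, smul_eq_mul, ch, map_one, Units.val_one,
    one_mul, dK_eq, OneMemClass.coe_one] at h
  rw [h]
  push_cast
  rfl

theorem sum_le_degree {ψ : G → ℂ} (hψ : Cfsg.IsCharacter G ψ) {d : ℕ} (hd : ψ 1 = d)
    (s : Finset S.X) : ∑ x ∈ s, S.m ψ x ≤ (d : ℤ) := by
  have h := S.degree_eq hψ
  rw [hd, ← Int.cast_natCast, Int.cast_inj] at h
  rw [h]
  calc ∑ x ∈ s, S.m ψ x ≤ ∑ x ∈ s, S.m ψ x * (S.dK x.2 : ℤ) :=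
        Finset.sum_le_sum fun x _ => le_mul_of_one_le_right (S.m_nonneg hψ x)
          (by exact_mod_cast S.dK_pos x.2)
    _ ≤ _ := Finset.sum_le_sum_of_subset_of_nonneg (Finset.subset_univ _)
        fun x _ _ => mul_nonneg (S.m_nonneg hψ x) (Int.natCast_nonneg _)

theorem inner_res_self {ψ : G → ℂ} (hψ : Cfsg.IsCharacter G ψ) :
    Cfsg.classInner (S.res ψ) (S.res ψ) = ((∑ x, S.m ψ x ^ 2 : ℤ) : ℂ) := by
  conv_lhs => arg 2; rw [S.res_eq_sum hψ]
  rw [Char.classInner_sum_right, Int.cast_sum]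
  refine Finset.sum_congr rfl fun x _ => ?_
  rw [Char.classInner_smul_right, S.inner_ch hψ, map_intCast]
  push_cast
  ring

theorem inner_resK_self {ψ : G → ℂ} (hψ : Cfsg.IsCharacter G ψ) :
    Cfsg.classInner (fun y : S.K => ψ ((y : S.C) : G)) (fun y : S.K => ψ ((y : S.C) : G)) =
      ((∑ γ, (∑ l, S.m ψ (l, γ)) ^ 2 : ℤ) : ℂ) := by
  have h : (fun y : S.K => ψ ((y : S.C) : G)) =
      ∑ γ : Cfsg.IrrCharacter S.K, ((∑ l, S.m ψ (l, γ) : ℤ) : ℂ) • (γ : S.K → ℂ) := by
    funext y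
    have h1 := congrFun (S.res_eq_sum hψ) (y : S.C)
    simp only [res, Finset.sum_apply, Pi.smul_apply, smul_eq_mul, ch, MonoidHom.mem_ker.mp y.2,
      κ_of_mem, map_one, Units.val_one, one_mul, Fintype.sum_prod_type] at h1 ⊢
    rw [h1, Finset.sum_comm]
    refine Finset.sum_congr rfl fun γ _ => ?_
    rw [Int.cast_sum, Finset.sum_mul]
  rw [h, Char.classInner_sum_right, Int.cast_sum]
  refine Finset.sum_congr rfl fun γ _ => ?_
  rw [Char.classInner_smul_right, Char.classInner_sum_smul_irr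
    (fun γ => ((∑ l, S.m ψ (l, γ) : ℤ) : ℂ)), map_intCast]
  push_cast
  ring

/-- The contribution of a character of the kernel. -/
def T (ψ : G → ℂ) (γ : Cfsg.IrrCharacter S.K) : ℤ :=
  (S.q : ℤ) * ∑ l, S.m ψ (l, γ) ^ 2 - (∑ l, S.m ψ (l, γ)) ^ 2

theorem T_ge (ψ : G → ℂ) (γ : Cfsg.IrrCharacter S.K) (l₀ : S.Q →* ℂˣ) :
    ((Finset.univ.filter fun l => S.m ψ (l, γ) = S.m ψ (l₀, γ)).card : ℤ) *
      ((S.q : ℤ) - (Finset.univ.filter fun l => S.m ψ (l, γ) = S.m ψ (l₀, γ)).card) ≤ S.T ψ γ := by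
  have h := variance_ge (fun l => S.m ψ (l, γ)) l₀
  rwa [card_dual] at h

theorem T_nonneg (ψ : G → ℂ) (γ : Cfsg.IrrCharacter S.K) : 0 ≤ S.T ψ γ := by
  refine le_trans (mul_nonneg (Int.natCast_nonneg _) ?_) (S.T_ge ψ γ 1)
  have := Finset.card_le_univ (Finset.univ.filter fun l => S.m ψ (l, γ) = S.m ψ (1, γ))
  rw [card_dual] at this
  omega

theorem T_ge_of_ne {ψ : G → ℂ} {γ : Cfsg.IrrCharacter S.K} {l₀ l₁ : S.Q →* ℂˣ}
    (h : S.m ψ (l₁, γ) ≠ S.m ψ (l₀, γ)) : (S.q : ℤ) - 1 ≤ S.T ψ γ := by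
  refine le_trans ?_ (S.T_ge ψ γ l₀)
  set L := Finset.univ.filter fun l => S.m ψ (l, γ) = S.m ψ (l₀, γ) with hL
  have h1 : 0 < L.card := Finset.card_pos.mpr ⟨l₀, by simp [hL]⟩
  have h2 : L.card < S.q := by
    rw [← card_dual]
    exact Finset.card_lt_univ_of_notMem (x := l₁) (by simp [hL, h])
  nlinarith [mul_nonneg (show (0 : ℤ) ≤ (L.card : ℤ) - 1 by omega)
    (show (0 : ℤ) ≤ (S.q : ℤ) - L.card - 1 by omega)]

theorem sum_normSq_lt {ψ : G → ℂ} (hψ : Cfsg.IsIrrCharacter G ψ) :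
    ∑ c ∈ Finset.univ.filter (fun c : S.C => S.π c ≠ 1), Complex.normSq (ψ c) < Nat.card S.N := by
  set T' := Finset.univ.filter (fun c : S.C => S.π c ≠ 1) with hT'
  have hcl := Char.irr_isClassFunction hψ
  set F : G × S.C → G := fun gc => gc.1 * gc.2 * gc.1⁻¹ with hF
  have htot : ∑ y : G, Complex.normSq (ψ y) = Nat.card G := by
    have h := Char.sum_mul_conj_eq_card_mul_classInner ψ ψ
    rw [Char.classInner_irr_self hψ, mul_one] at h
    simp only [Complex.mul_conj] at h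
    exact_mod_cast h
  have hfib : ∀ y : G, (((Finset.univ ×ˢ T').filter fun gc => F gc = y).card : ℝ) ≤
      if y = 1 then 0 else (Nat.card S.N : ℝ) := by
    intro y
    split_ifs with hy
    · subst hy
      rw [Finset.filter_false_of_mem, Finset.card_empty, Nat.cast_zero]
      intro gc hgc h
      simp only [hT', Finset.mem_product, Finset.mem_filter] at hgc
      apply hgc.2.2
      have : gc.2 = 1 := Subtype.ext (conj_eq_one_iff.mp h)
      rw [this, map_one]
    · rcases ((Finset.univ ×ˢ T').filter fun gc => F gc = y).eq_empty_or_nonempty with h0 | ⟨a, ha⟩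
      · rw [h0]; simp
      · norm_cast
        rw [Nat.card_eq_fintype_card, ← Finset.card_univ]
        have hmem : ∀ b ∈ (Finset.univ ×ˢ T').filter (fun gc => F gc = y),
            a.1⁻¹ * b.1 ∈ S.N := by
          intro b hb
          simp only [hT', hF, Finset.mem_filter, Finset.mem_product] at ha hb
          have hconj : ((a.2 : S.C) : G) = a.1⁻¹ * b.1 * b.2 * (a.1⁻¹ * b.1)⁻¹ := by
            have := ha.2.trans hb.2.symm
            calc ((a.2 : S.C) : G) = a.1⁻¹ * (a.1 * a.2 * a.1⁻¹) * a.1 := by group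
              _ = _ := by rw [this]; group
          refine S.mem_N_of_conj (x := (S.π b.2 : G)) (S.π b.2).2 ?_ ?_
          · exact fun h => hb.1.2.2 (Subtype.ext h)
          · rw [← S.π_conj b.2 a.2 hconj]
            exact (S.π a.2).2
        refine Finset.card_le_card_of_injOn
          (fun b => if h : a.1⁻¹ * b.1 ∈ S.N then (⟨_, h⟩ : S.N) else 1) (fun _ _ => by simp) ?_
        intro b hb b' hb' hbb
        simp only [dif_pos (hmem b hb), dif_pos (hmem b' hb'), Subtype.mk.injEq,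
          mul_right_inj] at hbb
        refine Prod.ext hbb (Subtype.ext ?_)
        simp only [hF, Finset.coe_filter, Set.mem_ofPred_eq] at hb hb'
        have := hb.2.trans hb'.2.symm
        rw [hbb] at this
        simpa using this
  have hmain : (Nat.card G : ℝ) * ∑ c ∈ T', Complex.normSq (ψ c) ≤
      (Nat.card S.N : ℝ) * ((Nat.card G : ℝ) - Complex.normSq (ψ 1)) := by
    calc (Nat.card G : ℝ) * ∑ c ∈ T', Complex.normSq (ψ c)
        = ∑ gc ∈ Finset.univ ×ˢ T', Complex.normSq (ψ (F gc)) := by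
          rw [Finset.sum_product, Nat.card_eq_fintype_card, ← Finset.card_univ,
            ← nsmul_eq_mul, ← Finset.sum_const]
          refine Finset.sum_congr rfl fun g _ => Finset.sum_congr rfl fun c _ => ?_
          simp only [hF]
          exact congrArg Complex.normSq (hcl _ g).symm
      _ = ∑ y : G, (((Finset.univ ×ˢ T').filter fun gc => F gc = y).card : ℝ) *
            Complex.normSq (ψ y) := by
          rw [← Finset.sum_fiberwise (Finset.univ ×ˢ T') F]
          refine Finset.sum_congr rfl fun y _ => ?_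
          rw [← nsmul_eq_mul, ← Finset.sum_const]
          exact Finset.sum_congr rfl fun gc hgc => by rw [(Finset.mem_filter.mp hgc).2]
      _ ≤ ∑ y : G, (if y = 1 then 0 else (Nat.card S.N : ℝ)) * Complex.normSq (ψ y) :=
          Finset.sum_le_sum fun y _ => mul_le_mul_of_nonneg_right (hfib y) (Complex.normSq_nonneg _)
      _ = _ := by
          rw [← htot, mul_sub, Finset.mul_sum]
          simp only [ite_mul, zero_mul, Finset.sum_ite, Finset.sum_const_zero, zero_add]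
          rw [Finset.filter_ne', Finset.sum_erase_eq_sub (Finset.mem_univ 1)]
  have h1 : 0 < Complex.normSq (ψ 1) := Complex.normSq_pos.mpr (Char.irr_one_ne_zero hψ)
  have hN : (0 : ℝ) < Nat.card S.N := by exact_mod_cast Nat.card_pos
  have hG : (0 : ℝ) < Nat.card G := by exact_mod_cast Nat.card_pos
  nlinarith [mul_pos hN h1]

theorem sum_T_lt {ψ : G → ℂ} (hψ : Cfsg.IsIrrCharacter G ψ) :
    ∑ γ, S.T ψ γ < (S.e : ℤ) * S.q := by
  have hc := Char.isCharacter_of_irr hψ
  have hR : ∑ γ, ∑ l, S.m ψ (l, γ) ^ 2 = ∑ x, S.m ψ x ^ 2 := by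
    rw [Fintype.sum_prod_type]; exact Finset.sum_comm
  simp only [T, Finset.sum_sub_distrib, ← Finset.mul_sum, hR]
  set R := ∑ x, S.m ψ x ^ 2 with hRdef
  set R' := ∑ γ, (∑ l, S.m ψ (l, γ)) ^ 2 with hR'def
  have h1 : ∑ c : S.C, Complex.normSq (ψ c) = (Nat.card S.C : ℝ) * (R : ℝ) := by
    have h := Char.sum_mul_conj_eq_card_mul_classInner (S.res ψ) (S.res ψ)
    rw [S.inner_res_self hc] at h
    simp only [res, Complex.mul_conj, ← hRdef] at h
    exact_mod_cast h
  have h2 : ∑ y : S.K, Complex.normSq (ψ ((y : S.C) : G)) = (Nat.card S.K : ℝ) * (R' : ℝ) := by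
    have h := Char.sum_mul_conj_eq_card_mul_classInner (fun y : S.K => ψ ((y : S.C) : G))
      (fun y : S.K => ψ ((y : S.C) : G))
    rw [S.inner_resK_self hc] at h
    simp only [Complex.mul_conj, ← hR'def] at h
    exact_mod_cast h
  have h3 := S.sum_normSq_lt hψ
  have h4 : ∑ c ∈ Finset.univ.filter (fun c : S.C => ¬ S.π c ≠ 1), Complex.normSq (ψ c) =
      ∑ y : S.K, Complex.normSq (ψ ((y : S.C) : G)) :=
    Finset.sum_subtype _ (fun c => by simp [MonoidHom.mem_ker])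
      (fun c : S.C => Complex.normSq (ψ c))
  rw [← Finset.sum_filter_add_sum_filter_not Finset.univ (fun c : S.C => S.π c ≠ 1), h4, h2] at h1
  rw [show Nat.card S.N = S.e * Nat.card S.C from S.e_mul.symm, S.card_C] at h3
  rw [S.card_C] at h1
  have hK : (0 : ℝ) < Nat.card S.K := by exact_mod_cast Nat.card_pos
  have h5 : ((S.q : ℝ) * R - R') < S.e * S.q := by
    rw [q] at *
    push_cast at h1 h3 ⊢
    nlinarith
  exact_mod_cast h5

/-- The difference of two linear characters. -/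
def Df (l l' : S.Q →* ℂˣ) : S.C → ℂ := S.ch (S.lin l) - S.ch (S.lin l')

/-- The induced difference. -/
def D (l l' : S.Q →* ℂˣ) : G → ℂ := Cfsg.indFun S.C (S.Df l l')

theorem D_one (l l' : S.Q →* ℂˣ) : S.D l l' 1 = 0 :=
  CharInd.indFun_one_eq_zero _ (by simp [Df, ch_lin])

theorem Df_eq_zero (l l' : S.Q →* ℂˣ) {c : S.C} (hc : S.π c = 1) : S.Df l l' c = 0 := by
  simp [Df, ch_lin, hc]

theorem D_genChar (l l' : S.Q →* ℂˣ) : Cfsg.IsGeneralizedCharacter G (S.D l l') :=
  CharInd.genChar_indFun S.C ⟨_, _, Char.isCharacter_of_irr (S.ch_irr _),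
    Char.isCharacter_of_irr (S.ch_irr _), rfl⟩

theorem D_classFunction (l l' : S.Q →* ℂˣ) : Cfsg.IsClassFunction G (S.D l l') :=
  CharInd.indFun_isClassFunction S.C (S.Df l l')

theorem inner_D {ψ : G → ℂ} (hψ : Cfsg.IsCharacter G ψ) (l l' : S.Q →* ℂˣ) :
    Cfsg.classInner ψ (S.D l l') = ((S.m ψ (S.lin l) - S.m ψ (S.lin l') : ℤ) : ℂ) := by
  rw [D, CharInd.classInner_indFun_right S.C _ (Char.isCharacter_isClassFunction hψ)]
  show Cfsg.classInner (S.res ψ) _ = _
  rw [Df, Char.classInner_sub_right, S.inner_ch hψ, S.inner_ch hψ]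
  push_cast
  rfl

theorem inner_D_D_eq (a a' b b' : S.Q →* ℂˣ) :
    Cfsg.classInner (S.D a a') (S.D b b') = (Nat.card S.C : ℂ)⁻¹ *
      ∑ n : S.N, Cfsg.classInner (S.Df a a') (S.Df b b' ∘ S.cj n) := by
  conv_lhs => arg 1; rw [D]
  rw [CharInd.classInner_indFun_left S.C _ (S.D_classFunction b b')]
  suffices hpt : ∀ c : S.C, S.Df a a' c * conj (S.D b b' c) =
      (Nat.card S.C : ℂ)⁻¹ * ∑ n : S.N, S.Df a a' c * conj ((S.Df b b' ∘ S.cj n) c) by
    simp only [Cfsg.classInner, hpt, Finset.mul_sum]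
    exact Finset.sum_comm
  intro c
  by_cases hc : S.π c = 1
  · simp [S.Df_eq_zero a a' hc]
  · rw [← Finset.mul_sum, mul_left_comm]
    congr 1
    rw [D, CharInd.indFun_apply, map_mul, map_inv₀, map_natCast, map_sum]
    congr 1
    have hz : ∀ x : G, x ∉ S.N →
        Cfsg.extendByZero S.C (S.Df b b') (x⁻¹ * (c : G) * x) = 0 := by
      intro x hx
      by_cases hm : x⁻¹ * (c : G) * x ∈ S.C
      · rw [CharInd.extendByZero_mem S.C _ hm]
        apply S.Df_eq_zero
        by_contra hd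
        apply hx
        have h := S.π_conj (g := x⁻¹) c ⟨_, hm⟩ (by simp)
        have := S.mem_N_of_conj (g := x⁻¹) (S.π c).2 (fun h => hc (Subtype.ext h))
          (h ▸ (S.π _).2)
        simpa using S.N.inv_mem this
      · exact CharInd.extendByZero_notMem S.C _ hm
    rw [← Finset.sum_filter_add_sum_filter_not Finset.univ (fun x : G => x ∈ S.N),
      Finset.sum_eq_zero (s := Finset.univ.filter fun x : G => x ∉ S.N) (fun x hx => by
        rw [hz x (Finset.mem_filter.mp hx).2, map_zero]), add_zero,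
      Finset.sum_subtype (Finset.univ.filter fun x : G => x ∈ S.N) (p := fun x => x ∈ S.N)
        (fun x => by simp) (fun x : G => conj (Cfsg.extendByZero S.C (S.Df b b') (x⁻¹ * (c : G) * x)))]
    refine Fintype.sum_equiv (Equiv.inv S.N) _ _ fun n => ?_
    have hm : (n : G)⁻¹ * (c : G) * n ∈ S.C := by
      simpa using S.conj_mem_C (S.N.inv_mem n.2) c.2
    rw [CharInd.extendByZero_mem S.C _ hm, Function.comp_apply]
    congr 2
    exact Subtype.ext (by simp [cj_val])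

/-- The incidence number of two linear characters. -/
def J (l b : S.Q →* ℂˣ) : ℤ :=
  if S.lin l ∈ S.orb (S.lin b) then (if b = 1 then (S.e : ℤ) else 1) else 0

theorem act_lin_one (n : S.N) : S.act n (S.lin 1) = S.lin 1 := by
  rw [act_lin]
  congr 1

theorem sum_inner_lin (l b : S.Q →* ℂˣ) :
    ∑ n : S.N, Cfsg.classInner (S.ch (S.lin l)) (S.ch (S.lin b) ∘ S.cj n) =
      (Nat.card S.C : ℂ) * (S.J l b : ℂ) := by
  simp only [← ch_act, classInner_ch, Finset.sum_boole, J]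
  by_cases hb : b = 1
  · subst hb
    simp only [act_lin_one, mem_orb, exists_const]
    by_cases hl : l = 1
    · subst hl
      simp only [if_true, Finset.filter_true, Finset.card_univ, ← Nat.card_eq_fintype_card]
      rw [← S.e_mul]
      push_cast
      ring
    · have hne : S.lin l ≠ S.lin 1 := fun h => hl (S.lin_injective h)
      simp [hne, Ne.symm hne]
  · by_cases hm : S.lin l ∈ S.orb (S.lin b)
    · obtain ⟨n, hn⟩ := S.mem_orb.mp hm
      rw [if_pos hm, if_neg hb, ← S.card_fibre (x := S.lin b) hb n, hn]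
      simp [eq_comm]
    · rw [if_neg hm, Int.cast_zero, mul_zero, Finset.filter_false_of_mem, Finset.card_empty,
        Nat.cast_zero]
      intro n _ h
      exact hm (S.mem_orb.mpr ⟨n, h.symm⟩)

theorem inner_D_D (a a' b b' : S.Q →* ℂˣ) :
    Cfsg.classInner (S.D a a') (S.D b b') =
      ((S.J a b - S.J a b' - S.J a' b + S.J a' b' : ℤ) : ℂ) := by
  rw [inner_D_D_eq]
  have hs : ∀ n : S.N, Cfsg.classInner (S.Df a a') (S.Df b b' ∘ S.cj n) =
      Cfsg.classInner (S.ch (S.lin a)) (S.ch (S.lin b) ∘ S.cj n)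
      - Cfsg.classInner (S.ch (S.lin a)) (S.ch (S.lin b') ∘ S.cj n)
      - Cfsg.classInner (S.ch (S.lin a')) (S.ch (S.lin b) ∘ S.cj n)
      + Cfsg.classInner (S.ch (S.lin a')) (S.ch (S.lin b') ∘ S.cj n) := by
    intro n
    rw [show S.Df b b' ∘ S.cj n = S.ch (S.lin b) ∘ S.cj n - S.ch (S.lin b') ∘ S.cj n from rfl,
      Df, Char.classInner_sub_left, Char.classInner_sub_right, Char.classInner_sub_right]
    ring
  simp only [hs, Finset.sum_add_distrib, Finset.sum_sub_distrib, sum_inner_lin]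
  rw [← mul_sub, ← mul_sub, ← mul_add, inv_mul_cancel_left₀ Char.card_ne_zero_complex]
  push_cast
  ring

end Setup

end Cfsg.Agent.TICent
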