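import Cfsg.Agent.Char.Product
import Cfsg.Agent.Char.Kernel
import Cfsg.Agent.CharInd.GenChar
import Mathlib.GroupTheory.Transfer
import Mathlib.GroupTheory.Sylow

/-!
# Local characters for a Sylow subgroup with uniform centralisers

`C` is the common centraliser of the non-identity elements of the abelian subgroup `Q`, and
`π : C →* Q` is a retraction given by a power map.
-/

set_option autoImplicit false
set_option linter.style.haveILetI false
set_option linter.unusedSectionVars false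
set_option linter.unusedVariables false

noncomputable section

open scoped ComplexConjugate BigOperators Classical

namespace Cfsg.Agent.TICent

universe u

/-- A subgroup with uniform centralisers, together with a retraction of the centraliser. -/
structure Setup (G : Type u) [Group G] where
  Q : Subgroup G
  C : Subgroup G
  k : ℕ
  nontriv : ∃ x ∈ Q, x ≠ 1
  le : Q ≤ C
  centr : ∀ x ∈ Q, x ≠ 1 → Subgroup.centralizer ({x} : Set G) = C
  π : C →* Q
  π_apply : ∀ c : C, (π c : G) = (c : G) ^ k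
  π_id : ∀ c : C, (c : G) ∈ Q → (π c : G) = c

variable {G : Type u} [Group G] [Fintype G] (S : Setup G)

namespace Setup

theorem commute_mem {c x : G} (hc : c ∈ S.C) (hx : x ∈ S.Q) : c * x = x * c := by
  by_cases h : x = 1
  · simp [h]
  · rw [← S.centr x hx h] at hc
    exact Subgroup.mem_centralizer_singleton_iff.mp hc

theorem Q_comm (a b : S.Q) : a * b = b * a :=
  Subtype.ext (S.commute_mem (S.le a.2) b.2)

/-- The normaliser of `Q`. -/
abbrev N : Subgroup G := Subgroup.normalizer (S.Q : Set G)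

theorem C_le_N : S.C ≤ S.N := by
  intro c hc
  rw [Subgroup.mem_normalizer_iff]
  intro h
  constructor
  · intro hh
    rw [S.commute_mem hc hh, mul_inv_cancel_right]
    exact hh
  · intro hh
    have := S.commute_mem hc hh
    have h2 : c * h * c⁻¹ = h := by
      have h3 := mul_left_cancel (this.trans (by group : c * h * c⁻¹ * c = c * h))
      exact h3
    rwa [h2] at hh

theorem conj_mem_Q {g x : G} (hg : g ∈ S.N) (hx : x ∈ S.Q) : g * x * g⁻¹ ∈ S.Q :=
  ((Subgroup.mem_normalizer_iff).mp hg x).mp hx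

theorem conj_mem_C {g c : G} (hg : g ∈ S.N) (hc : c ∈ S.C) : g * c * g⁻¹ ∈ S.C := by
  obtain ⟨x, hx, hx1⟩ := S.nontriv
  have hy : g⁻¹ * x * g ∈ S.Q := by simpa using S.conj_mem_Q (S.N.inv_mem hg) hx
  rw [← S.centr x hx hx1, Subgroup.mem_centralizer_singleton_iff]
  have h := S.commute_mem hc hy
  calc g * c * g⁻¹ * x = g * (c * (g⁻¹ * x * g)) * g⁻¹ := by group
    _ = g * ((g⁻¹ * x * g) * c) * g⁻¹ := by rw [h]
    _ = x * (g * c * g⁻¹) := by group

theorem mem_N_of_conj {g x : G} (hx : x ∈ S.Q) (hx1 : x ≠ 1) (h : g * x * g⁻¹ ∈ S.Q) :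
    g ∈ S.N := by
  apply Subgroup.mem_normalizer_iff_map_conj_eq.mpr
  refine Subgroup.eq_of_le_of_card_ge ?_ (le_of_eq ?_)
  · rintro _ ⟨y, hy, rfl⟩
    suffices hC : g * y * g⁻¹ ∈ S.C by
      have h1 := S.π_id ⟨y, S.le hy⟩ hy
      rw [S.π_apply] at h1
      have h2 := S.π_apply ⟨g * y * g⁻¹, hC⟩
      rw [conj_pow, h1] at h2
      show g * y * g⁻¹ ∈ S.Q
      rw [← h2]
      exact (S.π _).2
    have hx1' : g * x * g⁻¹ ≠ 1 := fun e => hx1 (conj_eq_one_iff.mp e)
    rw [← S.centr _ h hx1', Subgroup.mem_centralizer_singleton_iff]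
    show g * y * g⁻¹ * (g * x * g⁻¹) = g * x * g⁻¹ * (g * y * g⁻¹)
    have e := S.commute_mem (S.le hy) hx
    calc g * y * g⁻¹ * (g * x * g⁻¹) = g * (y * x) * g⁻¹ := by group
      _ = g * (x * y) * g⁻¹ := by rw [e]
      _ = _ := by group
  · exact (Subgroup.card_map_of_injective (MulAut.conj g).injective).symm

theorem π_eq_one_of_Q {c : S.C} (h : S.π c = 1) (hc : (c : G) ∈ S.Q) : c = 1 := by
  have := S.π_id c hc
  rw [h] at this
  exact Subtype.ext (by simpa using this.symm)

theorem π_conj {g : G} (c d : S.C) (h : (d : G) = g * c * g⁻¹) :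
    (S.π d : G) = g * (S.π c : G) * g⁻¹ := by
  rw [S.π_apply, S.π_apply, h, conj_pow]

/-- The inclusion of `Q` in `C`. -/
def ι : S.Q →* S.C := Subgroup.inclusion S.le

theorem π_ι (x : S.Q) : S.π (S.ι x) = x := Subtype.ext (S.π_id _ x.2)

theorem ι_comm (x : S.Q) (c : S.C) : c * S.ι x = S.ι x * c :=
  Subtype.ext (S.commute_mem c.2 x.2)

/-- The kernel of the retraction. -/
abbrev K : Subgroup S.C := S.π.ker

/-- The projection on the kernel. -/
def κ : S.C →* S.K where
  toFun c := ⟨c * (S.ι (S.π c))⁻¹, by simp [MonoidHom.mem_ker, π_ι]⟩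
  map_one' := Subtype.ext (by simp)
  map_mul' a b := Subtype.ext (by
    show a * b * (S.ι (S.π (a * b)))⁻¹ = a * (S.ι (S.π a))⁻¹ * (b * (S.ι (S.π b))⁻¹)
    rw [map_mul, map_mul, mul_inv_rev]
    have h : Commute (b * (S.ι (S.π b))⁻¹) (S.ι (S.π a))⁻¹ :=
      (show Commute (b * (S.ι (S.π b))⁻¹) (S.ι (S.π a)) from S.ι_comm (S.π a) _).inv_right
    rw [mul_assoc a b, ← mul_assoc b, h.eq, ← mul_assoc a])

theorem κ_val (c : S.C) : (S.κ c : S.C) = c * (S.ι (S.π c))⁻¹ := rfl

theorem κ_of_mem (x : S.K) : S.κ (x : S.C) = x := Subtype.ext (by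
  rw [κ_val, MonoidHom.mem_ker.mp x.2, map_one, inv_one, mul_one])

theorem κ_ι (x : S.Q) : S.κ (S.ι x) = 1 := Subtype.ext (by simp [κ_val, π_ι])

/-- `C` is the direct product of `Q` and the kernel. -/
def prodEquiv : S.C ≃* S.Q × S.K where
  toFun c := (S.π c, S.κ c)
  invFun p := S.ι p.1 * (p.2 : S.C)
  left_inv c := by
    show S.ι (S.π c) * (c * (S.ι (S.π c))⁻¹) = c
    rw [← mul_assoc, ← S.ι_comm, mul_inv_cancel_right]
  right_inv p := by
    refine Prod.ext ?_ ?_
    · show S.π (S.ι p.1 * (p.2 : S.C)) = p.1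
      rw [map_mul, MonoidHom.mem_ker.mp p.2.2, π_ι, mul_one]
    · show S.κ (S.ι p.1 * (p.2 : S.C)) = p.2
      rw [map_mul, κ_ι, κ_of_mem, one_mul]
  map_mul' a b := by simp

theorem card_C : Nat.card S.C = Nat.card S.Q * Nat.card S.K := by
  rw [Nat.card_congr S.prodEquiv.toEquiv, Nat.card_prod]

/-- Conjugation by an element of the normaliser on `C`. -/
def cj (n : S.N) : S.C ≃* S.C where
  toFun c := ⟨(n : G) * c * (n : G)⁻¹, S.conj_mem_C n.2 c.2⟩
  invFun c := ⟨(n : G)⁻¹ * c * n, by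
    simpa using S.conj_mem_C (S.N.inv_mem n.2) c.2⟩
  left_inv c := Subtype.ext (by group)
  right_inv c := Subtype.ext (by group)
  map_mul' a b := Subtype.ext (by
    show (n : G) * ((a : G) * b) * (n : G)⁻¹ = (n : G) * a * (n : G)⁻¹ * (n * b * (n : G)⁻¹)
    group)

theorem cj_val (n : S.N) (c : S.C) : (S.cj n c : G) = (n : G) * c * (n : G)⁻¹ := rfl

/-- Conjugation by an element of the normaliser on `Q`. -/
def cjQ (n : S.N) : S.Q ≃* S.Q where
  toFun c := ⟨(n : G) * c * (n : G)⁻¹, S.conj_mem_Q n.2 c.2⟩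
  invFun c := ⟨(n : G)⁻¹ * c * n, by
    simpa using S.conj_mem_Q (S.N.inv_mem n.2) c.2⟩
  left_inv c := Subtype.ext (by group)
  right_inv c := Subtype.ext (by group)
  map_mul' a b := Subtype.ext (by
    show (n : G) * ((a : G) * b) * (n : G)⁻¹ = (n : G) * a * (n : G)⁻¹ * (n * b * (n : G)⁻¹)
    group)

theorem π_cj (n : S.N) (c : S.C) : S.π (S.cj n c) = S.cjQ n (S.π c) :=
  Subtype.ext (S.π_conj c _ rfl)

theorem cj_ι (n : S.N) (x : S.Q) : S.cj n (S.ι x) = S.ι (S.cjQ n x) := rfl

theorem cj_mem_K (n : S.N) (x : S.K) : S.cj n (x : S.C) ∈ S.K := by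
  rw [MonoidHom.mem_ker, π_cj, MonoidHom.mem_ker.mp x.2, map_one]

/-- Conjugation by an element of the normaliser on the kernel. -/
def cjK (n : S.N) : S.K ≃* S.K where
  toFun x := ⟨S.cj n x, S.cj_mem_K n x⟩
  invFun x := ⟨(S.cj n).symm x, by
    rw [MonoidHom.mem_ker]
    apply (S.cjQ n).injective
    rw [← π_cj, MulEquiv.apply_symm_apply, MonoidHom.mem_ker.mp x.2, map_one]⟩
  left_inv x := Subtype.ext ((S.cj n).symm_apply_apply _)
  right_inv x := Subtype.ext ((S.cj n).apply_symm_apply _)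
  map_mul' a b := Subtype.ext (map_mul (S.cj n) _ _)

theorem κ_cj (n : S.N) (c : S.C) : S.κ (S.cj n c) = S.cjK n (S.κ c) := Subtype.ext (by
  show S.cj n c * (S.ι (S.π (S.cj n c)))⁻¹ = S.cj n (c * (S.ι (S.π c))⁻¹)
  rw [map_mul, map_inv, cj_ι, π_cj])

theorem cjQ_mul (m n : S.N) (x : S.Q) : S.cjQ (m * n) x = S.cjQ m (S.cjQ n x) := Subtype.ext (by
  show (m : G) * n * x * ((m : G) * n)⁻¹ = (m : G) * ((n : G) * x * (n : G)⁻¹) * (m : G)⁻¹
  group)

/-- An element of the normaliser fixing a nontrivial linear character of `Q` centralises `Q`. -/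
theorem mem_C_of_fix {l : S.Q →* ℂˣ} (hl : l ≠ 1) (n : S.N)
    (h : ∀ x, l (S.cjQ n x) = l x) : (n : G) ∈ S.C := by
  by_contra hn
  apply hl
  have hinj : Function.Injective (fun x : S.Q => S.cjQ n x * x⁻¹) := by
    intro a b hab
    by_contra hne
    apply hn
    have h1 : S.cjQ n (b⁻¹ * a) = b⁻¹ * a := by
      rw [map_mul, map_inv]
      have e : S.cjQ n a = S.cjQ n b * b⁻¹ * a := by
        rw [← mul_inv_eq_iff_eq_mul]; exact hab
      rw [e, mul_assoc, ← mul_assoc, inv_mul_cancel, one_mul]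
    have hne' : ((b⁻¹ * a : S.Q) : G) ≠ 1 := by
      intro e
      exact hne (inv_mul_eq_one.mp (Subtype.ext e : b⁻¹ * a = 1)).symm
    rw [← S.centr _ (b⁻¹ * a).2 hne', Subgroup.mem_centralizer_singleton_iff]
    exact mul_inv_eq_iff_eq_mul.mp (congrArg Subtype.val h1)
  ext x
  obtain ⟨a, rfl⟩ := Finite.surjective_of_injective hinj x
  simp [h a]

/-- The index type of the irreducible characters of `C`. -/
abbrev X : Type u := (S.Q →* ℂˣ) × Cfsg.IrrCharacter S.K

instance : Finite (S.Q →* ℂˣ) := Char.monoidHom_complex_finite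

instance : Fintype (S.Q →* ℂˣ) := Fintype.ofFinite _

/-- The irreducible character of `C` belonging to an index. -/
def ch (x : S.X) : S.C → ℂ := fun c => (x.1 (S.π c) : ℂ) * (x.2 : S.K → ℂ) (S.κ c)

theorem ch_irr (x : S.X) : Cfsg.IsIrrCharacter S.C (S.ch x) :=
  Char.isIrrCharacter_comp_mulEquiv
    (Char.isIrrCharacter_prodMul (Char.isIrrCharacter_monoidHom x.1) x.2.2) S.prodEquiv

theorem ch_injective : Function.Injective S.ch := by
  rintro ⟨l, γ⟩ ⟨l', γ'⟩ h
  have hg : γ = γ' := Subtype.ext (funext fun y => by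
    have := congrFun h (y : S.C)
    simpa [ch, MonoidHom.mem_ker.mp y.2, κ_of_mem] using this)
  subst hg
  refine Prod.ext (MonoidHom.ext fun x => Units.ext ?_) rfl
  have := congrFun h (S.ι x)
  simpa [ch, π_ι, κ_ι, Char.irr_one_ne_zero γ.2] using this

/-- The irreducible characters of `C`. -/
def chEquiv : S.X ≃ Cfsg.IrrCharacter S.C :=
  Equiv.ofBijective (fun x => ⟨S.ch x, S.ch_irr x⟩)
    ⟨fun x y h => S.ch_injective (congrArg Subtype.val h), fun θ => by
      obtain ⟨α, β, hαβ⟩ := Char.exists_irr_prodMul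
        (Char.isIrrCharacter_comp_mulEquiv θ.2 S.prodEquiv.symm)
      obtain ⟨f, hf⟩ := Char.irr_exists_monoidHom_of_comm S.Q_comm α.2
      refine ⟨(f, β), Subtype.ext (funext fun c => ?_)⟩
      have := congrFun hαβ (S.prodEquiv c)
      simp only [Function.comp_apply, MulEquiv.symm_apply_apply] at this
      rw [this, hf]
      rfl⟩

theorem chEquiv_val (x : S.X) : (S.chEquiv x : S.C → ℂ) = S.ch x := rfl

theorem classInner_ch (x y : S.X) :
    Cfsg.classInner (S.ch x) (S.ch y) = if x = y then 1 else 0 := by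
  split_ifs with h
  · rw [h]; exact Char.classInner_irr_self (S.ch_irr y)
  · exact Char.classInner_irr_ne (S.ch_irr x) (S.ch_irr y) fun e => h (S.ch_injective e)

theorem eq_sum_ch {f : S.C → ℂ} (hf : Cfsg.IsClassFunction S.C f) :
    f = ∑ x, Cfsg.classInner f (S.ch x) • S.ch x :=
  (Char.eq_sum_classInner_smul hf).trans
    (Fintype.sum_equiv S.chEquiv _ _ (fun x => rfl)).symm

/-- The action of the normaliser on the indices. -/
def act (n : S.N) (x : S.X) : S.X :=
  (x.1.comp (S.cjQ n).toMonoidHom,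
    ⟨(x.2 : S.K → ℂ) ∘ S.cjK n, Char.isIrrCharacter_comp_mulEquiv x.2.2 (S.cjK n)⟩)

theorem ch_act (n : S.N) (x : S.X) : S.ch (S.act n x) = S.ch x ∘ S.cj n := by
  funext c
  simp [ch, act, π_cj, κ_cj]

theorem act_of_mem (n : S.N) (hn : (n : G) ∈ S.C) (x : S.X) : S.act n x = x := by
  apply S.ch_injective
  rw [ch_act]
  funext c
  exact Char.irr_isClassFunction (S.ch_irr x) c ⟨n, hn⟩

theorem act_mul (m n : S.N) (x : S.X) : S.act (m * n) x = S.act n (S.act m x) := by
  apply S.ch_injective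
  rw [ch_act, ch_act, ch_act]
  funext c
  simp only [Function.comp_apply]
  congr 1
  apply Subtype.ext
  simp only [cj_val, Subgroup.coe_mul]
  group

theorem act_one (x : S.X) : S.act 1 x = x := S.act_of_mem 1 S.C.one_mem x

/-- The trivial character of the kernel. -/
def oneK : Cfsg.IrrCharacter S.K := ⟨fun _ => 1, CharInd.irr_one_const⟩

/-- The index of a linear character of `Q`. -/
def lin (l : S.Q →* ℂˣ) : S.X := (l, S.oneK)

theorem ch_lin (l : S.Q →* ℂˣ) : S.ch (S.lin l) = fun c => (l (S.π c) : ℂ) := by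
  funext c
  simp [ch, lin, oneK]

theorem lin_injective : Function.Injective S.lin := fun _ _ h => congrArg Prod.fst h

theorem act_lin (n : S.N) (l : S.Q →* ℂˣ) :
    S.act n (S.lin l) = S.lin (l.comp (S.cjQ n).toMonoidHom) := rfl

/-- The order of the acting group. -/
def e : ℕ := Nat.card S.N / Nat.card S.C

theorem e_mul : S.e * Nat.card S.C = Nat.card S.N :=
  Nat.div_mul_cancel (Subgroup.card_dvd_of_le S.C_le_N)

theorem e_pos : 0 < S.e := by
  rcases Nat.eq_zero_or_pos S.e with h | h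
  · have := S.e_mul
    rw [h, zero_mul] at this
    exact absurd this.symm Nat.card_pos.ne'
  · exact h

/-- The orbit of an index. -/
def orb (x : S.X) : Finset S.X := Finset.univ.image fun n => S.act n x

theorem mem_orb {x y : S.X} : y ∈ S.orb x ↔ ∃ n, S.act n x = y := by simp [orb]

theorem self_mem_orb (x : S.X) : x ∈ S.orb x := S.mem_orb.mpr ⟨1, S.act_one x⟩

theorem orb_eq_of_mem {x y : S.X} (h : y ∈ S.orb x) : S.orb y = S.orb x := by
  obtain ⟨m, rfl⟩ := S.mem_orb.mp h
  ext z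
  simp only [mem_orb]
  constructor
  · rintro ⟨n, rfl⟩; exact ⟨m * n, S.act_mul m n x⟩
  · rintro ⟨n, rfl⟩
    exact ⟨m⁻¹ * n, by rw [← act_mul, mul_inv_cancel_left]⟩

/-- The fibres of the action on a nontrivial index are cosets of `C`. -/
theorem act_eq_iff {x : S.X} (hx : x.1 ≠ 1) (m n : S.N) :
    S.act m x = S.act n x ↔ ((m * n⁻¹ : S.N) : G) ∈ S.C := by
  constructor
  · intro h
    have h2 : S.act (m * n⁻¹) x = x := by
      rw [act_mul, h, ← act_mul, mul_inv_cancel, act_one]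
    refine S.mem_C_of_fix hx _ fun y => ?_
    exact congrFun (congrArg (fun z : S.X => (z.1 : S.Q → ℂˣ)) h2) y
  · intro h
    conv_lhs => rw [show m = m * n⁻¹ * n by group]
    rw [act_mul, S.act_of_mem _ h]

theorem card_fibre {x : S.X} (hx : x.1 ≠ 1) (n : S.N) :
    (Finset.univ.filter fun m => S.act m x = S.act n x).card = Nat.card S.C := by
  rw [← Nat.card_eq_finsetCard]
  exact Nat.card_congr
    { toFun := fun m => ⟨_, (S.act_eq_iff hx m.1 n).mp (Finset.mem_filter.mp m.2).2⟩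
      invFun := fun c => ⟨⟨c, S.C_le_N c.2⟩ * n,
        Finset.mem_filter.mpr ⟨Finset.mem_univ _, (S.act_eq_iff hx _ n).mpr (by simp)⟩⟩
      left_inv := fun m => Subtype.ext (Subtype.ext (by simp))
      right_inv := fun c => Subtype.ext (by simp) }

theorem card_orb {x : S.X} (hx : x.1 ≠ 1) : (S.orb x).card = S.e := by
  have h := Finset.card_eq_sum_card_image (fun n => S.act n x) (Finset.univ : Finset S.N)
  rw [Finset.sum_const_nat (m := Nat.card S.C)] at h
  · rw [Finset.card_univ, ← Nat.card_eq_fintype_card, ← S.e_mul] at h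
    exact (Nat.eq_of_mul_eq_mul_right Nat.card_pos h).symm
  · intro y hy
    obtain ⟨n, -, rfl⟩ := Finset.mem_image.mp hy
    exact S.card_fibre hx n

theorem fst_ne_one_of_mem_orb {x y : S.X} (hx : x.1 ≠ 1) (h : y ∈ S.orb x) : y.1 ≠ 1 := by
  obtain ⟨n, rfl⟩ := S.mem_orb.mp h
  intro hy
  apply hx
  ext z
  obtain ⟨w, rfl⟩ := (S.cjQ n).surjective z
  simpa [act] using congrArg Units.val (DFunLike.congr_fun hy w)

end Setup

end Cfsg.Agent.TICent
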