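import Cfsg.Agent.BlockVal.TIGlobal

/-!
# No small irreducible character when no proper normal subgroup contains `Q`
-/

set_option autoImplicit false
set_option linter.style.haveILetI false
set_option linter.unusedSectionVars false
set_option linter.unusedVariables false

noncomputable section

open scoped ComplexConjugate BigOperators Classical

namespace Cfsg.Agent.TICent

universe u

variable {G : Type u} [Group G] [Fintype G]

theorem classInner_self_re (f : G → ℂ) :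
    (Cfsg.classInner f f).re = (Nat.card G : ℝ)⁻¹ * ∑ g, Complex.normSq (f g) := by
  simp only [Cfsg.classInner, Complex.mul_conj]
  rw [← Complex.ofReal_natCast, ← Complex.ofReal_inv, ← Complex.ofReal_sum, ← Complex.ofReal_mul,
    Complex.ofReal_re]

theorem classInner_self_re_nonneg (f : G → ℂ) : 0 ≤ (Cfsg.classInner f f).re := by
  rw [classInner_self_re]
  exact mul_nonneg (by positivity) (Finset.sum_nonneg fun g _ => Complex.normSq_nonneg _)

theorem eq_zero_of_classInner_self_re (f : G → ℂ) (h : (Cfsg.classInner f f).re ≤ 0) : f = 0 := by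
  rw [classInner_self_re] at h
  have hs : ∑ g, Complex.normSq (f g) ≤ 0 := by
    have hG : (0 : ℝ) < (Nat.card G : ℝ)⁻¹ := by
      have : (0 : ℝ) < Nat.card G := by exact_mod_cast Nat.card_pos
      positivity
    nlinarith
  funext g
  have := (Finset.sum_eq_zero_iff_of_nonneg fun g _ => Complex.normSq_nonneg (f g)).mp
    (le_antisymm hs (Finset.sum_nonneg fun g _ => Complex.normSq_nonneg _)) g (Finset.mem_univ g)
  exact Complex.normSq_eq_zero.mp this

namespace Setup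

variable (S : Setup G)

/-- The orbit of a linear character of `Q`. -/
def orbL (l : S.Q →* ℂˣ) : Finset (S.Q →* ℂˣ) :=
  Finset.univ.filter fun r => S.lin r ∈ S.orb (S.lin l)

theorem mem_orbL {l r : S.Q →* ℂˣ} : r ∈ S.orbL l ↔ S.lin r ∈ S.orb (S.lin l) := by simp [orbL]

theorem card_orbL {l : S.Q →* ℂˣ} (hl : l ≠ 1) : (S.orbL l).card = S.e := by
  rw [← S.card_orb (x := S.lin l) hl]
  refine Finset.card_bij (fun r _ => S.lin r) (fun r hr => S.mem_orbL.mp hr)
    (fun a _ b _ h => S.lin_injective h) fun y hy => ?_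
  obtain ⟨n, rfl⟩ := S.mem_orb.mp hy
  exact ⟨_, S.mem_orbL.mpr (by rw [← act_lin]; exact hy), (S.act_lin n l).symm⟩

theorem self_mem_orbL (l : S.Q →* ℂˣ) : l ∈ S.orbL l := S.mem_orbL.mpr (S.self_mem_orb _)

theorem orbL_eq_of_mem {l r : S.Q →* ℂˣ} (h : r ∈ S.orbL l) : S.orbL r = S.orbL l := by
  rw [orbL, orbL, S.orb_eq_of_mem (S.mem_orbL.mp h)]

theorem mem_orbL_symm {l r : S.Q →* ℂˣ} (h : r ∈ S.orbL l) : l ∈ S.orbL r := by
  rw [S.orbL_eq_of_mem h]; exact S.self_mem_orbL l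

theorem ne_one_of_mem_orbL {l r : S.Q →* ℂˣ} (hl : l ≠ 1) (h : r ∈ S.orbL l) : r ≠ 1 :=
  S.fst_ne_one_of_mem_orb (x := S.lin l) hl (S.mem_orbL.mp h)

theorem J_eq_one {l b : S.Q →* ℂˣ} (hb : b ≠ 1) (h : l ∈ S.orbL b) : S.J l b = 1 := by
  rw [J, if_pos (S.mem_orbL.mp h), if_neg hb]

theorem J_eq_zero {l b : S.Q →* ℂˣ} (h : l ∉ S.orbL b) : S.J l b = 0 := by
  rw [J, if_neg fun hh => h (S.mem_orbL.mpr hh)]

theorem J_one_one : S.J 1 1 = S.e := by
  rw [J, if_pos (S.self_mem_orb _), if_pos rfl]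

theorem J_one_right {l : S.Q →* ℂˣ} (hl : l ≠ 1) : S.J l 1 = 0 := by
  refine S.J_eq_zero fun h => hl ?_
  obtain ⟨n, hn⟩ := S.mem_orb.mp (S.mem_orbL.mp h)
  rw [act_lin_one] at hn
  exact S.lin_injective hn.symm

theorem J_one_left {b : S.Q →* ℂˣ} (hb : b ≠ 1) : S.J 1 b = 0 :=
  S.J_eq_zero fun h => S.ne_one_of_mem_orbL hb h rfl

theorem inner_D_self {l l' : S.Q →* ℂˣ} (hl : l ≠ 1) (hl' : l' ≠ 1) (h : l' ∉ S.orbL l) :
    Cfsg.classInner (S.D l l') (S.D l l') = 2 := by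
  rw [inner_D_D, S.J_eq_one hl (S.self_mem_orbL l), S.J_eq_one hl' (S.self_mem_orbL l'),
    S.J_eq_zero h, S.J_eq_zero fun hh => h (S.mem_orbL_symm hh)]
  norm_num

theorem abs_diff_le {ψ : G → ℂ} (hψ : Cfsg.IsIrrCharacter G ψ) {l l' : S.Q →* ℂˣ} (hl : l ≠ 1)
    (hl' : l' ≠ 1) : |S.m ψ (S.lin l) - S.m ψ (S.lin l')| ≤ 1 := by
  have hc := Char.isCharacter_of_irr hψ
  by_cases h : l' ∈ S.orbL l
  · rw [S.m_of_mem_orb hc (S.mem_orbL.mp h)]
    simp
  set k := S.m ψ (S.lin l) - S.m ψ (S.lin l') with hk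
  have h1 := S.inner_D hc l l'
  rw [← hk] at h1
  have h2 : Cfsg.classInner (S.D l l') ψ = (k : ℂ) := by
    rw [← Char.classInner_conj, h1, map_intCast]
  have h3 := classInner_self_re_nonneg (S.D l l' - (k : ℂ) • ψ)
  rw [Char.classInner_sub_left, Char.classInner_sub_right, Char.classInner_sub_right,
    Char.classInner_smul_left, Char.classInner_smul_left, Char.classInner_smul_right,
    Char.classInner_smul_right, map_intCast, h1, h2, S.inner_D_self hl hl' h,
    Char.classInner_irr_self hψ] at h3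
  simp at h3
  have h4 : (k : ℝ) * k ≤ 2 := by nlinarith
  have h5 : k * k ≤ 2 := by exact_mod_cast h4
  rcases le_or_gt |k| 1 with h6 | h6
  · exact h6
  · nlinarith [abs_mul_abs_self k]

/-- An irreducible character meeting a difference once splits it. -/
theorem split_D {ψ : G → ℂ} (hψ : Cfsg.IsIrrCharacter G ψ) {l l' : S.Q →* ℂˣ} (hl : l ≠ 1)
    (hl' : l' ≠ 1) (h : S.m ψ (S.lin l) - S.m ψ (S.lin l') = 1) :
    Cfsg.IsIrrCharacter G (ψ - S.D l l') ∧ (ψ - S.D l l') 1 = ψ 1 := by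
  have hc := Char.isCharacter_of_irr hψ
  have hno : l' ∉ S.orbL l := by
    intro hh
    rw [S.m_of_mem_orb hc (S.mem_orbL.mp hh)] at h
    simp at h
  have h1 := S.inner_D hc l l'
  rw [h] at h1
  have h2 : Cfsg.classInner (S.D l l') ψ = 1 := by
    rw [← Char.classInner_conj, h1, map_intCast, Int.cast_one]
  have hval : (ψ - S.D l l') 1 = ψ 1 := by simp [D_one]
  refine ⟨CharInd.genChar_norm_one_pos
    (CharInd.genChar_sub (CharInd.genChar_irr hψ) (S.D_genChar l l')) ?_ ?_, hval⟩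
  · rw [Char.classInner_sub_left, Char.classInner_sub_right, Char.classInner_sub_right, h1, h2,
      S.inner_D_self hl hl' hno, Char.classInner_irr_self hψ]
    norm_num
  · rw [hval]
    obtain ⟨n, hn, he⟩ := Char.irr_one_pos hψ
    rw [he]
    simpa using hn

/-- The hypothesis that no proper normal subgroup contains `Q`. -/
def NoNormal : Prop := ∀ K : Subgroup G, K.Normal → S.Q ≤ K → K = ⊤

theorem exists_nontriv_component (hNK : S.NoNormal) {ψ : G → ℂ} (hψ : Cfsg.IsIrrCharacter G ψ)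
    (h1 : ψ ≠ fun _ => 1) : ∃ x : S.X, x.1 ≠ 1 ∧ 0 < S.m ψ x := by
  by_contra! hcon
  apply h1
  have hc := Char.isCharacter_of_irr hψ
  obtain ⟨K, hKn, hK⟩ := Char.isCharacter_exists_kernel hc
  have hQK : S.Q ≤ K := by
    intro u hu
    rw [hK]
    have e1 := congrFun (S.res_eq_sum hc) (S.ι ⟨u, hu⟩)
    have e2 := congrFun (S.res_eq_sum hc) 1
    simp only [res, Finset.sum_apply, Pi.smul_apply, smul_eq_mul] at e1 e2
    show ψ ((S.ι ⟨u, hu⟩ : S.C) : G) = ψ ((1 : S.C) : G)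
    rw [e1, e2]
    refine Finset.sum_congr rfl fun x _ => ?_
    by_cases hx : x.1 = 1
    · simp [ch, hx, κ_ι]
    · rw [le_antisymm (hcon x hx) (S.m_nonneg hc x)]
      simp
  have htop := hNK K hKn hQK
  have hconst : ∀ g, ψ g = ψ 1 := fun g => (hK g).mp (htop ▸ Subgroup.mem_top g)
  have h := Char.classInner_irr_self hψ
  obtain ⟨n, hn, he⟩ := Char.irr_one_pos hψ
  simp only [Cfsg.classInner, hconst, he, map_natCast, Finset.sum_const, Finset.card_univ,
    nsmul_eq_mul, ← Nat.card_eq_fintype_card] at h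
  rw [inv_mul_cancel_left₀ Char.card_ne_zero_complex] at h
  have hn1 : n * n = 1 := by exact_mod_cast h
  funext g
  rw [hconst g, he, Nat.eq_one_of_mul_eq_one_left hn1]
  simp

theorem nonconst_of_small {ψ : G → ℂ} (hψ : Cfsg.IsCharacter G ψ) {d : ℕ} (hd : ψ 1 = d)
    (hdq : (d : ℤ) + 2 ≤ S.q) (γ : Cfsg.IrrCharacter S.K) (l₀ : S.Q →* ℂˣ)
    (h0 : 0 < S.m ψ (l₀, γ)) : ∃ l₁ : S.Q →* ℂˣ, l₁ ≠ 1 ∧ S.m ψ (l₁, γ) ≠ S.m ψ (l₀, γ) := by
  by_contra! h
  have h2 := S.sum_le_degree hψ hd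
    (((Finset.univ : Finset (S.Q →* ℂˣ)).erase 1).image fun l => ((l, γ) : S.X))
  rw [Finset.sum_image (fun a _ b _ e => congrArg Prod.fst e),
    Finset.sum_congr rfl (fun l hl => h l (Finset.ne_of_mem_erase hl)), Finset.sum_const,
    Finset.card_erase_of_mem (Finset.mem_univ _), Finset.card_univ, card_dual, nsmul_eq_mul] at h2
  have hq := S.one_lt_q
  push_cast [Nat.cast_sub hq.le] at h2
  nlinarith

/-- The contribution of the orbit of a component. -/
theorem orbit_T_ge {ψ : G → ℂ} (hψ : Cfsg.IsCharacter G ψ) {d : ℕ} (hd : ψ 1 = d)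
    (hdq : (d : ℤ) + 2 ≤ S.q) {x : S.X} (hx : x.1 ≠ 1) (hm : 0 < S.m ψ x) :
    (S.e : ℤ) * ((S.q : ℤ) - S.e) ≤ ∑ γ ∈ (S.orb x).image Prod.snd, S.T ψ γ := by
  have hcard : (∑ γ ∈ (S.orb x).image Prod.snd,
      (((S.orb x).filter fun y => y.2 = γ).card : ℤ)) = S.e := by
    rw [← Nat.cast_sum, ← Finset.card_eq_sum_card_image, S.card_orb hx]
  calc (S.e : ℤ) * ((S.q : ℤ) - S.e)
      = ∑ γ ∈ (S.orb x).image Prod.snd,
          (((S.orb x).filter fun y => y.2 = γ).card : ℤ) * ((S.q : ℤ) - S.e) := by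
        rw [← Finset.sum_mul, hcard]
    _ ≤ _ := Finset.sum_le_sum fun γ hγ => ?_
  obtain ⟨y, hy, rfl⟩ := Finset.mem_image.mp hγ
  set O := (S.orb x).filter fun z => z.2 = y.2 with hO
  have hOe : (O.card : ℤ) ≤ S.e := by
    rw [← S.card_orb hx]
    exact_mod_cast Finset.card_filter_le _ _
  have hmy := S.m_of_mem_orb hψ hy
  obtain ⟨μ, hμ1, hμ⟩ := S.nonconst_of_small hψ hd hdq y.2 y.1 (by
    show 0 < S.m ψ y
    omega)
  set L := Finset.univ.filter fun l => S.m ψ (l, y.2) = S.m ψ (y.1, y.2) with hL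
  have hOL : O.card ≤ L.card := by
    refine Finset.card_le_card_of_injOn (fun z => z.1) ?_ ?_
    · intro z hz
      simp only [hO, Finset.coe_filter, Set.mem_ofPred_eq] at hz
      simp only [hL, Finset.coe_filter, Finset.mem_univ, true_and, Set.mem_ofPred_eq]
      rw [← hz.2]
      show S.m ψ z = S.m ψ (y.1, z.2)
      rw [hz.2, S.m_of_mem_orb hψ hz.1]
      exact hmy.symm
    · intro a ha b hb hab
      simp only [hO, Finset.coe_filter, Set.mem_ofPred_eq] at ha hb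
      exact Prod.ext hab (ha.2.trans hb.2.symm)
  have hy1 : y.1 ≠ 1 := S.fst_ne_one_of_mem_orb hx hy
  have hex : ∀ z ∈ O, ∃ n, S.act n y = z := by
    intro z hz
    have hz' := (Finset.mem_filter.mp hz).1
    rw [← S.orb_eq_of_mem hy] at hz'
    exact S.mem_orb.mp hz'
  choose n hn using hex
  let g : S.X → (S.Q →* ℂˣ) := fun z =>
    if hz : z ∈ O then (S.act (n z hz) (μ, y.2)).1 else 1
  have hsnd : ∀ z (hz : z ∈ O), (S.act (n z hz) (μ, y.2)).2 = y.2 := by
    intro z hz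
    have h1 : (S.act (n z hz) y).2 = y.2 := by rw [hn z hz]; exact (Finset.mem_filter.mp hz).2
    exact h1
  have hOLc : O.card ≤ Lᶜ.card := by
    refine Finset.card_le_card_of_injOn g ?_ ?_
    · intro z hz
      simp only [g, dif_pos (Finset.mem_coe.mp hz)]
      simp only [Finset.mem_coe, hL, Finset.mem_compl, Finset.mem_filter, Finset.mem_univ, true_and]
      rw [show ((S.act (n z hz) (μ, y.2)).1, y.2) = S.act (n z hz) (μ, y.2) from
        Prod.ext rfl (hsnd z hz).symm, S.m_act hψ]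
      exact hμ
    · intro a ha b hb hab
      simp only [g, dif_pos (Finset.mem_coe.mp ha), dif_pos (Finset.mem_coe.mp hb)] at hab
      have h1 : S.act (n a ha) (μ, y.2) = S.act (n b hb) (μ, y.2) :=
        Prod.ext hab ((hsnd a ha).trans (hsnd b hb).symm)
      have h2 := (S.act_eq_iff (x := (μ, y.2)) hμ1 _ _).mp h1
      rw [← hn a ha, ← hn b hb]
      exact (S.act_eq_iff hy1 _ _).mpr h2
  rw [Finset.card_compl, card_dual] at hOLc
  have hLq : L.card ≤ S.q := by rw [← card_dual]; exact Finset.card_le_univ _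
  have hOLc' : (O.card : ℤ) + L.card ≤ S.q := by omega
  refine le_trans ?_ (S.T_ge ψ y.2 y.1)
  rw [← hL]
  have hOL' : (O.card : ℤ) ≤ L.card := by exact_mod_cast hOL
  nlinarith [mul_nonneg (sub_nonneg.mpr hOL')
    (show (0 : ℤ) ≤ (S.q : ℤ) - L.card - O.card by omega),
    mul_nonneg (Int.natCast_nonneg O.card) (sub_nonneg.mpr hOe)]

theorem snd_ne_oneK {x y : S.X} (hx : x.2 ≠ S.oneK) (h : y ∈ S.orb x) : y.2 ≠ S.oneK := by
  obtain ⟨n, rfl⟩ := S.mem_orb.mp h
  intro hy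
  apply hx
  refine Subtype.ext (funext fun z => ?_)
  obtain ⟨w, rfl⟩ := (S.cjK n).surjective z
  have := congrFun (congrArg Subtype.val hy) w
  simpa [act, oneK] using this

theorem T_oneK_eq (ψ : G → ℂ) (b : ℤ) (A : Finset (S.Q →* ℂˣ)) (hA : (1 : S.Q →* ℂˣ) ∉ A)
    (hb : S.m ψ (S.lin 1) = b)
    (hm : ∀ l, l ≠ 1 → S.m ψ (S.lin l) = if l ∈ A then 1 else 0) :
    S.T ψ S.oneK = (S.q : ℤ) * (b ^ 2 + A.card) - (b + A.card) ^ 2 := by
  have h1 : ∀ f : ℤ → ℤ, f 0 = 0 → ∑ l, f (S.m ψ (l, S.oneK)) = f b + A.card * f 1 := by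
    intro f hf
    rw [← Finset.add_sum_erase Finset.univ _ (Finset.mem_univ (1 : S.Q →* ℂˣ))]
    show f (S.m ψ (S.lin 1)) + _ = _
    rw [hb, Finset.sum_congr rfl (g := fun l => if l ∈ A then f 1 else 0) (fun l hl => by
      show f (S.m ψ (S.lin l)) = _
      rw [hm l (Finset.ne_of_mem_erase hl)]
      split_ifs <;> simp [hf]), ← Finset.sum_filter, Finset.sum_const, nsmul_eq_mul]
    congr 2
    norm_cast
    congr 1
    ext l
    simp only [Finset.mem_filter, Finset.mem_erase, Finset.mem_univ, and_true]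
    exact ⟨fun h => h.2, fun h => ⟨fun e => hA (e ▸ h), h⟩⟩
  have h2 := h1 (fun t => t ^ 2) (by norm_num)
  have h3 := h1 id rfl
  simp only [id, one_pow, mul_one] at h2 h3
  rw [T, h2, h3]

theorem T_oneK_le {ψ : G → ℂ} (hψ : Cfsg.IsIrrCharacter G ψ) :
    S.T ψ S.oneK < (S.e : ℤ) * S.q :=
  lt_of_le_of_lt (Finset.single_le_sum (fun γ _ => S.T_nonneg ψ γ) (Finset.mem_univ _))
    (S.sum_T_lt hψ)

/-- The two shapes of an irreducible character of small degree containing the trivial index. -/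
theorem classify (hNK : S.NoNormal) (heq : (S.e : ℤ) ^ 2 + 2 ≤ S.q) {ψ : G → ℂ}
    (hψ : Cfsg.IsIrrCharacter G ψ) (h1 : ψ ≠ fun _ => 1) {d : ℕ} (hd : ψ 1 = d)
    (hdq : (d : ℤ) + 3 ≤ S.q) (hb : 1 ≤ S.m ψ (S.lin 1)) :
    S.m ψ (S.lin 1) = 1 ∧
      ((d = S.e + 1 ∧ ∃ l : S.Q →* ℂˣ, l ≠ 1 ∧
          ∀ r : S.Q →* ℂˣ, r ≠ 1 → S.m ψ (S.lin r) = if r ∈ S.orbL l then 1 else 0) ∨
        ((S.q : ℤ) - S.e ≤ d ∧ 3 ≤ S.e)) := by
  have hc := Char.isCharacter_of_irr hψ
  set b := S.m ψ (S.lin 1) with hbdef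
  have hq := S.one_lt_q
  have he := S.e_pos
  have hnn := fun r : S.Q →* ℂˣ => S.m_nonneg hc (S.lin r)
  -- degree bound on the trivial kernel part
  have hdeg : b + ∑ r ∈ (Finset.univ : Finset (S.Q →* ℂˣ)).erase 1, S.m ψ (S.lin r) ≤ (d : ℤ) := by
    rw [hbdef, Finset.add_sum_erase Finset.univ (fun r => S.m ψ (S.lin r)) (Finset.mem_univ _),
      ← Finset.sum_image (f := fun x => S.m ψ x) (fun a _ b _ h => S.lin_injective h)]
    exact S.sum_le_degree hc hd _
  by_cases hall : ∀ l r : S.Q →* ℂˣ, l ≠ 1 → r ≠ 1 → S.m ψ (S.lin l) = S.m ψ (S.lin r)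
  · exfalso
    have hzero : ∀ r : S.Q →* ℂˣ, r ≠ 1 → S.m ψ (S.lin r) = 0 := by
      intro r hr
      by_contra hne
      obtain ⟨l, hl, hl'⟩ := S.nonconst_of_small hc hd (by omega) S.oneK r
        (lt_of_le_of_ne (hnn r) (Ne.symm hne))
      exact hl' (hall l r hl hr)
    obtain ⟨x, hx, hxm⟩ := S.exists_nontriv_component hNK hψ h1
    have hx2 : x.2 ≠ S.oneK := by
      intro h
      have : x = S.lin x.1 := Prod.ext rfl h
      rw [this, hzero x.1 hx] at hxm
      exact lt_irrefl _ hxm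
    have hT1 := S.T_oneK_eq ψ b ∅ (Finset.notMem_empty _) hbdef.symm (fun l hl => by simp [hzero l hl])
    have hT2 := S.orbit_T_ge hc hd (by omega) hx hxm
    have hsum := S.sum_T_lt hψ
    have hnot : S.oneK ∉ (S.orb x).image Prod.snd := by
      intro h
      obtain ⟨y, hy, hy2⟩ := Finset.mem_image.mp h
      exact S.snd_ne_oneK hx2 hy hy2
    have h3 : S.T ψ S.oneK + ∑ γ ∈ (S.orb x).image Prod.snd, S.T ψ γ ≤ ∑ γ, S.T ψ γ := by
      rw [← Finset.sum_insert hnot]
      exact Finset.sum_le_sum_of_subset_of_nonneg (Finset.subset_univ _) fun γ _ _ => S.T_nonneg ψ γ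
    rw [hT1, Finset.card_empty, Nat.cast_zero, add_zero, add_zero] at h3
    nlinarith [mul_le_mul hb hb zero_le_one (by omega : (0 : ℤ) ≤ b)]
  push Not at hall
  obtain ⟨l, μ, hl, hμ, hne, hgt⟩ : ∃ l μ : S.Q →* ℂˣ, l ≠ 1 ∧ μ ≠ 1 ∧
      S.m ψ (S.lin l) ≠ S.m ψ (S.lin μ) ∧ S.m ψ (S.lin μ) < S.m ψ (S.lin l) := by
    obtain ⟨l, r, hl, hr, h⟩ := hall
    rcases lt_or_gt_of_ne h with h' | h'
    · exact ⟨r, l, hr, hl, h.symm, h'⟩
    · exact ⟨l, r, hl, hr, h, h'⟩
  set v := S.m ψ (S.lin μ) with hv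
  have habs := fun a c (ha : a ≠ 1) (hc' : c ≠ 1) => abs_le.mp (S.abs_diff_le hψ (l := a) (l' := c) ha hc')
  have hlv : S.m ψ (S.lin l) = v + 1 := by have := habs l μ hl hμ; omega
  have htwo : ∀ r : S.Q →* ℂˣ, r ≠ 1 → S.m ψ (S.lin r) = v ∨ S.m ψ (S.lin r) = v + 1 := by
    intro r hr
    have h1 := habs r μ hr hμ
    have h2 := habs r l hr hl
    omega
  have hmemo : ∀ {a r : S.Q →* ℂˣ}, r ∈ S.orbL a → S.m ψ (S.lin r) = S.m ψ (S.lin a) :=
    fun h => S.m_of_mem_orb hc (S.mem_orbL.mp h)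
  have hv0 : 0 ≤ v := hnn μ
  have hcardE : ((Finset.univ : Finset (S.Q →* ℂˣ)).erase 1).card = S.q - 1 := by
    rw [Finset.card_erase_of_mem (Finset.mem_univ _), Finset.card_univ, card_dual]
  have hsub : ∀ a : S.Q →* ℂˣ, a ≠ 1 → S.orbL a ⊆ (Finset.univ : Finset (S.Q →* ℂˣ)).erase 1 :=
    fun a ha r hr => Finset.mem_erase.mpr ⟨S.ne_one_of_mem_orbL ha hr, Finset.mem_univ _⟩
  by_cases hH : ∀ r, r ≠ 1 → S.m ψ (S.lin r) = v + 1 → r ∈ S.orbL l
  · have hval : ∀ r, r ≠ 1 → S.m ψ (S.lin r) = v + if r ∈ S.orbL l then 1 else 0 := by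
      intro r hr
      split_ifs with h
      · rw [hmemo h, hlv]
      · rcases htwo r hr with h' | h'
        · omega
        · exact absurd (hH r hr h') h
    rw [Finset.sum_congr rfl (fun r hr => hval r (Finset.ne_of_mem_erase hr)),
      Finset.sum_add_distrib, Finset.sum_const, hcardE, ← Finset.sum_filter,
      Finset.filter_mem_eq_inter, Finset.inter_eq_right.mpr (hsub l hl), Finset.sum_const,
      S.card_orbL hl, nsmul_eq_mul, nsmul_eq_mul, mul_one] at hdeg
    push_cast [Nat.cast_sub hq.le] at hdeg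
    have hvz : v = 0 := by nlinarith
    have hT1 := S.T_oneK_eq ψ b (S.orbL l) (fun h => S.ne_one_of_mem_orbL hl h rfl) hbdef.symm
      (fun r hr => by rw [hval r hr, hvz, zero_add])
    rw [S.card_orbL hl] at hT1
    have hle := S.T_oneK_le hψ
    rw [hT1] at hle
    have hb1 : b = 1 := by
      by_contra hb1
      have hb2 : 2 ≤ b := by omega
      nlinarith [mul_le_mul_of_nonneg_left heq (show (0 : ℤ) ≤ b ^ 2 by positivity),
        mul_le_mul hb2 hb2 (by norm_num) (by omega : (0 : ℤ) ≤ b),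
        mul_nonneg (show (0 : ℤ) ≤ b - 2 by omega) (show (0 : ℤ) ≤ (S.e : ℤ) - 1 by omega),
        mul_nonneg (show (0 : ℤ) ≤ (S.e : ℤ) - 1 by omega) (show (0 : ℤ) ≤ (S.e : ℤ) - 1 by omega)]
    refine ⟨hb1, Or.inl ⟨?_, l, hl, fun r hr => by rw [hval r hr, hvz, zero_add]⟩⟩
    -- no other component
    have hz : ∀ x : S.X, x.2 ≠ S.oneK → S.m ψ x = 0 := by
      intro x hx
      by_contra hne
      obtain ⟨l₁, -, hl₁⟩ := S.nonconst_of_small hc hd (by omega) x.2 x.1
        (lt_of_le_of_ne (S.m_nonneg hc x) (Ne.symm hne))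
      have hT2 := S.T_ge_of_ne hl₁
      have h3 : S.T ψ S.oneK + S.T ψ x.2 ≤ ∑ γ, S.T ψ γ := by
        rw [← Finset.sum_pair hx.symm]
        exact Finset.sum_le_sum_of_subset_of_nonneg (Finset.subset_univ _)
          fun γ _ _ => S.T_nonneg ψ γ
      have := S.sum_T_lt hψ
      rw [hT1, hb1] at h3
      nlinarith [mul_nonneg (show (0 : ℤ) ≤ (S.e : ℤ) - 1 by omega)
        (show (0 : ℤ) ≤ (S.e : ℤ) - 1 by omega)]
    have h := S.degree_eq hc
    rw [hd, ← Int.cast_natCast, Int.cast_inj, Fintype.sum_prod_type] at h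
    have hone : S.dK S.oneK = 1 := by
      have h' := S.dK_eq S.oneK
      simp only [oneK] at h'
      exact_mod_cast h'.symm
    rw [Finset.sum_congr rfl (g := fun r => S.m ψ (S.lin r)) (fun r _ => by
      rw [Finset.sum_eq_single S.oneK (fun γ _ hγ => by
        rw [hz (r, γ) hγ, zero_mul]) (fun h => absurd (Finset.mem_univ _) h), hone, Nat.cast_one,
        mul_one]
      rfl), ← Finset.add_sum_erase Finset.univ _ (Finset.mem_univ (1 : S.Q →* ℂˣ)), ← hbdef, hb1,
      Finset.sum_congr rfl (fun r hr => hval r (Finset.ne_of_mem_erase hr)),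
      Finset.sum_add_distrib, Finset.sum_const, hvz, smul_zero, zero_add, ← Finset.sum_filter,
      Finset.filter_mem_eq_inter, Finset.inter_eq_right.mpr (hsub l hl), Finset.sum_const,
      S.card_orbL hl, nsmul_eq_mul, mul_one] at h
    omega
  by_cases hL : ∀ r, r ≠ 1 → S.m ψ (S.lin r) = v → r ∈ S.orbL μ
  · have hval : ∀ r, r ≠ 1 → S.m ψ (S.lin r) = v + if r ∉ S.orbL μ then 1 else 0 := by
      intro r hr
      by_cases h : r ∈ S.orbL μ
      · rw [if_neg (not_not.mpr h), hmemo h, add_zero]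
      · rw [if_pos h]
        rcases htwo r hr with h' | h'
        · exact absurd (hL r hr h') h
        · exact h'
    set A := ((Finset.univ : Finset (S.Q →* ℂˣ)).erase 1).filter fun r => r ∉ S.orbL μ with hA
    have hAc : (A.card : ℤ) = (S.q : ℤ) - 1 - S.e := by
      have h := Finset.card_filter_add_card_filter_not
        (s := (Finset.univ : Finset (S.Q →* ℂˣ)).erase 1) (fun r => r ∈ S.orbL μ)
      rw [Finset.filter_mem_eq_inter, Finset.inter_eq_right.mpr (hsub μ hμ), S.card_orbL hμ,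
        hcardE, ← hA] at h
      omega
    rw [Finset.sum_congr rfl (fun r hr => hval r (Finset.ne_of_mem_erase hr)),
      Finset.sum_add_distrib, Finset.sum_const, hcardE, ← Finset.sum_filter, ← hA,
      Finset.sum_const, nsmul_eq_mul, nsmul_eq_mul, mul_one, hAc] at hdeg
    push_cast [Nat.cast_sub hq.le] at hdeg
    have hee : (S.e : ℤ) ≤ (S.e : ℤ) ^ 2 := by nlinarith
    have hvz : v = 0 := by nlinarith
    have hT1 := S.T_oneK_eq ψ b A (fun h => by simp [hA] at h) hbdef.symm (fun r hr => by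
      rw [hval r hr, hvz, zero_add]
      simp [hA, hr])
    rw [hAc] at hT1
    have hle := S.T_oneK_le hψ
    rw [hT1] at hle
    have hb1 : b = 1 := by
      by_contra hb1
      have hb2 : 2 ≤ b := by omega
      nlinarith [mul_nonneg (show (0 : ℤ) ≤ b - 2 by omega)
        (show (0 : ℤ) ≤ (S.q : ℤ) - 1 by omega),
        mul_nonneg (show (0 : ℤ) ≤ b by omega) (show (0 : ℤ) ≤ b - 2 by omega),
        mul_le_mul hb2 hb2 (by norm_num) (by omega : (0 : ℤ) ≤ b)]
    rw [hb1, hvz] at hdeg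
    refine ⟨hb1, Or.inr ⟨by linarith, ?_⟩⟩
    have : (3 : ℤ) ≤ S.e := by linarith
    exact_mod_cast this
  exfalso
  push Not at hH hL
  obtain ⟨r, hr, hrv, hrl⟩ := hH
  obtain ⟨s, hs, hsv, hsμ⟩ := hL
  obtain ⟨hX, -⟩ := S.split_D hψ hl hμ (by omega)
  obtain ⟨hY, -⟩ := S.split_D hψ hr hs (by omega)
  have hcross : ∀ {a c : S.Q →* ℂˣ}, S.m ψ (S.lin a) ≠ S.m ψ (S.lin c) → a ∉ S.orbL c :=
    fun h hh => h (hmemo hh)
  have h0 : Cfsg.classInner (S.D l μ) (S.D r s) = 0 := by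
    rw [inner_D_D, S.J_eq_zero (fun hh => hrl (S.mem_orbL_symm hh)),
      S.J_eq_zero (hcross (by omega)), S.J_eq_zero (hcross (by omega)),
      S.J_eq_zero (fun hh => hsμ (S.mem_orbL_symm hh))]
    simp
  have h2 : Cfsg.classInner (S.D l μ) ψ = 1 := by
    rw [← Char.classInner_conj, S.inner_D hc, show S.m ψ (S.lin l) - v = 1 by omega, map_intCast,
      Int.cast_one]
  have h3 : Cfsg.classInner ψ (S.D r s) = 1 := by
    rw [S.inner_D hc, show S.m ψ (S.lin r) - S.m ψ (S.lin s) = 1 by omega, Int.cast_one]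
  have hXY : Cfsg.classInner (ψ - S.D l μ) (ψ - S.D r s) = -1 := by
    rw [Char.classInner_sub_left, Char.classInner_sub_right, Char.classInner_sub_right, h0, h2,
      h3, Char.classInner_irr_self hψ]
    norm_num
  by_cases he' : ψ - S.D l μ = ψ - S.D r s
  · rw [← he', Char.classInner_irr_self hX] at hXY
    norm_num at hXY
  · rw [Char.classInner_irr_ne hX hY he'] at hXY
    norm_num at hXY

theorem ne_one_of_degree {ψ : G → ℂ} {d : ℕ} (hd : ψ 1 = d) (h2 : 2 ≤ d) : ψ ≠ fun _ => 1 := by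
  intro h
  rw [h] at hd
  simp only at hd
  have : (1 : ℕ) = d := by exact_mod_cast hd
  omega

/-- There is no character with one exceptional orbit. -/
theorem no_typeI (hNK : S.NoNormal) (heq : (S.e : ℤ) ^ 2 + 2 ≤ S.q) (hq6 : 6 ≤ S.q) {ψ : G → ℂ}
    (hψ : Cfsg.IsIrrCharacter G ψ) (hd : ψ 1 = ((S.e + 1 : ℕ) : ℂ))
    (hdq : ((S.e + 1 : ℕ) : ℤ) + 3 ≤ S.q) (hb : S.m ψ (S.lin 1) = 1) {l : S.Q →* ℂˣ} (hl : l ≠ 1)
    (hval : ∀ r : S.Q →* ℂˣ, r ≠ 1 → S.m ψ (S.lin r) = if r ∈ S.orbL l then 1 else 0) : False := by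
  have he := S.e_pos
  have hc := Char.isCharacter_of_irr hψ
  set E := ((Finset.univ : Finset (S.Q →* ℂˣ)).erase 1).filter fun r => r ∉ S.orbL l with hE
  have hsplit : ∀ μ ∈ E, Cfsg.IsIrrCharacter G (ψ - S.D l μ) ∧
      (ψ - S.D l μ) 1 = ((S.e + 1 : ℕ) : ℂ) ∧
      Cfsg.classInner (ψ - S.D l μ) (S.D 1 l) = 1 ∧
      S.m (ψ - S.D l μ) (S.lin μ) = 1 ∧
      ((Finset.univ.erase 1).filter fun r => S.m (ψ - S.D l μ) (S.lin r) = 1).card ≤ S.e := by
    intro μ hμ
    simp only [hE, Finset.mem_filter, Finset.mem_erase, Finset.mem_univ, and_true] at hμ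
    obtain ⟨hi, hv⟩ := S.split_D hψ hl hμ.1 (by
      rw [hval l hl, hval μ hμ.1, if_pos (S.self_mem_orbL l), if_neg hμ.2]; rfl)
    rw [hd] at hv
    have hi' := Char.isCharacter_of_irr hi
    have key : ∀ ν, ν ≠ 1 →
        S.m (ψ - S.D l μ) (S.lin 1) - S.m (ψ - S.D l μ) (S.lin ν) =
          1 - S.m ψ (S.lin ν) + S.J l ν - S.J μ ν := by
      intro ν hν
      have h1 := S.inner_D hi' 1 ν
      rw [Char.classInner_sub_left, S.inner_D hc, inner_D_D, hb, S.J_one_right hl,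
        S.J_one_right hμ.1, ← Int.cast_sub, Int.cast_inj] at h1
      omega
    have hkl := key l hl
    rw [hval l hl, if_pos (S.self_mem_orbL l), S.J_eq_one hl (S.self_mem_orbL l),
      S.J_eq_zero hμ.2] at hkl
    have hkμ := key μ hμ.1
    rw [hval μ hμ.1, if_neg hμ.2, S.J_eq_one hμ.1 (S.self_mem_orbL μ),
      S.J_eq_zero (fun h => hμ.2 (S.mem_orbL_symm h))] at hkμ
    have hpos : 1 ≤ S.m (ψ - S.D l μ) (S.lin 1) := by
      have := S.m_nonneg hi' (S.lin l)
      omega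
    obtain ⟨hb', hcase⟩ := S.classify hNK heq hi (ne_one_of_degree hv (by omega)) hv hdq hpos
    have hone : Cfsg.classInner (ψ - S.D l μ) (S.D 1 l) = 1 := by
      rw [S.inner_D hi']
      have : S.m (ψ - S.D l μ) (S.lin 1) - S.m (ψ - S.D l μ) (S.lin l) = 1 := by omega
      rw [this, Int.cast_one]
    refine ⟨hi, hv, hone, by omega, ?_⟩
    rcases hcase with ⟨-, o, ho, hoval⟩ | ⟨hbig, he3⟩
    · refine le_of_le_of_eq (Finset.card_le_card fun r hr => ?_) (S.card_orbL ho)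
      simp only [Finset.mem_filter, Finset.mem_erase, Finset.mem_univ, and_true] at hr
      by_contra hro
      rw [hoval r hr.1, if_neg hro] at hr
      exact absurd hr.2 (by norm_num)
    · exfalso
      push_cast at hbig
      nlinarith
  set F := E.image fun μ => ψ - S.D l μ with hF
  have hFcard : S.e ≤ F.card := by
    have h := Finset.card_le_mul_card_image E S.e (f := fun μ => ψ - S.D l μ) (by
      intro χ hχ
      obtain ⟨μ, hμ, rfl⟩ := Finset.mem_image.mp hχ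
      refine le_trans (Finset.card_le_card fun r hr => ?_) (hsplit μ hμ).2.2.2.2
      simp only [Finset.mem_filter] at hr ⊢
      refine ⟨(Finset.mem_filter.mp hr.1).1, ?_⟩
      rw [← hr.2]
      exact (hsplit r hr.1).2.2.2.1)
    rw [← hF] at h
    have hEc : E.card = S.q - 1 - S.e := by
      have h' := Finset.card_filter_add_card_filter_not
        (s := (Finset.univ : Finset (S.Q →* ℂˣ)).erase 1) (fun r => r ∈ S.orbL l)
      rw [Finset.filter_mem_eq_inter, Finset.inter_eq_right.mpr (fun r hr => Finset.mem_erase.mpr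
        ⟨S.ne_one_of_mem_orbL hl hr, Finset.mem_univ _⟩), S.card_orbL hl,
        Finset.card_erase_of_mem (Finset.mem_univ _), Finset.card_univ, card_dual, ← hE] at h'
      omega
    by_contra hlt
    have h1 : S.e * F.card ≤ S.e * (S.e - 1) := Nat.mul_le_mul_left _ (by omega)
    have h2 : S.e * (S.e - 1) + S.e = S.e * S.e := by
      rw [← Nat.mul_succ]
      congr 1
      omega
    have h3 : S.e * S.e + 2 ≤ S.q := by
      have : ((S.e * S.e + 2 : ℕ) : ℤ) ≤ S.q := by push_cast; linarith [pow_two (S.e : ℤ)]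
      exact_mod_cast this
    omega
  set one : G → ℂ := fun _ => 1 with hone1
  have hirr1 : Cfsg.IsIrrCharacter G one := CharInd.irr_one_const
  have hnot : one ∉ F := by
    intro h
    obtain ⟨μ, hμ, hχ⟩ := Finset.mem_image.mp h
    exact ne_one_of_degree (hsplit μ hμ).2.1 (by omega) hχ
  set B := insert one F with hB
  have hirr : ∀ χ ∈ B, Cfsg.IsIrrCharacter G χ ∧ Cfsg.classInner χ (S.D 1 l) = 1 := by
    intro χ hχ
    rcases Finset.mem_insert.mp hχ with rfl | hχ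
    · refine ⟨hirr1, ?_⟩
      have h1 : S.res one = S.ch (S.lin 1) := by
        funext c; simp [res, ch_lin, hone1]
      rw [D, CharInd.classInner_indFun_right S.C _ (Char.irr_isClassFunction hirr1)]
      show Cfsg.classInner (S.res one) _ = _
      rw [h1, Df, Char.classInner_sub_right, classInner_ch, classInner_ch, if_pos rfl,
        if_neg fun h => hl (S.lin_injective h).symm, sub_zero]
    · obtain ⟨μ, hμ, rfl⟩ := Finset.mem_image.mp hχ
      exact ⟨(hsplit μ hμ).1, (hsplit μ hμ).2.2.1⟩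
  set Z := ∑ χ ∈ B, χ with hZ
  have hnorm : Cfsg.classInner (S.D 1 l) (S.D 1 l) = ((S.e + 1 : ℕ) : ℂ) := by
    rw [inner_D_D, S.J_one_one, S.J_one_left hl, S.J_one_right hl,
      S.J_eq_one hl (S.self_mem_orbL l)]
    push_cast
    ring
  have hZD : Cfsg.classInner Z (S.D 1 l) = (B.card : ℂ) := by
    rw [hZ, Char.classInner_sum_left, Finset.sum_congr rfl fun χ hχ => (hirr χ hχ).2]
    simp
  have hZZ : Cfsg.classInner Z Z = (B.card : ℂ) := by
    rw [hZ, Char.classInner_sum_left]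
    rw [Finset.sum_congr rfl (g := fun _ => (1 : ℂ)) fun χ hχ => by
      rw [Char.classInner_sum_right, Finset.sum_eq_single χ
        (fun χ' hχ' hne => Char.classInner_irr_ne (hirr χ hχ).1 (hirr χ' hχ').1 hne.symm)
        (fun h => absurd hχ h), Char.classInner_irr_self (hirr χ hχ).1]]
    simp
  have hDZ : Cfsg.classInner (S.D 1 l) Z = (B.card : ℂ) := by
    rw [← Char.classInner_conj, hZD, map_natCast]
  have hB' : S.e + 1 ≤ B.card := by
    rw [hB, Finset.card_insert_of_notMem hnot]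
    omega
  have h0 := eq_zero_of_classInner_self_re (S.D 1 l - Z) (by
    rw [Char.classInner_sub_left, Char.classInner_sub_right, Char.classInner_sub_right, hnorm,
      hZD, hDZ, hZZ]
    simp only [Complex.sub_re, Complex.natCast_re]
    have : ((S.e + 1 : ℕ) : ℝ) ≤ (B.card : ℝ) := by exact_mod_cast hB'
    linarith)
  have h1 := congrFun h0 1
  have hZ1 : Z 1 = ((1 + F.card * (S.e + 1) : ℕ) : ℂ) := by
    rw [hZ, Finset.sum_apply, hB, Finset.sum_insert hnot,
      Finset.sum_congr rfl (g := fun _ => ((S.e + 1 : ℕ) : ℂ)) fun χ hχ => by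
        obtain ⟨μ, hμ, rfl⟩ := Finset.mem_image.mp hχ
        exact (hsplit μ hμ).2.1]
    simp [hone1]
    ring
  rw [Pi.sub_apply, D_one, hZ1, zero_sub, Pi.zero_apply, neg_eq_zero, Nat.cast_eq_zero] at h1
  omega

theorem degree_lt_two_of_abelian_image (hNK : S.NoNormal) {χ : G → ℂ}
    (hχ : Cfsg.IsIrrCharacter G χ) (h1 : χ ≠ fun _ => 1)
    (hQ : ∀ u ∈ S.Q, ‖χ u‖ = (χ 1).re) : χ 1 = 1 := by
  have hc := Char.isCharacter_of_irr hχ
  obtain ⟨K, hKn, hK⟩ := Char.isCharacter_exists_kernel hc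
  let Z : Subgroup G := (Subgroup.center (G ⧸ K)).comap (QuotientGroup.mk' K)
  have hZn : Z.Normal := Subgroup.Normal.comap inferInstance _
  have hQZ : S.Q ≤ Z := by
    intro u hu
    rw [Subgroup.mem_comap, Subgroup.mem_center_iff]
    intro y
    obtain ⟨g, rfl⟩ := QuotientGroup.mk'_surjective K y
    rw [← map_mul, ← map_mul, QuotientGroup.mk'_apply, QuotientGroup.mk'_apply,
      QuotientGroup.eq, hK]
    obtain ⟨ω, hω, hmul⟩ := Char.isCharacter_mul_of_norm_eq hc (hQ u hu)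
    have hcl := Char.isCharacter_isClassFunction hc
    have e1 : χ 1 = ω * χ u⁻¹ := by rw [← (hmul u⁻¹).1, mul_inv_cancel]
    have e2 : χ ((g * u)⁻¹ * (u * g)) = ω * χ (g * (g * u)⁻¹) := by
      rw [Char.isClassFunction_mul_comm hcl, mul_assoc]
      exact (hmul _).1
    rw [e2, show g * (g * u)⁻¹ = g * u⁻¹ * g⁻¹ by group, hcl u⁻¹ g, ← e1]
  have htop := hNK Z hZn hQZ
  obtain ⟨φ, hφ, hφe⟩ := Char.irr_exists_descend hχ K fun n hn => (hK n).mp hn
  have hcomm : ∀ a b : G ⧸ K, a * b = b * a := by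
    intro a b
    obtain ⟨g, rfl⟩ := QuotientGroup.mk'_surjective K b
    exact (Subgroup.mem_center_iff.mp (Subgroup.mem_comap.mp
      (show g ∈ Z from htop ▸ Subgroup.mem_top g))) a
  rw [hφe]
  exact Char.irr_degree_one_of_comm hcomm hφ

/-- No irreducible character has degree `d ≥ 2` with `d² + 1 < q`. -/
theorem no_small (hNK : S.NoNormal) {χ : G → ℂ} (hχ : Cfsg.IsIrrCharacter G χ) {d : ℕ}
    (hd : χ 1 = d) (hd2 : 2 ≤ d) (hdq : d ^ 2 + 1 < S.q) : False := by
  have hc := Char.isCharacter_of_irr hχ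
  have hne := ne_one_of_degree hd hd2
  obtain ⟨x₀, hx₀, hm₀⟩ := S.exists_nontriv_component hNK hχ hne
  have horb : ∀ x ∈ S.orb x₀, 1 ≤ S.m χ x := fun x hx => by
    rw [S.m_of_mem_orb hc hx]; omega
  have hed : (S.e : ℤ) ≤ d := by
    refine le_trans ?_ (S.sum_le_degree hc hd (S.orb x₀))
    rw [← S.card_orb hx₀]
    calc (((S.orb x₀).card : ℕ) : ℤ) = ∑ x ∈ S.orb x₀, (1 : ℤ) := by simp
      _ ≤ _ := Finset.sum_le_sum horb
  set R := ∑ x, S.m χ x ^ 2 with hR
  have hRe : (S.e : ℤ) ≤ R := by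
    rw [← S.card_orb hx₀]
    calc (((S.orb x₀).card : ℕ) : ℤ) = ∑ x ∈ S.orb x₀, (1 : ℤ) := by simp
      _ ≤ ∑ x ∈ S.orb x₀, S.m χ x ^ 2 := Finset.sum_le_sum fun x hx => by
          have := horb x hx
          nlinarith
      _ ≤ R := Finset.sum_le_sum_of_subset_of_nonneg (Finset.subset_univ _)
          fun x _ _ => sq_nonneg _
  have hR2 : 2 ≤ R := by
    by_contra hlt
    have hsingle : ∀ x, x ≠ x₀ → S.m χ x = 0 := by
      intro x hx
      by_contra hne'
      have h2 : S.m χ x ^ 2 + S.m χ x₀ ^ 2 ≤ R := by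
        rw [← Finset.sum_pair (f := fun y => S.m χ y ^ 2) hx]
        exact Finset.sum_le_sum_of_subset_of_nonneg (Finset.subset_univ _)
          fun x _ _ => sq_nonneg _
      have := sq_pos_of_ne_zero hne'
      nlinarith
    have hval : ∀ c : S.C, χ c = (S.m χ x₀ : ℂ) * S.ch x₀ c := by
      intro c
      have h := congrFun (S.res_eq_sum hc) c
      simp only [res, Finset.sum_apply, Pi.smul_apply, smul_eq_mul] at h
      rw [h, Finset.sum_eq_single x₀ (fun x _ hx => by rw [hsingle x hx]; simp)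
        (fun h => absurd (Finset.mem_univ _) h)]
    have h1 := S.degree_lt_two_of_abelian_image hNK hχ hne fun u hu => by
      have e1 := hval (S.ι ⟨u, hu⟩)
      have e2 := hval 1
      simp only [ch, κ_ι, π_ι, map_one, Units.val_one, one_mul, OneMemClass.coe_one, hd] at e1 e2
      rw [show (u : G) = ((S.ι ⟨u, hu⟩ : S.C) : G) from rfl, e1, hd, mul_left_comm, ← e2,
        norm_mul, Complex.norm_natCast, Complex.natCast_re,
        Complex.norm_eq_one_of_pow_eq_one (n := orderOf (⟨u, hu⟩ : S.Q)) (by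
          rw [← Units.val_pow_eq_pow_val, ← map_pow, pow_orderOf_eq_one, map_one, Units.val_one])
          (orderOf_pos _).ne', one_mul]
    rw [hd] at h1
    have : d = 1 := by exact_mod_cast h1
    omega
  have heq : (S.e : ℤ) ^ 2 + 2 ≤ S.q := by
    have : ((d ^ 2 + 1 : ℕ) : ℤ) < S.q := by exact_mod_cast hdq
    push_cast at this
    nlinarith [mul_le_mul hed hed (Int.natCast_nonneg _) (Int.natCast_nonneg _)]
  have hq6 : 6 ≤ S.q := by nlinarith
  -- the character `χ · conj χ`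
  set α : G → ℂ := χ * fun g => conj (χ g) with hα
  have hαc : Cfsg.IsCharacter G α := Char.isCharacter_mul hc (Char.isCharacter_conjFun hc)
  obtain ⟨n, hn⟩ := CharInd.isCharacter_coef hαc
  set one : Cfsg.IrrCharacter G := ⟨fun _ => 1, CharInd.irr_one_const⟩ with hone1
  have hn1 : n one = 1 := by
    have h := CharInd.classInner_irrSum (fun ξ => (n ξ : ℂ)) one
    rw [← hn] at h
    have h' : Cfsg.classInner α (one : G → ℂ) = Cfsg.classInner χ χ := by
      simp [Cfsg.classInner, hα, hone1]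
    rw [h', Char.classInner_irr_self hχ] at h
    exact_mod_cast h.symm
  have hαb : S.m α (S.lin 1) = R := by
    have h := S.inner_ch hαc (S.lin 1)
    have h' : Cfsg.classInner (S.res α) (S.ch (S.lin 1)) =
        Cfsg.classInner (S.res χ) (S.res χ) := by
      simp [Cfsg.classInner, res, hα, ch_lin]
    rw [h', S.inner_res_self hc] at h
    exact_mod_cast h.symm
  have hb : ∑ ξ : Cfsg.IrrCharacter G, (n ξ : ℤ) * S.m (ξ : G → ℂ) (S.lin 1) = R := by
    rw [← hαb]
    have h := S.inner_ch hαc (S.lin 1)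
    have hres : S.res α = ∑ ξ : Cfsg.IrrCharacter G, (n ξ : ℂ) • S.res (ξ : G → ℂ) := by
      funext c
      simpa [res] using congrFun hn (c : G)
    rw [hres, Char.classInner_sum_left] at h
    simp only [Char.classInner_smul_left, S.inner_ch (Char.isCharacter_of_irr (Subtype.prop _))] at h
    exact_mod_cast h
  have hbone : S.m (one : G → ℂ) (S.lin 1) = 1 := by
    have h := S.inner_ch (Char.isCharacter_of_irr one.2) (S.lin 1)
    have h' : S.res (one : G → ℂ) = S.ch (S.lin 1) := by funext c; simp [res, ch_lin, hone1]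
    rw [h', classInner_ch, if_pos rfl] at h
    exact_mod_cast h.symm
  choose deg hdegpos hdeg using fun ξ : Cfsg.IrrCharacter G => Char.irr_one_pos ξ.2
  have hsumdeg : ∑ ξ : Cfsg.IrrCharacter G, (n ξ : ℤ) * deg ξ = (d : ℤ) ^ 2 := by
    have h := congrFun hn 1
    simp only [hα, Pi.mul_apply, hd, map_natCast, Finset.sum_apply, Pi.smul_apply, smul_eq_mul,
      hdeg] at h
    have h' : ∑ ξ : Cfsg.IrrCharacter G, n ξ * deg ξ = d * d := by exact_mod_cast h.symm
    rw [sq]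
    exact_mod_cast h'
  have hdone : deg one = 1 := by
    have := hdeg one
    simp only [hone1] at this
    exact_mod_cast this.symm
  set M := (Finset.univ : Finset (Cfsg.IrrCharacter G)).erase one with hM
  rw [← Finset.add_sum_erase Finset.univ _ (Finset.mem_univ one), hn1, hbone, ← hM] at hb
  rw [← Finset.add_sum_erase Finset.univ _ (Finset.mem_univ one), hn1, hdone, ← hM] at hsumdeg
  have hdq' : (d : ℤ) ^ 2 + 2 ≤ S.q := by
    have : ((d ^ 2 + 1 : ℕ) : ℤ) < S.q := by exact_mod_cast hdq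
    push_cast at this
    omega
  have htype : ∀ ξ ∈ M, (n ξ : ℤ) * S.m (ξ : G → ℂ) (S.lin 1) ≠ 0 →
      S.m (ξ : G → ℂ) (S.lin 1) = 1 ∧ (S.q : ℤ) - S.e ≤ deg ξ ∧ 3 ≤ S.e := by
    intro ξ hξ hnz
    have hξ1 : (ξ : G → ℂ) ≠ fun _ => 1 := fun h => Finset.ne_of_mem_erase hξ (Subtype.ext h)
    have hn0 : n ξ ≠ 0 := fun h => hnz (by simp [h])
    have hle : (deg ξ : ℤ) ≤ ∑ x ∈ M, (n x : ℤ) * deg x := by
      refine le_trans ?_ (Finset.single_le_sum (fun x _ => by positivity) hξ)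
      exact le_mul_of_one_le_left (Int.natCast_nonneg _) (by omega)
    have hdξ : (deg ξ : ℤ) + 3 ≤ S.q := by
      push_cast at hsumdeg
      linarith
    have hpos : 1 ≤ S.m (ξ : G → ℂ) (S.lin 1) := by
      have h := S.m_nonneg (Char.isCharacter_of_irr ξ.2) (S.lin 1)
      have h' : S.m (ξ : G → ℂ) (S.lin 1) ≠ 0 := fun h => hnz (by simp [h])
      omega
    obtain ⟨hb1, hI | hII⟩ := S.classify hNK heq ξ.2 hξ1 (hdeg ξ) hdξ hpos
    · obtain ⟨hde, l, hl, hlval⟩ := hI
      rw [hde] at hdξ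
      exact (S.no_typeI hNK heq hq6 ξ.2 (hde ▸ hdeg ξ) hdξ hb1 hl hlval).elim
    · exact ⟨hb1, hII⟩
  have hlow : (∑ x ∈ M, (n x : ℤ) * S.m (x : G → ℂ) (S.lin 1)) * ((S.q : ℤ) - S.e) ≤
      ∑ x ∈ M, (n x : ℤ) * deg x := by
    rw [Finset.sum_mul]
    refine Finset.sum_le_sum fun x hx => ?_
    by_cases h0 : (n x : ℤ) * S.m (x : G → ℂ) (S.lin 1) = 0
    · rw [h0, zero_mul]; positivity
    · obtain ⟨hb1, hbig, -⟩ := htype x hx h0
      rw [hb1, mul_one]
      exact mul_le_mul_of_nonneg_left hbig (Int.natCast_nonneg _)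
  obtain ⟨ξ, hξ, hξ0⟩ : ∃ ξ ∈ M, (n ξ : ℤ) * S.m (ξ : G → ℂ) (S.lin 1) ≠ 0 := by
    by_contra! h
    rw [Finset.sum_eq_zero h] at hb
    push_cast at hb
    omega
  obtain ⟨-, -, he3⟩ := htype ξ hξ hξ0
  push_cast at hb hsumdeg
  have hR3 : 3 ≤ R := by omega
  nlinarith [mul_nonneg (show (0 : ℤ) ≤ R - 3 by omega)
    (show (0 : ℤ) ≤ (S.q : ℤ) - S.e by nlinarith), mul_nonneg (show (0 : ℤ) ≤ (S.e : ℤ) by omega)
    (show (0 : ℤ) ≤ (S.e : ℤ) - 1 by omega)]

end Setup

end Cfsg.Agent.TICent
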