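import Cfsg.Agent.BlockVal.TIMain
import Cfsg.Prelude.Def_Blocks

/-!
# Small irreducible characters and uniform centralisers of a Sylow subgroup
-/

set_option autoImplicit false
set_option linter.style.haveILetI false
set_option linter.unusedSectionVars false
set_option linter.unusedVariables false

noncomputable section

namespace Cfsg.Agent.TICent

universe u

variable {G : Type u} [Group G] [Finite G] {p : ℕ} [Fact p.Prime] (P : Sylow p G)

theorem sylow_comm
    (hstar : ∀ x ∈ (P : Subgroup G), x ≠ 1 → Subgroup.centralizer ({x} : Set G) =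
      Subgroup.centralizer ((P : Subgroup G) : Set G)) :
    (P : Subgroup G) ≤ Subgroup.centralizer ((P : Subgroup G) : Set G) := by
  intro a ha
  rw [Subgroup.mem_centralizer_iff]
  intro b hb
  by_cases ha1 : a = 1
  · simp [ha1]
  · have h : a ∈ Subgroup.centralizer ({a} : Set G) := Subgroup.mem_centralizer_singleton_iff.mpr rfl
    rw [hstar a ha ha1, Subgroup.mem_centralizer_iff] at h
    exact h b hb

/-- The setup attached to a Sylow subgroup with uniform centralisers. -/
theorem exists_setup (hne : (P : Subgroup G) ≠ ⊥)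
    (hstar : ∀ x ∈ (P : Subgroup G), x ≠ 1 → Subgroup.centralizer ({x} : Set G) =
      Subgroup.centralizer ((P : Subgroup G) : Set G)) :
    ∃ S : Setup G, S.Q = (P : Subgroup G) ∧
      S.C = Subgroup.centralizer ((P : Subgroup G) : Set G) := by
  classical
  set Q : Subgroup G := (P : Subgroup G) with hQ
  set C := Subgroup.centralizer (Q : Set G) with hC
  have hle : Q ≤ C := sylow_comm P hstar
  have hcomm : ∀ c ∈ C, ∀ x ∈ Q, x * c = c * x := fun c hc x hx =>
    Subgroup.mem_centralizer_iff.mp hc x hx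
  letI : CommGroup Q :=
    { (inferInstance : Group Q) with
      mul_comm := fun a b => Subtype.ext (hcomm b (hle b.2) a a.2) }
  set H : Subgroup C := Q.subgroupOf C
  let φ : H →* Q := (Subgroup.subgroupOfEquivOfLe hle).toMonoidHom
  have key : ∀ (g : C) (k : ℕ) (g₀ : C), g₀⁻¹ * g ^ k * g₀ ∈ H → g₀⁻¹ * g ^ k * g₀ = g ^ k := by
    intro g k g₀ h
    have h' : (g₀⁻¹ * g ^ k * g₀) * g₀⁻¹ = g₀⁻¹ * (g₀⁻¹ * g ^ k * g₀) :=
      Subtype.ext (hcomm _ g₀⁻¹.2 _ h)
    rw [mul_assoc (g₀⁻¹ * g ^ k), mul_inv_cancel, mul_one] at h'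
    exact (mul_left_cancel h').symm
  let τ : C →* Q := MonoidHom.transfer φ
  have hτ : ∀ c : C, (τ c : G) = (c : G) ^ H.index := by
    intro c
    show ((MonoidHom.transfer φ c : Q) : G) = _
    rw [MonoidHom.transfer_eq_pow φ c (key c)]
    rfl
  have hcop : Nat.Coprime H.index (Nat.card Q) := by
    obtain ⟨k, hk⟩ := IsPGroup.iff_card.mp P.2
    rw [hQ, hk]
    refine Nat.Coprime.pow_right _ ?_
    rw [Nat.coprime_comm, Nat.Prime.coprime_iff_not_dvd (Fact.out : p.Prime)]
    intro hdvd
    have h1 : Q.relIndex C ∣ Q.index := Subgroup.relIndex_dvd_index_of_le hle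
    exact P.not_dvd_index (hdvd.trans h1)
  obtain ⟨x, hx, hx1⟩ : ∃ x ∈ Q, x ≠ 1 := Subgroup.ne_bot_iff_exists_ne_one.mp hne |>.elim
    fun x hx => ⟨x, x.2, fun h => hx (Subtype.ext h)⟩
  have hcard : 1 < Nat.card Q :=
    Finite.one_lt_card_iff_nontrivial.mpr ⟨⟨x, hx⟩, 1, fun h => hx1 (congrArg Subtype.val h)⟩
  obtain ⟨j, hj⟩ := Nat.exists_mul_mod_eq_one_of_coprime hcop hcard |>.imp fun _ h => h.2
  let π : C →* Q := (powMonoidHom j).comp τ
  have hπ : ∀ c : C, (π c : G) = (c : G) ^ (H.index * j) := fun c => by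
    show ((τ c ^ j : Q) : G) = _
    rw [SubmonoidClass.coe_pow, hτ, pow_mul]
  refine ⟨{ Q := Q
            C := C
            k := H.index * j
            nontriv := ⟨x, hx, hx1⟩
            le := hle
            centr := hstar
            π := π
            π_apply := hπ
            π_id := fun c hc => ?_ }, rfl, rfl⟩
  rw [hπ, ← pow_mod_orderOf]
  have hd : orderOf (c : G) ∣ Nat.card Q := Subgroup.orderOf_dvd_natCard Q hc
  rw [← Nat.mod_mod_of_dvd _ hd, hj, pow_mod_orderOf, pow_one]

variable [Fintype G]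

theorem charDegree_eq {χ : G → ℂ} {d : ℕ} (hd : χ 1 = d) : Cfsg.charDegree χ = d := by
  simp [Cfsg.charDegree, hd]

/-- A nonprincipal irreducible character of degree `d` with `d² + 1 < |P|`. -/
theorem small_irr (hne : (P : Subgroup G) ≠ ⊥)
    (hstar : ∀ x ∈ (P : Subgroup G), x ≠ 1 → Subgroup.centralizer ({x} : Set G) =
      Subgroup.centralizer ((P : Subgroup G) : Set G))
    {χ : G → ℂ} (hχ : Cfsg.IsIrrCharacter G χ) (h1 : χ ≠ fun _ => 1) {d : ℕ} (hd : χ 1 = d)
    (hdq : d ^ 2 + 1 < Nat.card P)
    (hNK : ∀ K : Subgroup G, K.Normal → K ≠ ⊤ → ¬ (P : Subgroup G) ≤ K) :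
    (∃ N : Subgroup G, N.Normal ∧ N.index = Nat.card P) ∧ d = 1 := by
  classical
  obtain ⟨S, hSQ, hSC⟩ := exists_setup P hne hstar
  have hno : S.NoNormal := fun K hK hle => by
    by_contra h
    exact hNK K hK h (hSQ ▸ hle)
  have hq : S.q = Nat.card P := by rw [Setup.q, hSQ]
  obtain ⟨d', hd', he'⟩ := Char.irr_one_pos hχ
  have hdd : d = d' := by
    rw [hd] at he'
    exact_mod_cast he'
  subst hdd
  have hd1 : d = 1 := by
    by_contra h
    exact S.no_small hno hχ hd (by omega) (hq ▸ hdq)
  refine ⟨?_, hd1⟩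
  obtain ⟨f, hf⟩ := Char.exists_monoidHom_of_degree_one (Char.isCharacter_of_irr hχ)
    (by rw [hd, hd1, Nat.cast_one])
  have hP : Subgroup.normalizer ((P : Subgroup G) : Set G) ≤
      Subgroup.centralizer ((P : Subgroup G) : Set G) := by
    by_contra hcon
    obtain ⟨n, hn, hnC⟩ := SetLike.not_le_iff_exists.mp hcon
    have hnN : n ∈ S.N := by rw [Setup.N, hSQ]; exact hn
    apply h1
    have htriv : ∀ x : S.Q, f (x : G) = 1 := by
      have hinj : Function.Injective (fun x : S.Q => S.cjQ ⟨n, hnN⟩ x * x⁻¹) := by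
        intro a b hab
        by_contra hne'
        apply hnC
        rw [← hSC, ← S.centr _ (b⁻¹ * a : S.Q).2
          (fun e => hne' (inv_mul_eq_one.mp (Subtype.ext e : b⁻¹ * a = 1)).symm),
          Subgroup.mem_centralizer_singleton_iff]
        have e : S.cjQ ⟨n, hnN⟩ (b⁻¹ * a) = b⁻¹ * a := by
          rw [map_mul, map_inv]
          have e' : S.cjQ ⟨n, hnN⟩ a = S.cjQ ⟨n, hnN⟩ b * b⁻¹ * a := by
            rw [← mul_inv_eq_iff_eq_mul]; exact hab
          rw [e', mul_assoc, ← mul_assoc, inv_mul_cancel, one_mul]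
        exact mul_inv_eq_iff_eq_mul.mp (congrArg Subtype.val e)
      intro x
      obtain ⟨a, rfl⟩ := Finite.surjective_of_injective hinj x
      show f (n * a * n⁻¹ * (a : G)⁻¹) = 1
      simp
    have hker : f.ker = ⊤ := hno f.ker inferInstance fun x hx =>
      MonoidHom.mem_ker.mpr (htriv ⟨x, hx⟩)
    funext g
    rw [hf, MonoidHom.mem_ker.mp (hker ▸ Subgroup.mem_top g), Units.val_one]
  refine ⟨(MonoidHom.transferSylow P hP).ker, inferInstance, ?_⟩
  exact (MonoidHom.ker_transferSylow_isComplement' P hP).symm.index_eq_card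

/-- A faithful character of small degree makes the Sylow subgroup normal. -/
theorem normal_of_small_faithful : ∀ (k : ℕ) (G : Type u) [Group G] [Finite G] (P : Sylow p G),
    Nat.card G ≤ k → (P : Subgroup G) ≠ ⊥ →
    (∀ x ∈ (P : Subgroup G), x ≠ 1 → Subgroup.centralizer ({x} : Set G) =
      Subgroup.centralizer ((P : Subgroup G) : Set G)) →
    ∀ (χ : G → ℂ), Cfsg.IsCharacter G χ → (∀ g, χ g = χ 1 → g = 1) →
    ∀ d : ℕ, χ 1 = d → d ^ 2 + 1 < Nat.card P → (P : Subgroup G).Normal := by
  intro k
  induction k with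
  | zero => intro G _ _ P hk; exact absurd hk (by have := Nat.card_pos (α := G); omega)
  | succ k ih =>
    intro G _ _ P hk hne hstar χ hχ hfaith d hd hdq
    classical
    letI := Fintype.ofFinite G
    by_cases hNK : ∀ K : Subgroup G, K.Normal → K ≠ ⊤ → ¬ (P : Subgroup G) ≤ K
    · obtain ⟨s, hs⟩ := Char.isCharacter_eq_multiset_sum hχ
      have hlin : ∀ ξ ∈ s, (ξ : G → ℂ) 1 = 1 := by
        intro ξ hξ
        obtain ⟨t, rfl⟩ := Multiset.exists_cons_of_mem hξ
        by_cases h1 : (ξ : G → ℂ) = fun _ => 1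
        · rw [h1]
        obtain ⟨e, he, hee⟩ := Char.irr_one_pos ξ.2
        have ht : Cfsg.IsCharacter G (t.map Subtype.val).sum :=
          Multiset.sum_induction _ _ (fun _ _ => Char.isCharacter_add) Char.isCharacter_zero
            fun f hf => by
              obtain ⟨η, -, rfl⟩ := Multiset.mem_map.mp hf
              exact Char.isCharacter_of_irr η.2
        obtain ⟨r, hr⟩ := Char.isCharacter_one_nat ht
        have hed : d = e + r := by
          have := congrFun hs 1
          rw [Multiset.map_cons, Multiset.sum_cons, Pi.add_apply, hd, hee, hr] at this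
          exact_mod_cast this
        obtain ⟨-, he1⟩ := small_irr P hne hstar ξ.2 h1 hee
          (lt_of_le_of_lt (by gcongr; omega) hdq) hNK
        rw [hee, he1, Nat.cast_one]
      have hcomm : ∀ a b : G, a * b = b * a := by
        intro a b
        have h : a * b * a⁻¹ * b⁻¹ ∈ commutator G :=
          Subgroup.commutator_mem_commutator (Subgroup.mem_top a) (Subgroup.mem_top b)
        have h1 := hfaith (a * b * a⁻¹ * b⁻¹) (by
          simp only [hs, Pi.multiset_sum_apply, Multiset.map_map]
          refine congrArg Multiset.sum (Multiset.map_congr rfl fun ξ hξ => ?_)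
          simp only [Function.comp_apply]
          rw [hlin ξ hξ]
          exact Char.linear_eq_one_of_mem_commutator (Char.isCharacter_of_irr ξ.2) (hlin ξ hξ) h)
        exact mul_inv_eq_iff_eq_mul.mp (by simpa using mul_inv_eq_one.mp h1)
      exact ⟨fun x hx g => by
        have : g * x * g⁻¹ = x := by rw [hcomm g x, mul_inv_cancel_right]
        rwa [this]⟩
    · push Not at hNK
      obtain ⟨K, hKn, hKtop, hPK⟩ := hNK
      set Q := P.subtype hPK with hQ
      have hlt : Nat.card K < Nat.card G := by
        rcases lt_or_eq_of_le (Subgroup.card_le_card_group K) with h | h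
        · exact h
        · exact absurd (Subgroup.eq_top_of_card_eq K h) hKtop
      have hQc : Nat.card Q = Nat.card P :=
        Nat.card_congr (Subgroup.subgroupOfEquivOfLe hPK).toEquiv
      have hQn : (Q : Subgroup K).Normal := by
        refine ih K Q (by omega) ?_ ?_ _ (Char.isCharacter_restrict hχ K)
          (fun g hg => Subtype.ext (hfaith g hg)) d hd (hQc ▸ hdq)
        · intro h
          have h1 : Nat.card P ≤ 1 := by
            rw [← hQc, Subgroup.card_eq_one.mpr h]
          have : 1 < Nat.card P := by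
            by_contra h2
            exact hne (Subgroup.card_eq_one.mp (le_antisymm (by omega) Nat.card_pos))
          omega
        · intro x hx hx1
          have hx' : (x : G) ∈ (P : Subgroup G) := hx
          have hx1' : (x : G) ≠ 1 := fun h => hx1 (Subtype.ext h)
          ext c
          rw [Subgroup.mem_centralizer_singleton_iff, Subgroup.mem_centralizer_iff]
          constructor
          · intro hc y hy
            have h : (c : G) ∈ Subgroup.centralizer ({(x : G)} : Set G) :=
              Subgroup.mem_centralizer_singleton_iff.mpr (congrArg Subtype.val hc)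
            rw [hstar _ hx' hx1', Subgroup.mem_centralizer_iff] at h
            exact Subtype.ext (h y hy)
          · intro h
            exact (h x hx).symm
      refine ⟨fun x hx g => ?_⟩
      have hxK : g * x * g⁻¹ ∈ K := hKn.conj_mem x (hPK hx) g
      have hp : IsPGroup p (Subgroup.zpowers (⟨g * x * g⁻¹, hxK⟩ : K)) := by
        obtain ⟨r, hr⟩ := IsPGroup.iff_orderOf.mp P.2 ⟨x, hx⟩
        refine IsPGroup.of_card (n := r) ?_
        rw [Nat.card_zpowers, ← hr, ← Subgroup.orderOf_coe, ← Subgroup.orderOf_coe ⟨x, hx⟩]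
        exact (MulAut.conj g).orderOf_eq x
      obtain ⟨R, hR⟩ := hp.exists_le_sylow
      haveI := Sylow.unique_of_normal Q hQn
      have hmem := hR (Subgroup.mem_zpowers _)
      rw [Subsingleton.elim R Q] at hmem
      exact hmem

end Cfsg.Agent.TICent
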